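import Mathlib
import Cfsg.Agent.Lib.Helper17.Simple
import Cfsg.Agent.Lib.Helper17.Involution
import Cfsg.Agent.Lib.Helper17.PrimeSylow
import Cfsg.Agent.Lib.Helper90.BrauerDeg

set_option autoImplicit false

namespace Cfsg.Agent.Lib.Helper93.SO

open Equiv Cfsg.Agent.Lib.Helper17

/-- The support of a power of a permutation, in terms of the cycle type. -/
theorem card_support_pow_eq {α : Type*} [Fintype α] [DecidableEq α] (σ : Perm α) (d : ℕ) :
    (σ ^ d).support.card = ((σ.cycleType.filter (fun n => ¬ n ∣ d))).sum := by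
  refine Equiv.Perm.cycle_induction_on
    (P := fun σ : Perm α => (σ ^ d).support.card = ((σ.cycleType.filter (fun n => ¬ n ∣ d))).sum)
    σ ?_ ?_ ?_
  · simp
  · intro σ hσ
    rw [hσ.cycleType]
    by_cases h : σ.support.card ∣ d
    · have h1 : σ ^ d = 1 := by
        rw [← hσ.orderOf] at h
        exact orderOf_dvd_iff_pow_eq_one.mp h
      rw [h1, Multiset.filter_singleton, if_neg (by simpa using h)]
      simp
    · have hs : (σ ^ d).support = σ.support := by
        rw [hσ.support_pow_eq_iff, hσ.orderOf]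
        exact h
      rw [hs, Multiset.filter_singleton, if_pos h]
      simp
  · intro σ τ hd _ h1 h2
    have hmul : (σ * τ) ^ d = σ ^ d * τ ^ d := hd.commute.mul_pow d
    rw [hmul, (hd.pow_disjoint_pow d d).card_support_mul, hd.cycleType_mul, Multiset.filter_add,
      Multiset.sum_add, h1, h2]

theorem multiset_248 (m : Multiset ℕ) (h : ∀ n ∈ m, n = 2 ∨ n = 4 ∨ n = 8) :
    ∃ a b c : ℕ, m.sum = 2 * a + 4 * b + 8 * c ∧
      (m.filter (fun n => ¬ n ∣ 2)).sum = 4 * b + 8 * c ∧
      (m.filter (fun n => ¬ n ∣ 4)).sum = 8 * c ∧ Multiset.card m = a + b + c := by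
  induction m using Multiset.induction_on with
  | empty => exact ⟨0, 0, 0, by simp⟩
  | cons n m ih =>
    obtain ⟨a, b, c, h1, h2, h3, h4⟩ := ih (fun k hk => h k (Multiset.mem_cons_of_mem hk))
    rcases h n (Multiset.mem_cons_self n m) with rfl | rfl | rfl
    · refine ⟨a + 1, b, c, ?_, ?_, ?_, ?_⟩
      · rw [Multiset.sum_cons, h1]; ring
      · rw [Multiset.filter_cons_of_neg _ (by norm_num), h2]
      · rw [Multiset.filter_cons_of_neg _ (by norm_num), h3]
      · rw [Multiset.card_cons, h4]; ring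
    · refine ⟨a, b + 1, c, ?_, ?_, ?_, ?_⟩
      · rw [Multiset.sum_cons, h1]; ring
      · rw [Multiset.filter_cons_of_pos _ (by norm_num), Multiset.sum_cons, h2]; ring
      · rw [Multiset.filter_cons_of_neg _ (by norm_num), h3]
      · rw [Multiset.card_cons, h4]; ring
    · refine ⟨a, b, c + 1, ?_, ?_, ?_, ?_⟩
      · rw [Multiset.sum_cons, h1]; ring
      · rw [Multiset.filter_cons_of_pos _ (by norm_num), Multiset.sum_cons, h2]; ring
      · rw [Multiset.filter_cons_of_pos _ (by norm_num), Multiset.sum_cons, h3]; ring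
      · rw [Multiset.card_cons, h4]; ring

/-- Cycle structure of an even permutation of order dividing `8`. -/
theorem perm_pow8 {α : Type*} [Fintype α] [DecidableEq α] (σ : Perm α) (h8 : σ ^ 8 = 1)
    (hs : Perm.sign σ = 1) :
    ∃ a b c : ℕ, σ.support.card = 2 * a + 4 * b + 8 * c ∧
      (σ ^ 2).support.card = 4 * b + 8 * c ∧
      (σ ^ 4).support.card = 8 * c ∧ Even (a + b + c) := by
  have hm : ∀ n ∈ σ.cycleType, n = 2 ∨ n = 4 ∨ n = 8 := by
    intro n hn
    have h1 : n ∣ 8 := (Perm.dvd_of_mem_cycleType hn).trans (orderOf_dvd_of_pow_eq_one h8)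
    have h2 := Perm.two_le_of_mem_cycleType hn
    have h3 : n ≤ 8 := Nat.le_of_dvd (by norm_num) h1
    interval_cases n <;> revert h1 <;> decide
  obtain ⟨a, b, c, e1, e2, e3, e4⟩ := multiset_248 _ hm
  refine ⟨a, b, c, ?_, ?_, ?_, ?_⟩
  · rw [← Perm.sum_cycleType, e1]
  · rw [card_support_pow_eq, e2]
  · rw [card_support_pow_eq, e3]
  · have hsg := Perm.sign_of_cycleType σ
    rw [hs, e1, e4] at hsg
    by_contra hodd
    rw [Nat.not_even_iff_odd] at hodd
    have hodd' : Odd (2 * a + 4 * b + 8 * c + (a + b + c)) := by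
      obtain ⟨k, hk⟩ := hodd
      exact ⟨a + 2 * b + 4 * c + k, by omega⟩
    rw [hodd'.neg_one_pow] at hsg
    exact absurd hsg (by decide)

theorem ncard_fixed_add_support {α : Type*} [Fintype α] [DecidableEq α] (ρ : Perm α) :
    Set.ncard {x : α | ρ x = x} + ρ.support.card = Fintype.card α := by
  have h1 : {x : α | ρ x = x} = ((Finset.univ.filter (fun x => ρ x = x) : Finset α) : Set α) := by
    ext; simp
  rw [h1, Set.ncard_coe_finset]
  have h2 : ρ.support = Finset.univ.filter (fun x => ¬ ρ x = x) := by ext; simp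
  rw [h2, Finset.card_filter_add_card_filter_not, Finset.card_univ]

variable {G : Type*} [Group G]

/-- In a simple group of non-prime order acting on a finite set: the cycle structure of an
element of order dividing `8` is that of an even permutation. -/
theorem pow8_fixed [IsSimpleGroup G] (hG : ¬ (Nat.card G).Prime) {X : Type*} [Finite X]
    [MulAction G X] (g : G) (hg : g ^ 8 = 1) :
    ∃ a b c : ℕ, Set.ncard {x : X | g • x = x} + (2 * a + 4 * b + 8 * c) = Nat.card X ∧
      Set.ncard {x : X | g ^ 2 • x = x} + (4 * b + 8 * c) = Nat.card X ∧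
      Set.ncard {x : X | g ^ 4 • x = x} + 8 * c = Nat.card X ∧ Even (a + b + c) := by
  classical
  have : Fintype X := Fintype.ofFinite X
  set τ : Equiv.Perm X := MulAction.toPermHom G X g with hτ
  have hsign : Equiv.Perm.sign τ = 1 := sign_toPerm_eq_one hG g
  have hτ8 : τ ^ 8 = 1 := by rw [hτ, ← map_pow, hg, map_one]
  obtain ⟨a, b, c, e1, e2, e3, e4⟩ := perm_pow8 τ hτ8 hsign
  refine ⟨a, b, c, ?_, ?_, ?_, e4⟩
  · have := ncard_fixed_add_support τ
    rw [e1, ← Nat.card_eq_fintype_card] at this
    exact this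
  · have := ncard_fixed_add_support (τ ^ 2)
    rw [e2, ← Nat.card_eq_fintype_card] at this
    have h2 : τ ^ 2 = MulAction.toPermHom G X (g ^ 2) := by rw [hτ, map_pow]
    rw [h2] at this
    exact this
  · have := ncard_fixed_add_support (τ ^ 4)
    rw [e3, ← Nat.card_eq_fintype_card] at this
    have h2 : τ ^ 4 = MulAction.toPermHom G X (g ^ 4) := by rw [hτ, map_pow]
    rw [h2] at this
    exact this

end Cfsg.Agent.Lib.Helper93.SO
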