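import Mathlib
import Cfsg.Agent.Lib.Helper93.SOa
import Cfsg.Agent.Lib.Helper17.Count
import Cfsg.Agent.S1019

set_option autoImplicit false

namespace Cfsg.Agent.Lib.Helper93.SO

open Cfsg.Agent.Lib.Helper17

variable {G : Type*} [Group G] [Finite G]

/-- In a simple group of non-prime order with `n_p = p + 1`, `p` odd, twice the order of the
normalizer of a Sylow `p`-subgroup divides `p (p - 1)`. -/
theorem two_mul_card_normalizer_dvd_of_card_sylow_succ [IsSimpleGroup G]
    (hG : ¬ (Nat.card G).Prime) (p : ℕ) [Fact p.Prime] (hp2 : p ≠ 2)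
    (hn : Nat.card (Sylow p G) = p + 1) (hpG : p ∣ Nat.card G) (P : Sylow p G) :
    2 * Nat.card (Subgroup.normalizer ((P : Subgroup G) : Set G)) ∣ p * (p - 1) := by
  classical
  have hpp : p.Prime := Fact.out
  set H := Subgroup.normalizer ((P : Subgroup G) : Set G) with hHdef
  have hH : H.index = p + 1 := by
    rw [← hn]
    exact (P.card_eq_index_normalizer).symm
  have : Fintype (G ⧸ H) := Fintype.ofFinite _
  have hcard : Fintype.card (G ⧸ H) = p + 1 := by
    rw [← hH, Subgroup.index, Nat.card_eq_fintype_card]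
  have hHtop : H ≠ ⊤ := by
    intro h
    rw [h, Subgroup.index_top] at hH
    have := hpp.one_lt
    omega
  set φ := MulAction.toPermHom G (G ⧸ H) with hφ
  have hinj : Function.Injective φ := by
    rw [← MonoidHom.ker_eq_bot_iff, hφ, ← Subgroup.normalCore_eq_ker]
    rcases (H.normalCore_normal).eq_bot_or_eq_top with h | h
    · exact h
    · exact absurd (top_le_iff.mp (h ▸ Subgroup.normalCore_le H)) hHtop
  have hsign : ∀ g, Equiv.Perm.sign (φ g) = 1 := fun g => sign_toPerm_eq_one hG g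
  have hpP : p ∣ Nat.card (P : Subgroup G) := P.dvd_card_of_dvd_card hpG
  obtain ⟨Q, hQ⟩ := (P.2.map φ).exists_le_sylow
  have hcardQ : Nat.card (Q : Subgroup (Equiv.Perm (G ⧸ H))) = p := by
    rw [Sylow.card_eq_multiplicity, Nat.card_eq_fintype_card, Fintype.card_perm,
      Cfsg.Agent.S0989.factorization_factorial_eq_one p _ hpp (by rw [hcard]; omega)
        (by rw [hcard]; have := hpp.two_le; omega), pow_one]
  have hcardP' : Nat.card ((P : Subgroup G).map φ) = Nat.card (P : Subgroup G) :=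
    Subgroup.card_map_of_injective hinj
  have hPQ : (P : Subgroup G).map φ = (Q : Subgroup (Equiv.Perm (G ⧸ H))) := by
    apply Subgroup.eq_of_le_of_card_ge hQ
    rw [hcardQ, hcardP']
    exact Nat.le_of_dvd Nat.card_pos hpP
  set M := H.map φ with hM
  have h1 : M ≤
      Subgroup.normalizer ((Q : Subgroup (Equiv.Perm (G ⧸ H))) : Set (Equiv.Perm (G ⧸ H))) := by
    rw [← hPQ]
    exact Subgroup.le_normalizer_map φ
  have hMA : M ≤ alternatingGroup (G ⧸ H) := by
    rintro x ⟨g, -, rfl⟩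
    exact Equiv.Perm.mem_alternatingGroup.mpr (hsign g)
  obtain ⟨hQA, h2⟩ := Cfsg.Agent.S0990.result (α := G ⧸ H)
    (by rw [hcard]; have := hpp.two_le; omega) p hp2 Q
  rw [Cfsg.Agent.S0989.result p (Or.inr hcard) Q] at h2
  rw [← h2]
  apply Nat.mul_dvd_mul_left
  have h3 : M.subgroupOf (alternatingGroup (G ⧸ H)) ≤ Subgroup.normalizer
      (((Q : Subgroup (Equiv.Perm (G ⧸ H))).subgroupOf (alternatingGroup (G ⧸ H)) :
        Subgroup ↥(alternatingGroup (G ⧸ H))) : Set ↥(alternatingGroup (G ⧸ H))) := by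
    rw [← Subgroup.subgroupOf_normalizer_eq hQA]
    exact Subgroup.subgroupOf_mono _ h1
  have h4 := Subgroup.card_dvd_of_le h3
  rw [Nat.card_congr (Subgroup.subgroupOfEquivOfLe hMA).toEquiv, hM,
    Subgroup.card_map_of_injective hinj] at h4
  exact h4

/-- In a simple group of non-prime order, an involution `z` satisfies
`|C(z)| ≡ |G|` modulo `8`. -/
theorem card_centralizer_involution [IsSimpleGroup G] (hG : ¬ (Nat.card G).Prime) (z : G)
    (hz1 : z ≠ 1) (hz2 : z * z = 1) :
    ∃ c, Nat.card (Subgroup.centralizer ({z} : Set G)) + 8 * c = Nat.card G := by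
  classical
  set H := Subgroup.zpowers z with hH
  have hHcard : Nat.card H = 2 := by
    rw [hH, Nat.card_zpowers]
    exact orderOf_eq_prime (by rw [pow_two]; exact hz2) hz1
  have hmem : ∀ g : G, g ∈ H → g = 1 ∨ g = z := by
    intro g hg
    obtain ⟨k, rfl⟩ := Subgroup.mem_zpowers_iff.mp hg
    rcases Int.even_or_odd k with ⟨j, hj⟩ | ⟨j, hj⟩
    · left
      rw [hj, ← two_mul, zpow_mul, zpow_two, hz2, one_zpow]
    · right
      rw [hj, zpow_add, zpow_mul, zpow_two, hz2, one_zpow, one_mul, zpow_one]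
  have h19 := Cfsg.Agent.S1019.result H z (Subgroup.mem_zpowers z)
  have hone : Nat.card {g : G // IsConj z g ∧ g ∈ H} = 1 := by
    rw [Nat.card_eq_one_iff_unique]
    refine ⟨⟨?_⟩, ⟨⟨z, IsConj.refl z, Subgroup.mem_zpowers z⟩⟩⟩
    rintro ⟨a, ha1, ha2⟩ ⟨b, hb1, hb2⟩
    apply Subtype.ext
    have key : ∀ g : G, IsConj z g → g ∈ H → g = z := by
      intro g hg1 hg2
      rcases hmem g hg2 with h | h
      · exfalso
        rw [h] at hg1
        exact hz1 (isConj_one_left.mp hg1)
      · exact h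
    show a = b
    rw [key a ha1 ha2, key b hb1 hb2]
  rw [hone, mul_one] at h19
  have hcc := card_isConj_mul_card_centralizer z
  have hidx : H.index * 2 = Nat.card G := by
    rw [← hHcard]
    exact Subgroup.index_mul_card H
  obtain ⟨c, hc⟩ := involution_fixed_mod_four hG (X := G ⧸ H) z hz2
  have hfix : Set.ncard {x : G ⧸ H | z • x = x} = Nat.card (MulAction.fixedBy (G ⧸ H) z) := by
    rw [← Nat.card_coe_set_eq]
    rfl
  rw [hfix] at hc
  have hX : Nat.card (G ⧸ H) = H.index := rfl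
  rw [hX] at hc
  obtain ⟨F, hF⟩ : ∃ F, F = Nat.card (MulAction.fixedBy (G ⧸ H) z) := ⟨_, rfl⟩
  obtain ⟨K, hK⟩ : ∃ K, K = Nat.card {g : G // IsConj z g} := ⟨_, rfl⟩
  obtain ⟨Cz, hCz⟩ : ∃ Cz, Cz = Nat.card (Subgroup.centralizer ({z} : Set G)) := ⟨_, rfl⟩
  obtain ⟨I, hI⟩ : ∃ I, I = H.index := ⟨_, rfl⟩
  rw [← hF, ← hK, ← hI] at h19
  rw [← hK, ← hCz] at hcc
  rw [← hI] at hidx
  rw [← hF, ← hI] at hc
  rw [← hCz]
  refine ⟨c, ?_⟩
  have hGpos : 0 < Nat.card G := Nat.card_pos
  have hKpos : 0 < K := by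
    rcases Nat.eq_zero_or_pos K with h | h
    · rw [h, zero_mul] at hcc; omega
    · exact h
  -- F * K = I, K * Cz = |G|, I * 2 = |G|  =>  2 F = Cz
  have h2F : 2 * F = Cz := by
    have e1 : K * (2 * F) = K * Cz := by
      calc K * (2 * F) = (F * K) * 2 := by ring
        _ = I * 2 := by rw [h19]
        _ = K * Cz := by rw [hidx, hcc]
    exact Nat.eq_of_mul_eq_mul_left hKpos e1
  omega

end Cfsg.Agent.Lib.Helper93.SO
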