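import Mathlib
import Cfsg.Agent.Lib.Helper93.SOb

set_option autoImplicit false

namespace Cfsg.Agent.Lib.Helper93.SO

open Cfsg.Agent.Lib.Helper17

variable {G : Type*} [Group G] [Finite G]

/-- The fixed points on `Syl_p` of an element centralizing a Sylow `p`-subgroup `P`
number `1` modulo `p`. -/
theorem ncard_fixed_centralizer_mod (p : ℕ) [Fact p.Prime] (P : Sylow p G) (z : G)
    (hzC : z ∈ Subgroup.centralizer ((P : Subgroup G) : Set G)) :
    Set.ncard {Q : Sylow p G | z • Q = Q} % p = 1 := by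
  classical
  have hpp : p.Prime := Fact.out
  set F : Set (Sylow p G) := {Q : Sylow p G | z • Q = Q} with hF
  let inst : MulAction (P : Subgroup G) F :=
    { smul := fun y Q => ⟨(y : G) • (Q : Sylow p G), by
        show z • ((y : G) • (Q : Sylow p G)) = (y : G) • (Q : Sylow p G)
        have hQ : z • (Q : Sylow p G) = Q := Q.2
        have hcomm : z * (y : G) = (y : G) * z :=
          (Subgroup.mem_centralizer_iff.mp hzC y y.2).symm
        rw [← mul_smul, hcomm, mul_smul, hQ]⟩
      one_smul := fun Q => Subtype.ext (one_smul G (Q : Sylow p G))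
      mul_smul := fun y z Q => Subtype.ext (mul_smul (y : G) (z : G) (Q : Sylow p G)) }
  have hsmul : ∀ (y : (P : Subgroup G)) (Q : F),
      ((y • Q : F) : Sylow p G) = (y : G) • (Q : Sylow p G) := fun _ _ => rfl
  have hmod := P.2.card_modEq_card_fixedPoints F
  have hPF : P ∈ F := by
    show z • P = P
    exact Sylow.smul_eq_iff_mem_normalizer.mpr (Subgroup.centralizer_le_normalizer _ hzC)
  have hfix : MulAction.fixedPoints (P : Subgroup G) F = {⟨P, hPF⟩} := by
    ext ⟨Q, hQ⟩
    simp only [MulAction.mem_fixedPoints, Set.mem_singleton_iff, Subtype.mk.injEq]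
    constructor
    · intro h
      have h' : ∀ y : (P : Subgroup G), (y : G) • Q = Q := fun y => by
        have := congrArg Subtype.val (h y)
        rwa [hsmul] at this
      have hle : (P : Subgroup G) ≤ Subgroup.normalizer ((Q : Subgroup G) : Set G) :=
        fun y hy => Sylow.smul_eq_iff_mem_normalizer.mp (h' ⟨y, hy⟩)
      have h4 : (P : Subgroup G) ⊓ Subgroup.normalizer ((Q : Subgroup G) : Set G)
          = (P : Subgroup G) ⊓ (Q : Subgroup G) := P.2.inf_normalizer_sylow Q
      rw [inf_eq_left.mpr hle] at h4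
      have hle' : (P : Subgroup G) ≤ (Q : Subgroup G) := inf_eq_left.mp h4.symm
      exact Sylow.ext (P.3 Q.2 hle')
    · rintro rfl y
      apply Subtype.ext
      rw [hsmul]
      exact Sylow.smul_eq_iff_mem_normalizer.mpr (Subgroup.le_normalizer y.2)
  rw [hfix, Nat.card_coe_set_eq, Nat.card_coe_set_eq, Set.ncard_singleton] at hmod
  have h1 : 1 % p = 1 := Nat.mod_eq_of_lt hpp.one_lt
  unfold Nat.ModEq at hmod
  rw [h1] at hmod
  exact hmod

/-- Sign rule: if `n_p ≤ 3p + 1` (`p` odd, `|P| = p`) no involution centralizes `P`. -/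
theorem involution_centralizer_sylow_eq_one [IsSimpleGroup G] (hG : ¬ (Nat.card G).Prime)
    (p : ℕ) [Fact p.Prime] (hp2 : p ≠ 2) (P : Sylow p G)
    (hn1 : Nat.card (Sylow p G) ≠ 1) (hn : Nat.card (Sylow p G) ≤ 3 * p + 1)
    (z : G) (hzC : z ∈ Subgroup.centralizer ((P : Subgroup G) : Set G)) (hz2 : z * z = 1) :
    z = 1 := by
  classical
  have hpp : p.Prime := Fact.out
  set F : Set (Sylow p G) := {Q : Sylow p G | z • Q = Q} with hF
  obtain ⟨c4, hc4⟩ := involution_fixed_mod_four hG (X := Sylow p G) z hz2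
  have hFp : F.ncard % p = 1 := ncard_fixed_centralizer_mod p P z hzC
  have hXp := card_sylow_mod (G := G) p
  have hc4' : F.ncard + 4 * c4 = Nat.card (Sylow p G) := hc4
  have hdvd : p ∣ 4 * c4 := by
    have e1 : (F.ncard + 4 * c4) % p = 1 := by rw [hc4']; exact hXp
    have e2 : (F.ncard + 4 * c4) % p = (F.ncard % p + (4 * c4) % p) % p := Nat.add_mod _ _ _
    rw [hFp] at e2
    have hlt : (4 * c4) % p < p := Nat.mod_lt _ hpp.pos
    have h1lt : 1 < p := hpp.one_lt
    apply Nat.dvd_of_mod_eq_zero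
    by_contra hne
    rcases Nat.lt_or_ge (1 + (4 * c4) % p) p with h | h
    · rw [Nat.mod_eq_of_lt h] at e2
      omega
    · have h3 : 1 + (4 * c4) % p = p := by omega
      rw [h3, Nat.mod_self] at e2
      omega
  have hcop : Nat.Coprime p 4 := by
    have : Nat.Coprime p 2 := (Nat.coprime_primes hpp Nat.prime_two).mpr hp2
    exact Nat.Coprime.pow_right 2 this
  have hc : p ∣ c4 := hcop.dvd_of_dvd_mul_left hdvd
  have hFpos : 1 ≤ F.ncard := by
    by_contra h
    have : F.ncard = 0 := by omega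
    rw [this, Nat.zero_mod] at hFp
    omega
  have hc0 : c4 = 0 := by
    by_contra h
    have : p ≤ c4 := Nat.le_of_dvd (Nat.pos_of_ne_zero h) hc
    omega
  have hFu : F = Set.univ := by
    apply Set.eq_of_subset_of_ncard_le (Set.subset_univ _) _ (Set.toFinite _)
    rw [Set.ncard_univ]
    omega
  have hall : ∀ Q : Sylow p G, z • Q = Q := by
    intro Q
    have : Q ∈ F := by rw [hFu]; trivial
    exact this
  have hcore : z ∈ (Subgroup.normalizer ((P : Subgroup G) : Set G)).normalCore := by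
    intro g
    apply Sylow.smul_eq_iff_mem_normalizer.mp
    rw [mul_smul, mul_smul, hall (g⁻¹ • P), smul_inv_smul]
  rcases (Subgroup.normalCore_normal
    (Subgroup.normalizer ((P : Subgroup G) : Set G))).eq_bot_or_eq_top with h | h
  · rw [h] at hcore
    exact Subgroup.mem_bot.mp hcore
  · exact absurd (top_le_iff.mp (h ▸ Subgroup.normalCore_le _)) (normalizer_sylow_ne_top p P hn1)

/-- If `|C(P)| = 2p` for a Sylow subgroup of odd prime order `p`, the involution `z` of `C(P)`
has `|C(z)| = k |N(P)|` with `k ≡ 1` mod `p`. -/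
theorem exists_involution_centralizer (p : ℕ) [Fact p.Prime] (hp2 : p ≠ 2) (P : Sylow p G)
    (hP : Nat.card (P : Subgroup G) = p)
    (hC : Nat.card (Subgroup.centralizer ((P : Subgroup G) : Set G)) = 2 * p) :
    ∃ z : G, z ≠ 1 ∧ z * z = 1 ∧ z ∈ Subgroup.centralizer ((P : Subgroup G) : Set G) ∧
      ∃ k, k % p = 1 ∧ Nat.card (Subgroup.centralizer ({z} : Set G)) =
        k * Nat.card (Subgroup.normalizer ((P : Subgroup G) : Set G)) := by
  classical
  have hpp : p.Prime := Fact.out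
  have : Fact (Nat.Prime 2) := ⟨Nat.prime_two⟩
  set N := Subgroup.normalizer ((P : Subgroup G) : Set G) with hNdef
  set C := Subgroup.centralizer ((P : Subgroup G) : Set G) with hCdef
  have hCN : C ≤ N := Subgroup.centralizer_le_normalizer _
  have hPN : (P : Subgroup G) ≤ N := Subgroup.le_normalizer
  have hPC : (P : Subgroup G) ≤ C := by
    have : IsMulCommutative (P : Subgroup G) := by
      have hcyc : IsCyclic (P : Subgroup G) := isCyclic_of_prime_card hP
      exact ⟨⟨fun a b => (IsCyclic.commGroup (α := (P : Subgroup G))).mul_comm a b⟩⟩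
    exact Subgroup.le_centralizer (P : Subgroup G)
  have hP2 : ∀ y : G, y ∈ (P : Subgroup G) → y * y = 1 → y = 1 := by
    intro y hy hyy
    by_contra hy1
    have h1 := orderOf_eq_of_mem_of_card_prime hpp (P : Subgroup G) hP y hy hy1
    have h2 : orderOf y ∣ 2 := orderOf_dvd_of_pow_eq_one (by rw [pow_two]; exact hyy)
    rw [h1] at h2
    exact hp2 ((Nat.prime_dvd_prime_iff_eq hpp Nat.prime_two).mp h2)
  obtain ⟨t', ht'⟩ := exists_prime_orderOf_dvd_card' (G := C) 2 (by rw [hC]; exact dvd_mul_right 2 p)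
  obtain ⟨t, htdef⟩ : ∃ t : G, t = (t' : G) := ⟨_, rfl⟩
  have htC : t ∈ C := by rw [htdef]; exact t'.2
  have hto : orderOf t = 2 := by rw [htdef, Subgroup.orderOf_coe]; exact ht'
  have ht1 : t ≠ 1 := by
    intro h
    rw [h, orderOf_one] at hto
    omega
  have ht2 : t * t = 1 := by
    rw [← pow_two, ← hto]
    exact pow_orderOf_eq_one t
  have htinv : t⁻¹ = t := inv_eq_of_mul_eq_one_left ht2
  have huniq : ∀ v : G, v ∈ C → v ≠ 1 → v * v = 1 → v = t := by
    intro v hvC hv1 hv2
    have hidx : ((P : Subgroup G).subgroupOf C).index = 2 := by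
      have h1 := Subgroup.index_mul_card ((P : Subgroup G).subgroupOf C)
      rw [Nat.card_congr (Subgroup.subgroupOfEquivOfLe hPC).toEquiv, hP, hC] at h1
      exact Nat.eq_of_mul_eq_mul_right hpp.pos h1
    have hvP : v ∉ (P : Subgroup G) := fun h => hv1 (hP2 v h hv2)
    have htP : t ∉ (P : Subgroup G) := fun h => ht1 (hP2 t h ht2)
    have hmul := Subgroup.mul_mem_iff_of_index_two hidx (a := (⟨v, hvC⟩ : C)) (b := (⟨t, htC⟩ : C))
    have hvt : v * t ∈ (P : Subgroup G) := by
      have h1 : ((⟨v, hvC⟩ : C) * (⟨t, htC⟩ : C)) ∈ (P : Subgroup G).subgroupOf C := by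
        rw [hmul]
        simp only [Subgroup.mem_subgroupOf]
        exact ⟨fun h => absurd h hvP, fun h => absurd h htP⟩
      simpa [Subgroup.mem_subgroupOf] using h1
    have hcomm : (v * t) * v = v * (v * t) := Subgroup.mem_centralizer_iff.mp hvC _ hvt
    have hvt' : t * v = v * t := by
      rw [mul_assoc] at hcomm
      exact mul_left_cancel hcomm
    have h1 : (v * t) * (v * t) = 1 := by
      calc (v * t) * (v * t) = v * (t * v) * t := by group
        _ = v * (v * t) * t := by rw [hvt']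
        _ = (v * v) * (t * t) := by group
        _ = 1 := by rw [hv2, ht2, one_mul]
    have h2 := hP2 _ hvt h1
    calc v = t⁻¹ := eq_inv_of_mul_eq_one_left h2
      _ = t := htinv
  have hconj : ∀ g : G, g * t * g⁻¹ ≠ 1 ∧ (g * t * g⁻¹) * (g * t * g⁻¹) = 1 := by
    intro g
    constructor
    · intro h
      apply ht1
      have h1 : t = g⁻¹ * (g * t * g⁻¹) * g := by group
      rw [h1, h]
      group
    · calc (g * t * g⁻¹) * (g * t * g⁻¹) = g * (t * t) * g⁻¹ := by group
        _ = 1 := by rw [ht2]; group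
  have hNt : ∀ n : G, n ∈ N → n * t = t * n := by
    intro n hn
    have hcj : n * t * n⁻¹ ∈ C := by
      rw [hCdef, Subgroup.mem_centralizer_iff]
      intro y hy
      have hy' : n⁻¹ * y * n ∈ (P : Subgroup G) := by
        have := (Subgroup.mem_normalizer_iff.mp (inv_mem hn) y).mp hy
        rwa [inv_inv] at this
      have h1 : (n⁻¹ * y * n) * t = t * (n⁻¹ * y * n) := Subgroup.mem_centralizer_iff.mp htC _ hy'
      calc y * (n * t * n⁻¹) = n * ((n⁻¹ * y * n) * t) * n⁻¹ := by group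
        _ = n * (t * (n⁻¹ * y * n)) * n⁻¹ := by rw [h1]
        _ = n * t * n⁻¹ * y := by group
    have h3 := huniq _ hcj (hconj n).1 (hconj n).2
    calc n * t = (n * t * n⁻¹) * n := by group
      _ = t * n := by rw [h3]
  set H := Subgroup.centralizer ({t} : Set G) with hHdef
  have hmemH : ∀ g : G, g ∈ H ↔ g * t = t * g := by
    intro g
    rw [hHdef, Subgroup.mem_centralizer_iff]
    simp only [Set.mem_singleton_iff, forall_eq]
    exact eq_comm
  have hNH : N ≤ H := fun n hn => (hmemH n).mpr (hNt n hn)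
  have hPH : (P : Subgroup G) ≤ H := hPN.trans hNH
  refine ⟨t, ht1, ht2, htC, (N.subgroupOf H).index, ?_, ?_⟩
  · have h1 : Nat.card (Sylow p H) ≡ 1 [MOD p] := card_sylow_modEq_one p H
    have h2 : Nat.card (Sylow p H) =
        (Subgroup.normalizer (((P.subtype hPH : Sylow p H) : Subgroup H) : Set H)).index :=
      (P.subtype hPH).card_eq_index_normalizer
    have h3 : Subgroup.normalizer (((P.subtype hPH : Sylow p H) : Subgroup H) : Set H) =
        N.subgroupOf H := by
      rw [Sylow.coe_subtype]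
      exact (Subgroup.subgroupOf_normalizer_eq hPH).symm
    rw [h3] at h2
    rw [h2] at h1
    unfold Nat.ModEq at h1
    rw [h1]
    exact Nat.mod_eq_of_lt hpp.one_lt
  · have := Subgroup.index_mul_card (N.subgroupOf H)
    rw [Nat.card_congr (Subgroup.subgroupOfEquivOfLe hNH).toEquiv] at this
    exact this.symm

/-- Data of a Sylow subgroup of prime order in a simple group. -/
theorem sylow_prime_data [IsSimpleGroup G] (p m q : ℕ) [Fact p.Prime] (hq : q.Prime)
    (hqp : q ≠ p) (hcard : Nat.card G = p * m) (hm : ¬ p ∣ m) (hqG : q ∣ Nat.card G) :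
    ¬ (Nat.card G).Prime ∧ ∃ (P : Sylow p G) (d r : ℕ), Nat.card (P : Subgroup G) = p ∧
      Nat.card (Sylow p G) = d ∧ d ∈ sylowCands p m ∧ d ≠ 1 ∧
      2 * Nat.card G ∣ d.factorial ∧
      d * Nat.card (Subgroup.normalizer ((P : Subgroup G) : Set G)) = Nat.card G ∧
      (Subgroup.centralizer ((P : Subgroup G) : Set G)).relIndex
        (Subgroup.normalizer ((P : Subgroup G) : Set G)) = r ∧ r ≠ 1 ∧ r ∣ p - 1 ∧
      r * Nat.card (Subgroup.centralizer ((P : Subgroup G) : Set G)) =
        Nat.card (Subgroup.normalizer ((P : Subgroup G) : Set G)) ∧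
      (P : Subgroup G) ≤ Subgroup.centralizer ((P : Subgroup G) : Set G) := by
  have hpp : p.Prime := Fact.out
  have hpG : p ∣ Nat.card G := by rw [hcard]; exact dvd_mul_right p m
  have hGn : ¬ (Nat.card G).Prime := by
    intro h
    have h1 := (Nat.prime_dvd_prime_iff_eq hpp h).mp hpG
    have h2 := (Nat.prime_dvd_prime_iff_eq hq h).mp hqG
    exact hqp (h2.trans h1.symm)
  have hm0 : m ≠ 0 := fun h0 => hm (h0 ▸ dvd_zero p)
  refine ⟨hGn, ?_⟩
  obtain ⟨P⟩ := (Sylow.nonempty : Nonempty (Sylow p G))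
  have hP : Nat.card (P : Subgroup G) = p := by
    simpa using card_sylow_eq_of_card_eq p 1 m (by rw [hcard, pow_one]) hm P
  have hc := card_sylow_mem_cands (G := G) p 1 m (by rw [hcard, pow_one]) hm0
  have h1 : Nat.card (Sylow p G) ≠ 1 := card_sylow_ne_one p hpG q hq hqp hqG
  have h2 := two_mul_card_dvd_factorial_card_sylow hGn p h1
  have h4 := card_sylow_mul_card_normalizer p P
  obtain ⟨hr1, hr2, hr3, hPC⟩ := relIndex_centralizer_sylow_prime hGn p P hP
  exact ⟨P, _, _, hP, rfl, hc, h1, h2, h4, rfl, hr1, hr2, hr3, hPC⟩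

theorem m2_norm0 (T d δ y : ℤ) (hT : 2 ≤ T) (hδ : δ = 1 ∨ δ = -1)
    (h : (d - δ) ^ 2 + (T - 1) * d ^ 2 + 1 = 2 + 1) (hfin : (T * d - δ) * y + 1 = 0) : False := by
  have hd1 : -1 ≤ d ∧ d ≤ 1 := by
    constructor <;> rcases hδ with rfl | rfl <;>
      nlinarith [sq_nonneg (d - 1), sq_nonneg (d + 1), sq_nonneg d]
  obtain ⟨hd1, hd2⟩ := hd1
  rcases hδ with rfl | rfl
  · interval_cases d
    · nlinarith
    · nlinarith
    · have hT3 : T = 3 := by nlinarith
      rw [hT3] at hfin
      omega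
  · interval_cases d
    · have hT3 : T = 3 := by nlinarith
      rw [hT3] at hfin
      omega
    · nlinarith
    · nlinarith

theorem m2_norm1 (T d δ a : ℤ) (hT : 2 ≤ T) (hδ : δ = 1 ∨ δ = -1) (ha : a ≠ 0)
    (h : (d - δ) ^ 2 + (T - 1) * d ^ 2 + 1 + a ^ 2 = 2 + 1) :
    (a = 1 ∨ a = -1) ∧ (T * d - δ = 1 ∨ T * d - δ = -1) := by
  have hapos : 1 ≤ a ^ 2 := by
    rcases lt_trichotomy a 0 with h | h | h
    · nlinarith
    · exact absurd h ha
    · nlinarith
  have hd1 : -1 ≤ d ∧ d ≤ 1 := by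
    constructor <;> rcases hδ with rfl | rfl <;>
      nlinarith [sq_nonneg (d - 1), sq_nonneg (d + 1), sq_nonneg d]
  obtain ⟨hd1, hd2⟩ := hd1
  have hsq : ∀ b : ℤ, b ^ 2 = 1 → b = 1 ∨ b = -1 := by
    intro b hb
    have h1 : (b - 1) * (b + 1) = 0 := by nlinarith
    rcases mul_eq_zero.mp h1 with h | h
    · left; omega
    · right; omega
  rcases hδ with rfl | rfl
  · interval_cases d
    · exfalso; nlinarith
    · refine ⟨hsq _ (by nlinarith), ?_⟩
      right; ring
    · have hT' : T = 2 := by nlinarith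
      refine ⟨hsq _ (by nlinarith), ?_⟩
      left; rw [hT']; ring
  · interval_cases d
    · have hT' : T = 2 := by nlinarith
      refine ⟨hsq _ (by nlinarith), ?_⟩
      right; rw [hT']; ring
    · refine ⟨hsq _ (by nlinarith), ?_⟩
      left; ring
    · exfalso; nlinarith

theorem mod_of_modEq_one (p x : ℕ) (hp : 1 < p) (h : (x : ℤ) ≡ 1 [ZMOD p]) : x % p = 1 := by
  have h1 : ((x : ℕ) : ℤ) ≡ ((1 : ℕ) : ℤ) [ZMOD ((p : ℕ) : ℤ)] := by simpa using h
  have h2 : x ≡ 1 [MOD p] := Int.natCast_modEq_iff.mp h1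
  unfold Nat.ModEq at h2
  rw [h2]
  exact Nat.mod_eq_of_lt hp

theorem mod_of_modEq_neg_one (p x : ℕ) (hp : 1 < p) (h : (x : ℤ) ≡ -1 [ZMOD p]) :
    x % p = p - 1 := by
  have h0 : (x : ℤ) + 1 ≡ -1 + 1 [ZMOD p] := h.add_right 1
  have h1 : ((x + 1 : ℕ) : ℤ) ≡ ((0 : ℕ) : ℤ) [ZMOD ((p : ℕ) : ℤ)] := by
    push_cast
    simpa using h0
  have h2 : x + 1 ≡ 0 [MOD p] := Int.natCast_modEq_iff.mp h1
  have h3 : p ∣ x + 1 := (Nat.modEq_zero_iff_dvd).mp h2
  obtain ⟨c, hc⟩ := h3
  have hc1 : 1 ≤ c := by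
    rcases Nat.eq_zero_or_pos c with h | h
    · rw [h] at hc; omega
    · exact h
  obtain ⟨c', rfl⟩ : ∃ c', c = c' + 1 := ⟨c - 1, by omega⟩
  have hx : x = (p - 1) + p * c' := by
    have : p * (c' + 1) = p * c' + p := by ring
    omega
  rw [hx, Nat.add_mul_mod_self_left]
  exact Nat.mod_eq_of_lt (by omega)

/-- Brauer's degree equation for `[N(P) : C(P)] = 2`. -/
theorem brauer_m2 [IsSimpleGroup G] (hG : ¬ (Nat.card G).Prime) (p : ℕ) [Fact p.Prime]
    (hp : 3 < p) (P : Sylow p G) (hP : Nat.card (P : Subgroup G) = p)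
    (hm : (Subgroup.centralizer ((P : Subgroup G) : Set G)).relIndex
      (Subgroup.normalizer ((P : Subgroup G) : Set G)) = 2) :
    ∃ x y : ℕ, x ∣ Nat.card G ∧ x ≠ 1 ∧ y ∣ Nat.card G ∧
      ((x % p = 1 ∧ y = x + 1) ∨ (x % p = p - 1 ∧ x = y + 1)) := by
  have hpp : p.Prime := Fact.out
  obtain ⟨k, a, x, d, δ, y, hk, hδ, hax, hy0, hyd, hnorm, hfin⟩ :=
    Cfsg.Agent.Lib.Helper90.BrauerDeg.brauer_simple hG p P hP 2 (by omega) hm
  obtain ⟨T, hT⟩ : ∃ T : ℕ, T = (p - 1) / 2 := ⟨_, rfl⟩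
  rw [← hT] at hnorm hfin
  have hT2 : 2 ≤ T := by
    rw [hT]
    have h5 : 5 ≤ p := by
      rcases Nat.lt_or_ge p 5 with h | h
      · exfalso
        have h4 : p = 4 := by omega
        rw [h4] at hpp
        exact absurd hpp (by norm_num)
      · exact h
    omega
  have hT2' : (2 : ℤ) ≤ (T : ℤ) := by exact_mod_cast hT2
  push_cast at hnorm hfin
  have hk' : k = 0 ∨ k = 1 := by omega
  rcases hk' with rfl | rfl
  · exfalso
    simp only [Finset.univ_eq_empty, Finset.sum_empty, add_zero] at hnorm hfin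
    exact m2_norm0 T d δ y hT2' hδ hnorm hfin
  · simp only [Fin.sum_univ_succ, Fin.sum_univ_zero, add_zero] at hnorm hfin
    obtain ⟨ha0, hxd, hx1, hxa⟩ := hax 0
    have hGpos : 0 < Nat.card G := Nat.card_pos
    have hx0 : 0 < x 0 := Nat.pos_of_dvd_of_pos hxd hGpos
    have hx2 : (2 : ℤ) ≤ (x 0 : ℤ) := by
      have : 2 ≤ x 0 := by omega
      exact_mod_cast this
    have hy1 : (1 : ℤ) ≤ (y : ℤ) := by exact_mod_cast hy0
    obtain ⟨ha, hε⟩ := m2_norm1 T d δ (a 0) hT2' hδ ha0 hnorm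
    have hp1 : 1 < p := hpp.one_lt
    refine ⟨x 0, y, hxd, hx1, hyd, ?_⟩
    rcases hε with hε | hε <;> rcases ha with ha | ha <;> rw [hε, ha] at hfin
    · exfalso; omega
    · right
      rw [ha] at hxa
      exact ⟨mod_of_modEq_neg_one p (x 0) hp1 hxa, by omega⟩
    · left
      rw [ha] at hxa
      exact ⟨mod_of_modEq_one p (x 0) hp1 hxa, by omega⟩
    · exfalso; omega

end Cfsg.Agent.Lib.Helper93.SO
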