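import Mathlib
import Cfsg.Agent.Lib.Helper93.SOc
import Cfsg.Agent.Lib.Helper17.Tame
import Cfsg.Agent.S0144
import Cfsg.Agent.S0499

set_option autoImplicit false

namespace Cfsg.Agent.Lib.Helper93.SO

open Cfsg.Agent.Lib.Helper17

universe u

/-- No non-abelian simple group has order `n`. -/
def NoSimple (n : ℕ) : Prop :=
  ∀ (G : Type u) [Group G] [Finite G] [IsSimpleGroup G], ¬ IsMulCommutative G → Nat.card G ≠ n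

def isPrimeB (p : ℕ) : Bool :=
  decide (2 ≤ p) && (List.range p).all (fun d => decide (d < 2) || decide (p % d ≠ 0))

theorem prime_of_isPrimeB {p : ℕ} (h : isPrimeB p = true) : p.Prime := by
  simp only [isPrimeB, Bool.and_eq_true, decide_eq_true_eq, List.all_eq_true, List.mem_range,
    Bool.or_eq_true] at h
  obtain ⟨h2, hall⟩ := h
  rw [Nat.prime_def_lt]
  refine ⟨h2, fun m hm hmd => ?_⟩
  rcases hall m hm with h | h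
  · rcases Nat.eq_zero_or_pos m with h0 | h0
    · rw [h0] at hmd
      have := Nat.eq_zero_of_zero_dvd hmd
      omega
    · omega
  · exact absurd (Nat.mod_eq_zero_of_dvd hmd) h

theorem noSimple_zero : NoSimple.{u} 0 := by
  intro G _ _ _ _ hcard
  have : 0 < Nat.card G := Nat.card_pos
  omega

theorem noSimple_two_primes (n p a q b : ℕ) (hp : p.Prime) (hq : q.Prime)
    (hn : n = p ^ a * q ^ b) : NoSimple.{u} n := by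
  intro G _ _ _ hG hcard
  have hsol := Cfsg.Agent.S0144.result p q a b hp hq (hcard.trans hn)
  have hcomm := (IsSimpleGroup.comm_iff_isSolvable (G := G)).mpr hsol
  exact hG ⟨⟨hcomm⟩⟩

theorem noSimple_s0499 (n : ℕ) (h2 : n % 2 = 0) (h12 : n % 12 ≠ 0) (h16 : n % 16 ≠ 0)
    (h56 : n % 56 ≠ 0) : NoSimple.{u} n := by
  intro G _ _ _ hG hcard
  have := Cfsg.Agent.S0499.result hG (by rw [hcard]; exact Nat.even_iff.mpr h2)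
  rw [hcard] at this
  omega

theorem not_prime_of_two_primes {n p q : ℕ} (hp : p.Prime) (hq : q.Prime) (hqp : q ≠ p)
    (hpn : p ∣ n) (hqn : q ∣ n) : ¬ n.Prime := by
  intro h
  have h1 := (Nat.prime_dvd_prime_iff_eq hp h).mp hpn
  have h2 := (Nat.prime_dvd_prime_iff_eq hq h).mp hqn
  exact hqp (h2.trans h1.symm)

theorem noSimple_sylow (n p a q m : ℕ) (hp : p.Prime) (hq : q.Prime) (hqp : q ≠ p)
    (hqn : q ∣ n) (ha : 1 ≤ a) (hn : n = p ^ a * m) (hm : ¬ p ∣ m)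
    (hall : ∀ d ∈ sylowCands p m, d = 1 ∨ ¬ (2 * n ∣ d.factorial)) : NoSimple.{u} n := by
  intro G _ _ _ hG hcard
  have : Fact p.Prime := ⟨hp⟩
  have hm0 : m ≠ 0 := fun h0 => hm (h0 ▸ dvd_zero p)
  have hpn : p ∣ n := by
    rw [hn]
    exact Dvd.dvd.mul_right (dvd_pow_self p (by omega)) m
  have hGn : ¬ (Nat.card G).Prime := by
    rw [hcard]
    exact not_prime_of_two_primes hp hq hqp hpn hqn
  have hc := card_sylow_mem_cands (G := G) p a m (hcard.trans hn) hm0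
  have h1 : Nat.card (Sylow p G) ≠ 1 :=
    card_sylow_ne_one p (by rw [hcard]; exact hpn) q hq hqp (by rw [hcard]; exact hqn)
  have h2 := two_mul_card_dvd_factorial_card_sylow hGn p h1
  rw [hcard] at h2
  rcases hall _ hc with h | h
  · exact h1 h
  · exact h h2

theorem noSimple_tame (n p a q m k : ℕ) (hp : p.Prime) (hq : q.Prime) (hqp : q ≠ p)
    (hqn : q ∣ n) (ha : 1 ≤ a) (hk : k ≤ a) (hn : n = p ^ a * m) (hm : ¬ p ∣ m)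
    (ht : TameCheck p a m k)
    (hall : ∀ d ∈ sylowCands p m, d = 1 ∨ ¬ (2 * n ∣ d.factorial) ∨ d % p ^ k ≠ 1 % p ^ k) :
    NoSimple.{u} n := by
  intro G _ _ _ hG hcard
  have : Fact p.Prime := ⟨hp⟩
  have hm0 : m ≠ 0 := fun h0 => hm (h0 ▸ dvd_zero p)
  have hpn : p ∣ n := by
    rw [hn]
    exact Dvd.dvd.mul_right (dvd_pow_self p (by omega)) m
  have hGn : ¬ (Nat.card G).Prime := by
    rw [hcard]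
    exact not_prime_of_two_primes hp hq hqp hpn hqn
  have hc := card_sylow_mem_cands (G := G) p a m (hcard.trans hn) hm0
  have h1 : Nat.card (Sylow p G) ≠ 1 :=
    card_sylow_ne_one p (by rw [hcard]; exact hpn) q hq hqp (by rw [hcard]; exact hqn)
  have h2 := two_mul_card_dvd_factorial_card_sylow hGn p h1
  rw [hcard] at h2
  have h3 := card_sylow_modEq_of_tameCheck hGn p a m k (hcard.trans hn) hm hk ht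
  rcases hall _ hc with h | h | h
  · exact h1 h
  · exact h h2
  · exact h h3

def invCheck (n p d : ℕ) : Bool :=
  (List.range (d + 1)).all (fun k => !(decide (k % p = 1) && decide (k ∣ d)) || decide (k = d) ||
    !decide (2 * n ∣ (d / k).factorial) || decide ((n - k * (n / d)) % 8 ≠ 0))

def brauer2Check (n p : ℕ) : Bool :=
  (List.range (n + 1)).all (fun x => !(decide (x ∣ n) && decide (x ≠ 1)) ||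
    (!(decide (x % p = 1) && decide ((x + 1) ∣ n)) &&
      !(decide (x % p = p - 1) && decide ((x - 1) ∣ n))))

def rOK (n p d r : ℕ) : Bool :=
  (decide (d ≤ 3 * p + 1) && decide ((n / d / r) % 2 = 0)) ||
  (decide (n / d / r = 2 * p) && invCheck n p d) ||
  (decide (r = 2) && decide (3 < p) && brauer2Check n p)

def dOK (n p d : ℕ) : Bool :=
  decide (d = 1) || !decide (2 * n ∣ d.factorial) ||
  (decide (d = p + 1) && !decide (2 * (n / d) ∣ p * (p - 1))) ||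
  (List.range p).all (fun r => !(decide (r ∣ p - 1) && decide (r ≠ 1) && decide (r ∣ n / d) &&
    decide (p ∣ n / d / r)) || rOK n p d r)

theorem centralizer_singleton_ne_top {G : Type*} [Group G] [IsSimpleGroup G]
    (hG : ¬ IsMulCommutative G) (z : G) (hz : z ≠ 1) :
    Subgroup.centralizer ({z} : Set G) ≠ ⊤ := by
  intro htop
  have hzc : z ∈ Subgroup.center G := by
    rw [Subgroup.mem_center_iff]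
    intro g
    have hg : g ∈ Subgroup.centralizer ({z} : Set G) := by rw [htop]; trivial
    rw [Subgroup.mem_centralizer_iff] at hg
    exact (hg z rfl).symm
  rcases (inferInstance : (Subgroup.center G).Normal).eq_bot_or_eq_top with hb | ht
  · rw [hb] at hzc
    exact hz (Subgroup.mem_bot.mp hzc)
  · apply hG
    refine ⟨⟨fun a b => ?_⟩⟩
    have hb' : b ∈ Subgroup.center G := by rw [ht]; trivial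
    exact (Subgroup.mem_center_iff.mp hb' a)

/-- Soundness of the rule check for one `(d, r)`. -/
theorem false_of_rOK {G : Type u} [Group G] [Finite G] [IsSimpleGroup G]
    (hG : ¬ IsMulCommutative G) (hGn : ¬ (Nat.card G).Prime) (n p d r : ℕ) [Fact p.Prime]
    (hp2 : p ≠ 2) (hcard : Nat.card G = n) (P : Sylow p G) (hP : Nat.card (P : Subgroup G) = p)
    (hd : Nat.card (Sylow p G) = d) (hd1 : d ≠ 1)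
    (hdN : d * Nat.card (Subgroup.normalizer ((P : Subgroup G) : Set G)) = n)
    (hr : (Subgroup.centralizer ((P : Subgroup G) : Set G)).relIndex
        (Subgroup.normalizer ((P : Subgroup G) : Set G)) = r)
    (hrC : r * Nat.card (Subgroup.centralizer ((P : Subgroup G) : Set G)) =
        Nat.card (Subgroup.normalizer ((P : Subgroup G) : Set G)))
    (hok : rOK n p d r = true) : False := by
  have hpp : p.Prime := Fact.out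
  have hnpos : 0 < n := hcard ▸ Nat.card_pos
  have hdpos : 0 < d := by
    rcases Nat.eq_zero_or_pos d with h | h
    · rw [h, zero_mul] at hdN; omega
    · exact h
  obtain ⟨N, hN⟩ : ∃ N, N = Nat.card (Subgroup.normalizer ((P : Subgroup G) : Set G)) := ⟨_, rfl⟩
  obtain ⟨C, hC⟩ : ∃ C, C = Nat.card (Subgroup.centralizer ((P : Subgroup G) : Set G)) := ⟨_, rfl⟩
  rw [← hN] at hdN hrC
  rw [← hC] at hrC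
  have hNd : n / d = N := by rw [← hdN]; exact Nat.mul_div_cancel_left N hdpos
  have hNpos : 0 < N := by
    rcases Nat.eq_zero_or_pos N with h | h
    · rw [h, mul_zero] at hdN; omega
    · exact h
  have hrpos : 0 < r := by
    rcases Nat.eq_zero_or_pos r with h | h
    · rw [h, zero_mul] at hrC; omega
    · exact h
  have hCr : n / d / r = C := by rw [hNd, ← hrC]; exact Nat.mul_div_cancel_left C hrpos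
  simp only [rOK, Bool.or_eq_true, Bool.and_eq_true, decide_eq_true_eq] at hok
  rw [hCr] at hok
  rcases hok with (⟨hd3, hCeven⟩ | ⟨hC2p, hinv⟩) | ⟨⟨hr2, hp3⟩, hbr⟩
  · -- sign rule
    have : Fact (Nat.Prime 2) := ⟨Nat.prime_two⟩
    obtain ⟨z', hz'⟩ := exists_prime_orderOf_dvd_card'
      (G := Subgroup.centralizer ((P : Subgroup G) : Set G)) 2
      (by rw [← hC]; exact Nat.dvd_of_mod_eq_zero hCeven)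
    have hzo : orderOf (z' : G) = 2 := by rw [Subgroup.orderOf_coe]; exact hz'
    have hz2 : (z' : G) * (z' : G) = 1 := by
      rw [← pow_two, ← hzo]
      exact pow_orderOf_eq_one _
    have h1 := involution_centralizer_sylow_eq_one hGn p hp2 P (by rw [hd]; exact hd1)
      (by rw [hd]; exact hd3) (z' : G) z'.2 hz2
    rw [h1, orderOf_one] at hzo
    omega
  · -- involution with C(z) ⊇ N(P)
    obtain ⟨z, hz1, hz2, -, k, hk1, hk2⟩ := exists_involution_centralizer p hp2 P hP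
      (by rw [← hC]; exact hC2p)
    rw [← hN] at hk2
    have hne := centralizer_singleton_ne_top hG z hz1
    have hidx := Subgroup.index_mul_card (Subgroup.centralizer ({z} : Set G))
    rw [hk2, hcard, ← hdN] at hidx
    have hkd : (Subgroup.centralizer ({z} : Set G)).index * k = d := by
      have : (Subgroup.centralizer ({z} : Set G)).index * k * N = d * N := by
        rw [← hidx]; ring
      exact Nat.eq_of_mul_eq_mul_right hNpos this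
    have hkpos : 0 < k := by
      rcases Nat.eq_zero_or_pos k with h | h
      · rw [h, mul_zero] at hkd; omega
      · exact h
    have hkdvd : k ∣ d := Dvd.intro_left _ hkd
    have hkle : k ≤ d := Nat.le_of_dvd hdpos hkdvd
    have hidx' : (Subgroup.centralizer ({z} : Set G)).index = d / k := by
      rw [← hkd]; exact (Nat.mul_div_cancel _ hkpos).symm
    simp only [invCheck, List.all_eq_true, List.mem_range, Bool.or_eq_true, Bool.not_eq_true',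
      Bool.and_eq_false_iff, decide_eq_false_iff_not, decide_eq_true_eq] at hinv
    have h3 := two_mul_card_dvd_factorial_index hGn _ hne
    rw [hidx', hcard] at h3
    obtain ⟨c, hc⟩ := card_centralizer_involution hGn z hz1 hz2
    rw [hk2, hcard] at hc
    rcases hinv k (by omega) with ((h | h) | h) | h
    · rcases h with h | h
      · exact h hk1
      · exact h hkdvd
    · rw [h] at hkd
      have hone : (Subgroup.centralizer ({z} : Set G)).index = 1 := by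
        have : (Subgroup.centralizer ({z} : Set G)).index * d = 1 * d := by rw [hkd, one_mul]
        exact Nat.eq_of_mul_eq_mul_right hdpos this
      exact hne (Subgroup.index_eq_one.mp hone)
    · exact h h3
    · apply h
      rw [hNd]
      omega
  · -- Brauer
    obtain ⟨x, y, hx, hx1, hy, hxy⟩ := brauer_m2 hGn p hp3 P hP (by rw [hr, hr2])
    rw [hcard] at hx hy
    simp only [brauer2Check, List.all_eq_true, List.mem_range, Bool.or_eq_true, Bool.not_eq_true',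
      Bool.and_eq_false_iff, decide_eq_false_iff_not, decide_eq_true_eq, Bool.and_eq_true] at hbr
    have hxle : x ≤ n := Nat.le_of_dvd hnpos hx
    rcases hbr x (by omega) with h | ⟨h1, h2⟩
    · rcases h with h | h
      · exact h hx
      · exact h hx1
    · rcases hxy with ⟨ha, hb⟩ | ⟨ha, hb⟩
      · rcases h1 with h | h
        · exact h ha
        · exact h (hb ▸ hy)
      · rcases h2 with h | h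
        · exact h ha
        · apply h
          have : x - 1 = y := by omega
          rw [this]
          exact hy

theorem noSimple_prime_sylow (n p q m : ℕ) (hp : p.Prime) (hq : q.Prime) (hqp : q ≠ p)
    (hqn : q ∣ n) (hp2 : p ≠ 2) (hn : n = p * m) (hm : ¬ p ∣ m)
    (hall : ∀ d ∈ sylowCands p m, dOK n p d = true) : NoSimple.{u} n := by
  intro G _ _ _ hG hcard
  have : Fact p.Prime := ⟨hp⟩
  obtain ⟨hGn, P, d, r, hP, hd, hdc, hd1, hfac, hdN, hr, hr1, hrp, hrC, hPC⟩ :=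
    sylow_prime_data (G := G) p m q hq hqp (hcard.trans hn) hm (by rw [hcard]; exact hqn)
  rw [hcard] at hfac hdN
  have hok := hall d hdc
  have hnpos : 0 < n := hcard ▸ Nat.card_pos
  have hdpos : 0 < d := by
    rcases Nat.eq_zero_or_pos d with h | h
    · rw [h, zero_mul] at hdN; omega
    · exact h
  obtain ⟨N, hN⟩ : ∃ N, N = Nat.card (Subgroup.normalizer ((P : Subgroup G) : Set G)) := ⟨_, rfl⟩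
  obtain ⟨C, hC⟩ : ∃ C, C = Nat.card (Subgroup.centralizer ((P : Subgroup G) : Set G)) := ⟨_, rfl⟩
  have hdN' : d * N = n := by rw [hN]; exact hdN
  have hrC' : r * C = N := by rw [hN, hC]; exact hrC
  have hNd : n / d = N := by rw [← hdN']; exact Nat.mul_div_cancel_left N hdpos
  have hNpos : 0 < N := by
    rcases Nat.eq_zero_or_pos N with h | h
    · rw [h, mul_zero] at hdN'; omega
    · exact h
  have hrpos : 0 < r := by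
    rcases Nat.eq_zero_or_pos r with h | h
    · rw [h, zero_mul] at hrC'; omega
    · exact h
  have hCr : n / d / r = C := by rw [hNd, ← hrC']; exact Nat.mul_div_cancel_left C hrpos
  have hpC : p ∣ C := by
    have := Subgroup.card_dvd_of_le hPC
    rwa [hP, ← hC] at this
  simp only [dOK, Bool.or_eq_true, Bool.and_eq_true, decide_eq_true_eq, Bool.not_eq_true',
    decide_eq_false_iff_not, List.all_eq_true, List.mem_range] at hok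
  rcases hok with ((h | h) | ⟨h1, h2⟩) | h
  · exact hd1 h
  · exact h hfac
  · have hA := two_mul_card_normalizer_dvd_of_card_sylow_succ hGn p hp2 (by rw [hd, h1])
      (by rw [hcard, hn]; exact dvd_mul_right p m) P
    rw [← hN, ← hNd] at hA
    exact h2 hA
  · have hrlt : r < p := by
      have h1 : 0 < p - 1 := by have := hp.two_le; omega
      have := Nat.le_of_dvd h1 hrp
      omega
    rcases h r hrlt with h | h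
    · simp only [Bool.and_eq_false_iff, decide_eq_false_iff_not] at h
      rcases h with ((h | h) | h) | h
      · exact h hrp
      · exact h hr1
      · apply h
        rw [hNd]
        exact Dvd.intro _ hrC'
      · apply h
        rw [hCr]
        exact hpC
    · exact false_of_rOK hG hGn n p d r hp2 hcard P hP hd hd1 hdN hr hrC h

def validB (n kind p a q m k : ℕ) : Bool :=
  match kind with
  | 0 => decide (n = p ^ a * q ^ m) && isPrimeB p && isPrimeB q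
  | 1 => decide (n % 2 = 0) && decide (n % 12 ≠ 0) && decide (n % 16 ≠ 0) && decide (n % 56 ≠ 0)
  | 2 => isPrimeB p && isPrimeB q && decide (q ≠ p) && decide (q ∣ n) && decide (1 ≤ a) &&
      decide (n = p ^ a * m) && decide (¬ p ∣ m) &&
      (sylowCands p m).all (fun d => decide (d = 1) || !decide (2 * n ∣ d.factorial))
  | 3 => isPrimeB p && isPrimeB q && decide (q ≠ p) && decide (q ∣ n) && decide (p ≠ 2) &&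
      decide (n = p * m) && decide (¬ p ∣ m) && (sylowCands p m).all (fun d => dOK n p d)
  | 4 => isPrimeB p && isPrimeB q && decide (q ≠ p) && decide (q ∣ n) && decide (1 ≤ a) &&
      decide (k ≤ a) && decide (n = p ^ a * m) && decide (¬ p ∣ m) &&
      decide (TameCheck p a m k) &&
      (sylowCands p m).all (fun d => decide (d = 1) || !decide (2 * n ∣ d.factorial) ||
        decide (d % p ^ k ≠ 1 % p ^ k))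
  | _ => decide (n = 0)

theorem noSimple_of_validB (n kind p a q m k : ℕ) (h : validB n kind p a q m k = true) :
    NoSimple.{u} n := by
  unfold validB at h
  split at h
  · simp only [Bool.and_eq_true, decide_eq_true_eq] at h
    obtain ⟨⟨h1, h2⟩, h3⟩ := h
    exact noSimple_two_primes n p a q m (prime_of_isPrimeB h2) (prime_of_isPrimeB h3) h1
  · simp only [Bool.and_eq_true, decide_eq_true_eq] at h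
    obtain ⟨⟨⟨h1, h2⟩, h3⟩, h4⟩ := h
    exact noSimple_s0499 n h1 h2 h3 h4
  · simp only [Bool.and_eq_true, decide_eq_true_eq, List.all_eq_true, Bool.or_eq_true,
      Bool.not_eq_true', decide_eq_false_iff_not] at h
    obtain ⟨⟨⟨⟨⟨⟨⟨h1, h2⟩, h3⟩, h4⟩, h5⟩, h6⟩, h7⟩, h8⟩ := h
    exact noSimple_sylow n p a q m (prime_of_isPrimeB h1) (prime_of_isPrimeB h2) h3 h4 h5 h6 h7 h8
  · simp only [Bool.and_eq_true, decide_eq_true_eq, List.all_eq_true] at h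
    obtain ⟨⟨⟨⟨⟨⟨⟨h1, h2⟩, h3⟩, h4⟩, h5⟩, h6⟩, h7⟩, h8⟩ := h
    exact noSimple_prime_sylow n p q m (prime_of_isPrimeB h1) (prime_of_isPrimeB h2) h3 h4 h5 h6 h7
      h8
  · simp only [Bool.and_eq_true, decide_eq_true_eq, List.all_eq_true, Bool.or_eq_true,
      Bool.not_eq_true', decide_eq_false_iff_not] at h
    obtain ⟨⟨⟨⟨⟨⟨⟨⟨⟨h1, h2⟩, h3⟩, h4⟩, h5⟩, h6⟩, h7⟩, h8⟩, h9⟩, h10⟩ := h
    refine noSimple_tame n p a q m k (prime_of_isPrimeB h1) (prime_of_isPrimeB h2) h3 h4 h5 h6 h7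
      h8 h9 ?_
    intro d hd
    rcases h10 d hd with (h | h) | h
    · exact Or.inl h
    · exact Or.inr (Or.inl h)
    · exact Or.inr (Or.inr h)
  · simp only [decide_eq_true_eq] at h
    rw [h]
    exact noSimple_zero

def certs : List (ℕ × ℕ × ℕ × ℕ × ℕ × ℕ) :=
  [(5, 0, 0, 0, 0, 0), (0, 2, 0, 3, 0, 0), (0, 2, 1, 3, 0, 0), (0, 3, 1, 2, 0, 0),
   (0, 2, 2, 3, 0, 0), (0, 5, 1, 2, 0, 0), (0, 2, 1, 3, 1, 0), (0, 7, 1, 2, 0, 0),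
   (0, 2, 3, 3, 0, 0), (0, 3, 2, 2, 0, 0), (0, 2, 1, 5, 1, 0), (0, 11, 1, 2, 0, 0),
   (0, 2, 2, 3, 1, 0), (0, 13, 1, 2, 0, 0), (0, 2, 1, 7, 1, 0), (0, 3, 1, 5, 1, 0),
   (0, 2, 4, 3, 0, 0), (0, 17, 1, 2, 0, 0), (0, 2, 1, 3, 2, 0), (0, 19, 1, 2, 0, 0),
   (0, 2, 2, 5, 1, 0), (0, 3, 1, 7, 1, 0), (0, 2, 1, 11, 1, 0), (0, 23, 1, 2, 0, 0),
   (0, 2, 3, 3, 1, 0), (0, 5, 2, 2, 0, 0), (0, 2, 1, 13, 1, 0), (0, 3, 3, 2, 0, 0),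
   (0, 2, 2, 7, 1, 0), (0, 29, 1, 2, 0, 0), (1, 0, 0, 0, 0, 0), (0, 31, 1, 2, 0, 0),
   (0, 2, 5, 3, 0, 0), (0, 3, 1, 11, 1, 0), (0, 2, 1, 17, 1, 0), (0, 5, 1, 7, 1, 0),
   (0, 2, 2, 3, 2, 0), (0, 37, 1, 2, 0, 0), (0, 2, 1, 19, 1, 0), (0, 3, 1, 13, 1, 0),
   (0, 2, 3, 5, 1, 0), (0, 41, 1, 2, 0, 0), (1, 0, 0, 0, 0, 0), (0, 43, 1, 2, 0, 0),
   (0, 2, 2, 11, 1, 0), (0, 3, 2, 5, 1, 0), (0, 2, 1, 23, 1, 0), (0, 47, 1, 2, 0, 0),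
   (0, 2, 4, 3, 1, 0), (0, 7, 2, 2, 0, 0), (0, 2, 1, 5, 2, 0), (0, 3, 1, 17, 1, 0),
   (0, 2, 2, 13, 1, 0), (0, 53, 1, 2, 0, 0), (0, 2, 1, 3, 3, 0), (0, 5, 1, 11, 1, 0),
   (0, 2, 3, 7, 1, 0), (0, 3, 1, 19, 1, 0), (0, 2, 1, 29, 1, 0), (0, 59, 1, 2, 0, 0),
   (9, 0, 0, 0, 0, 0), (0, 61, 1, 2, 0, 0), (0, 2, 1, 31, 1, 0), (0, 3, 2, 7, 1, 0),
   (0, 2, 6, 3, 0, 0), (0, 5, 1, 13, 1, 0), (1, 0, 0, 0, 0, 0), (0, 67, 1, 2, 0, 0),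
   (0, 2, 2, 17, 1, 0), (0, 3, 1, 23, 1, 0), (1, 0, 0, 0, 0, 0), (0, 71, 1, 2, 0, 0),
   (0, 2, 3, 3, 2, 0), (0, 73, 1, 2, 0, 0), (0, 2, 1, 37, 1, 0), (0, 3, 1, 5, 2, 0),
   (0, 2, 2, 19, 1, 0), (0, 7, 1, 11, 1, 0), (1, 0, 0, 0, 0, 0), (0, 79, 1, 2, 0, 0),
   (0, 2, 4, 5, 1, 0), (0, 3, 4, 2, 0, 0), (0, 2, 1, 41, 1, 0), (0, 83, 1, 2, 0, 0),
   (2, 7, 1, 2, 12, 0), (0, 5, 1, 17, 1, 0), (0, 2, 1, 43, 1, 0), (0, 3, 1, 29, 1, 0),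
   (0, 2, 3, 11, 1, 0), (0, 89, 1, 2, 0, 0), (1, 0, 0, 0, 0, 0), (0, 7, 1, 13, 1, 0),
   (0, 2, 2, 23, 1, 0), (0, 3, 1, 31, 1, 0), (0, 2, 1, 47, 1, 0), (0, 5, 1, 19, 1, 0),
   (0, 2, 5, 3, 1, 0), (0, 97, 1, 2, 0, 0), (0, 2, 1, 7, 2, 0), (0, 3, 2, 11, 1, 0),
   (0, 2, 2, 5, 2, 0), (0, 101, 1, 2, 0, 0), (1, 0, 0, 0, 0, 0), (0, 103, 1, 2, 0, 0),
   (0, 2, 3, 13, 1, 0), (3, 3, 1, 5, 35, 0), (0, 2, 1, 53, 1, 0), (0, 107, 1, 2, 0, 0),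
   (0, 2, 2, 3, 3, 0), (0, 109, 1, 2, 0, 0), (1, 0, 0, 0, 0, 0), (0, 3, 1, 37, 1, 0),
   (0, 2, 4, 7, 1, 0), (0, 113, 1, 2, 0, 0), (1, 0, 0, 0, 0, 0), (0, 5, 1, 23, 1, 0),
   (0, 2, 2, 29, 1, 0), (0, 3, 2, 13, 1, 0), (0, 2, 1, 59, 1, 0), (0, 7, 1, 17, 1, 0),
   (3, 3, 1, 2, 40, 0), (0, 11, 2, 2, 0, 0), (0, 2, 1, 61, 1, 0), (0, 3, 1, 41, 1, 0),
   (0, 2, 2, 31, 1, 0), (0, 5, 3, 2, 0, 0), (1, 0, 0, 0, 0, 0), (0, 127, 1, 2, 0, 0),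
   (0, 2, 7, 3, 0, 0), (0, 3, 1, 43, 1, 0), (1, 0, 0, 0, 0, 0), (0, 131, 1, 2, 0, 0),
   (3, 11, 1, 2, 12, 0), (0, 7, 1, 19, 1, 0), (0, 2, 1, 67, 1, 0), (0, 3, 3, 5, 1, 0),
   (0, 2, 3, 17, 1, 0), (0, 137, 1, 2, 0, 0), (1, 0, 0, 0, 0, 0), (0, 139, 1, 2, 0, 0),
   (1, 0, 0, 0, 0, 0), (0, 3, 1, 47, 1, 0), (0, 2, 1, 71, 1, 0), (0, 11, 1, 13, 1, 0),
   (0, 2, 4, 3, 2, 0), (0, 5, 1, 29, 1, 0), (0, 2, 1, 73, 1, 0), (0, 3, 1, 7, 2, 0),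
   (0, 2, 2, 37, 1, 0), (0, 149, 1, 2, 0, 0), (1, 0, 0, 0, 0, 0), (0, 151, 1, 2, 0, 0),
   (0, 2, 3, 19, 1, 0), (0, 3, 2, 17, 1, 0), (1, 0, 0, 0, 0, 0), (0, 5, 1, 31, 1, 0),
   (2, 13, 1, 2, 12, 0), (0, 157, 1, 2, 0, 0), (0, 2, 1, 79, 1, 0), (0, 3, 1, 53, 1, 0),
   (0, 2, 5, 5, 1, 0), (0, 7, 1, 23, 1, 0), (0, 2, 1, 3, 4, 0), (0, 163, 1, 2, 0, 0),
   (0, 2, 2, 41, 1, 0), (2, 11, 1, 3, 15, 0), (0, 2, 1, 83, 1, 0), (0, 167, 1, 2, 0, 0),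
   (9, 0, 0, 0, 0, 0), (0, 13, 2, 2, 0, 0), (1, 0, 0, 0, 0, 0), (0, 3, 2, 19, 1, 0),
   (0, 2, 2, 43, 1, 0), (0, 173, 1, 2, 0, 0), (1, 0, 0, 0, 0, 0), (0, 5, 2, 7, 1, 0),
   (0, 2, 4, 11, 1, 0), (0, 3, 1, 59, 1, 0), (0, 2, 1, 89, 1, 0), (0, 179, 1, 2, 0, 0),
   (3, 5, 1, 2, 36, 0), (0, 181, 1, 2, 0, 0), (1, 0, 0, 0, 0, 0), (0, 3, 1, 61, 1, 0),
   (0, 2, 3, 23, 1, 0), (0, 5, 1, 37, 1, 0), (1, 0, 0, 0, 0, 0), (0, 11, 1, 17, 1, 0),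
   (0, 2, 2, 47, 1, 0), (0, 3, 3, 7, 1, 0), (1, 0, 0, 0, 0, 0), (0, 191, 1, 2, 0, 0),
   (0, 2, 6, 3, 1, 0), (0, 193, 1, 2, 0, 0), (0, 2, 1, 97, 1, 0), (2, 5, 1, 3, 39, 0),
   (0, 2, 2, 7, 2, 0), (0, 197, 1, 2, 0, 0), (1, 0, 0, 0, 0, 0), (0, 199, 1, 2, 0, 0),
   (0, 2, 3, 5, 2, 0), (0, 3, 1, 67, 1, 0), (0, 2, 1, 101, 1, 0), (0, 7, 1, 29, 1, 0),
   (2, 17, 1, 2, 12, 0), (0, 5, 1, 41, 1, 0), (0, 2, 1, 103, 1, 0), (0, 3, 2, 23, 1, 0),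
   (0, 2, 4, 13, 1, 0), (0, 11, 1, 19, 1, 0), (1, 0, 0, 0, 0, 0), (0, 211, 1, 2, 0, 0),
   (0, 2, 2, 53, 1, 0), (0, 3, 1, 71, 1, 0), (0, 2, 1, 107, 1, 0), (0, 5, 1, 43, 1, 0),
   (0, 2, 3, 3, 3, 0), (0, 7, 1, 31, 1, 0), (0, 2, 1, 109, 1, 0), (0, 3, 1, 73, 1, 0),
   (1, 0, 0, 0, 0, 0), (0, 13, 1, 17, 1, 0), (1, 0, 0, 0, 0, 0), (0, 223, 1, 2, 0, 0),
   (0, 2, 5, 7, 1, 0), (0, 3, 2, 5, 2, 0), (0, 2, 1, 113, 1, 0), (0, 227, 1, 2, 0, 0),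
   (2, 19, 1, 2, 12, 0), (0, 229, 1, 2, 0, 0), (1, 0, 0, 0, 0, 0), (2, 3, 1, 7, 77, 0),
   (0, 2, 3, 29, 1, 0), (0, 233, 1, 2, 0, 0), (1, 0, 0, 0, 0, 0), (0, 5, 1, 47, 1, 0),
   (0, 2, 2, 59, 1, 0), (0, 3, 1, 79, 1, 0), (1, 0, 0, 0, 0, 0), (0, 239, 1, 2, 0, 0),
   (3, 5, 1, 2, 48, 0), (0, 241, 1, 2, 0, 0), (0, 2, 1, 11, 2, 0), (0, 3, 5, 2, 0, 0),
   (0, 2, 2, 61, 1, 0), (0, 5, 1, 7, 2, 0), (1, 0, 0, 0, 0, 0), (0, 13, 1, 19, 1, 0),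
   (0, 2, 3, 31, 1, 0), (0, 3, 1, 83, 1, 0), (0, 2, 1, 5, 3, 0), (0, 251, 1, 2, 0, 0),
   (3, 7, 1, 2, 36, 0), (0, 11, 1, 23, 1, 0), (0, 2, 1, 127, 1, 0), (2, 17, 1, 3, 15, 0),
   (0, 2, 8, 3, 0, 0), (0, 257, 1, 2, 0, 0), (1, 0, 0, 0, 0, 0), (0, 7, 1, 37, 1, 0),
   (1, 0, 0, 0, 0, 0), (0, 3, 2, 29, 1, 0), (0, 2, 1, 131, 1, 0), (0, 263, 1, 2, 0, 0),
   (3, 3, 1, 2, 88, 0), (0, 5, 1, 53, 1, 0), (1, 0, 0, 0, 0, 0), (0, 3, 1, 89, 1, 0),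
   (0, 2, 2, 67, 1, 0), (0, 269, 1, 2, 0, 0), (1, 0, 0, 0, 0, 0), (0, 271, 1, 2, 0, 0),
   (0, 2, 4, 17, 1, 0), (2, 7, 1, 3, 39, 0), (0, 2, 1, 137, 1, 0), (0, 5, 2, 11, 1, 0),
   (2, 23, 1, 2, 12, 0), (0, 277, 1, 2, 0, 0), (0, 2, 1, 139, 1, 0), (0, 3, 2, 31, 1, 0),
   (3, 5, 1, 2, 56, 0), (0, 281, 1, 2, 0, 0), (1, 0, 0, 0, 0, 0), (0, 283, 1, 2, 0, 0),
   (0, 2, 2, 71, 1, 0), (2, 5, 1, 3, 57, 0), (1, 0, 0, 0, 0, 0), (0, 7, 1, 41, 1, 0),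
   (0, 2, 5, 3, 2, 0), (0, 17, 2, 2, 0, 0), (1, 0, 0, 0, 0, 0), (0, 3, 1, 97, 1, 0),
   (0, 2, 2, 73, 1, 0), (0, 293, 1, 2, 0, 0), (1, 0, 0, 0, 0, 0), (0, 5, 1, 59, 1, 0),
   (0, 2, 3, 37, 1, 0), (0, 3, 3, 11, 1, 0), (0, 2, 1, 149, 1, 0), (0, 13, 1, 23, 1, 0),
   (2, 5, 2, 2, 12, 0), (0, 7, 1, 43, 1, 0), (0, 2, 1, 151, 1, 0), (0, 3, 1, 101, 1, 0),
   (0, 2, 4, 19, 1, 0), (0, 5, 1, 61, 1, 0), (1, 0, 0, 0, 0, 0), (0, 307, 1, 2, 0, 0),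
   (1, 0, 0, 0, 0, 0), (0, 3, 1, 103, 1, 0), (1, 0, 0, 0, 0, 0), (0, 311, 1, 2, 0, 0),
   (2, 13, 1, 2, 24, 0), (0, 313, 1, 2, 0, 0), (0, 2, 1, 157, 1, 0), (3, 5, 1, 3, 63, 0),
   (0, 2, 2, 79, 1, 0), (0, 317, 1, 2, 0, 0), (1, 0, 0, 0, 0, 0), (0, 11, 1, 29, 1, 0),
   (0, 2, 6, 5, 1, 0), (0, 3, 1, 107, 1, 0), (1, 0, 0, 0, 0, 0), (0, 17, 1, 19, 1, 0),
   (0, 2, 2, 3, 4, 0), (0, 5, 2, 13, 1, 0), (0, 2, 1, 163, 1, 0), (0, 3, 1, 109, 1, 0),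
   (0, 2, 3, 41, 1, 0), (0, 7, 1, 47, 1, 0), (1, 0, 0, 0, 0, 0), (0, 331, 1, 2, 0, 0),
   (0, 2, 2, 83, 1, 0), (0, 3, 2, 37, 1, 0), (0, 2, 1, 167, 1, 0), (0, 5, 1, 67, 1, 0),
   (3, 3, 1, 2, 112, 0), (0, 337, 1, 2, 0, 0), (0, 2, 1, 13, 2, 0), (0, 3, 1, 113, 1, 0),
   (1, 0, 0, 0, 0, 0), (0, 11, 1, 31, 1, 0), (1, 0, 0, 0, 0, 0), (0, 7, 3, 2, 0, 0),
   (0, 2, 3, 43, 1, 0), (2, 5, 1, 3, 69, 0), (0, 2, 1, 173, 1, 0), (0, 347, 1, 2, 0, 0),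
   (2, 29, 1, 2, 12, 0), (0, 349, 1, 2, 0, 0), (1, 0, 0, 0, 0, 0), (0, 3, 3, 13, 1, 0),
   (0, 2, 5, 11, 1, 0), (0, 353, 1, 2, 0, 0), (1, 0, 0, 0, 0, 0), (0, 5, 1, 71, 1, 0),
   (0, 2, 2, 89, 1, 0), (2, 3, 1, 7, 119, 0), (0, 2, 1, 179, 1, 0), (0, 359, 1, 2, 0, 0),
   (9, 0, 0, 0, 0, 0), (0, 19, 2, 2, 0, 0), (0, 2, 1, 181, 1, 0), (0, 3, 1, 11, 2, 0),
   (1, 0, 0, 0, 0, 0), (0, 5, 1, 73, 1, 0), (1, 0, 0, 0, 0, 0), (0, 367, 1, 2, 0, 0),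
   (0, 2, 4, 23, 1, 0), (0, 3, 2, 41, 1, 0), (1, 0, 0, 0, 0, 0), (0, 7, 1, 53, 1, 0),
   (2, 31, 1, 2, 12, 0), (0, 373, 1, 2, 0, 0), (1, 0, 0, 0, 0, 0), (0, 3, 1, 5, 3, 0),
   (0, 2, 3, 47, 1, 0), (0, 13, 1, 29, 1, 0), (1, 0, 0, 0, 0, 0), (0, 379, 1, 2, 0, 0),
   (1, 0, 0, 0, 0, 0), (0, 3, 1, 127, 1, 0), (0, 2, 1, 191, 1, 0), (0, 383, 1, 2, 0, 0),
   (0, 2, 7, 3, 1, 0), (2, 7, 1, 5, 55, 0), (0, 2, 1, 193, 1, 0), (0, 3, 2, 43, 1, 0),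
   (0, 2, 2, 97, 1, 0), (0, 389, 1, 2, 0, 0), (1, 0, 0, 0, 0, 0), (0, 17, 1, 23, 1, 0),
   (0, 2, 3, 7, 2, 0), (0, 3, 1, 131, 1, 0), (0, 2, 1, 197, 1, 0), (0, 5, 1, 79, 1, 0),
   (3, 11, 1, 2, 36, 0), (0, 397, 1, 2, 0, 0), (0, 2, 1, 199, 1, 0), (2, 19, 1, 3, 21, 0),
   (0, 2, 4, 5, 2, 0), (0, 401, 1, 2, 0, 0), (1, 0, 0, 0, 0, 0), (0, 13, 1, 31, 1, 0),
   (0, 2, 2, 101, 1, 0), (0, 3, 4, 5, 1, 0), (1, 0, 0, 0, 0, 0), (0, 11, 1, 37, 1, 0),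
   (2, 17, 1, 2, 24, 0), (0, 409, 1, 2, 0, 0), (1, 0, 0, 0, 0, 0), (0, 3, 1, 137, 1, 0),
   (0, 2, 2, 103, 1, 0), (0, 7, 1, 59, 1, 0), (1, 0, 0, 0, 0, 0), (0, 5, 1, 83, 1, 0),
   (0, 2, 5, 13, 1, 0), (0, 3, 1, 139, 1, 0), (1, 0, 0, 0, 0, 0), (0, 419, 1, 2, 0, 0),
   (3, 7, 1, 2, 60, 0), (0, 421, 1, 2, 0, 0), (0, 2, 1, 211, 1, 0), (0, 3, 2, 47, 1, 0),
   (0, 2, 3, 53, 1, 0), (0, 5, 2, 17, 1, 0), (1, 0, 0, 0, 0, 0), (0, 7, 1, 61, 1, 0),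
   (0, 2, 2, 107, 1, 0), (2, 11, 1, 3, 39, 0), (1, 0, 0, 0, 0, 0), (0, 431, 1, 2, 0, 0),
   (0, 2, 4, 3, 3, 0), (0, 433, 1, 2, 0, 0), (1, 0, 0, 0, 0, 0), (2, 5, 1, 3, 87, 0),
   (0, 2, 2, 109, 1, 0), (0, 19, 1, 23, 1, 0), (1, 0, 0, 0, 0, 0), (0, 439, 1, 2, 0, 0),
   (1, 0, 0, 0, 0, 0), (0, 3, 2, 7, 2, 0), (1, 0, 0, 0, 0, 0), (0, 443, 1, 2, 0, 0),
   (2, 37, 1, 2, 12, 0), (0, 5, 1, 89, 1, 0), (0, 2, 1, 223, 1, 0), (0, 3, 1, 149, 1, 0),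
   (0, 2, 6, 7, 1, 0), (0, 449, 1, 2, 0, 0), (1, 0, 0, 0, 0, 0), (0, 11, 1, 41, 1, 0),
   (0, 2, 2, 113, 1, 0), (0, 3, 1, 151, 1, 0), (0, 2, 1, 227, 1, 0), (2, 7, 1, 5, 65, 0),
   (2, 19, 1, 2, 24, 0), (0, 457, 1, 2, 0, 0), (0, 2, 1, 229, 1, 0), (0, 3, 3, 17, 1, 0),
   (1, 0, 0, 0, 0, 0), (0, 461, 1, 2, 0, 0), (1, 0, 0, 0, 0, 0), (0, 463, 1, 2, 0, 0),
   (0, 2, 4, 29, 1, 0), (2, 31, 1, 3, 15, 0), (0, 2, 1, 233, 1, 0), (0, 467, 1, 2, 0, 0),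
   (2, 13, 1, 2, 36, 0), (0, 7, 1, 67, 1, 0), (1, 0, 0, 0, 0, 0), (0, 3, 1, 157, 1, 0),
   (0, 2, 3, 59, 1, 0), (0, 11, 1, 43, 1, 0), (1, 0, 0, 0, 0, 0), (0, 5, 2, 19, 1, 0),
   (1, 0, 0, 0, 0, 0), (0, 3, 2, 53, 1, 0), (0, 2, 1, 239, 1, 0), (0, 479, 1, 2, 0, 0),
   (4, 2, 5, 3, 15, 2), (0, 13, 1, 37, 1, 0), (0, 2, 1, 241, 1, 0), (2, 3, 1, 7, 161, 0),
   (0, 2, 2, 11, 2, 0), (0, 5, 1, 97, 1, 0), (0, 2, 1, 3, 5, 0), (0, 487, 1, 2, 0, 0),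
   (0, 2, 3, 61, 1, 0), (0, 3, 1, 163, 1, 0), (1, 0, 0, 0, 0, 0), (0, 491, 1, 2, 0, 0),
   (2, 41, 1, 2, 12, 0), (0, 17, 1, 29, 1, 0), (1, 0, 0, 0, 0, 0), (3, 5, 1, 3, 99, 0),
   (0, 2, 4, 31, 1, 0), (0, 7, 1, 71, 1, 0), (1, 0, 0, 0, 0, 0), (0, 499, 1, 2, 0, 0),
   (0, 2, 2, 5, 3, 0), (0, 3, 1, 167, 1, 0), (0, 2, 1, 251, 1, 0), (0, 503, 1, 2, 0, 0),
   (9, 0, 0, 0, 0, 0), (0, 5, 1, 101, 1, 0), (1, 0, 0, 0, 0, 0), (0, 3, 1, 13, 2, 0),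
   (0, 2, 2, 127, 1, 0), (0, 509, 1, 2, 0, 0), (1, 0, 0, 0, 0, 0), (0, 7, 1, 73, 1, 0),
   (0, 2, 9, 3, 0, 0), (0, 3, 3, 19, 1, 0), (0, 2, 1, 257, 1, 0), (0, 5, 1, 103, 1, 0),
   (2, 43, 1, 2, 12, 0), (0, 11, 1, 47, 1, 0), (1, 0, 0, 0, 0, 0), (0, 3, 1, 173, 1, 0),
   (1, 0, 0, 0, 0, 0), (0, 521, 1, 2, 0, 0), (1, 0, 0, 0, 0, 0), (0, 523, 1, 2, 0, 0),
   (0, 2, 2, 131, 1, 0), (3, 3, 1, 5, 175, 0), (0, 2, 1, 263, 1, 0), (0, 17, 1, 31, 1, 0),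
   (3, 11, 1, 2, 48, 0), (0, 23, 2, 2, 0, 0), (1, 0, 0, 0, 0, 0), (0, 3, 2, 59, 1, 0),
   (1, 0, 0, 0, 0, 0), (0, 13, 1, 41, 1, 0), (1, 0, 0, 0, 0, 0), (0, 5, 1, 107, 1, 0),
   (0, 2, 3, 67, 1, 0), (0, 3, 1, 179, 1, 0), (0, 2, 1, 269, 1, 0), (0, 7, 2, 11, 1, 0),
   (3, 5, 1, 2, 108, 0), (0, 541, 1, 2, 0, 0), (0, 2, 1, 271, 1, 0), (0, 3, 1, 181, 1, 0),
   (0, 2, 5, 17, 1, 0), (0, 5, 1, 109, 1, 0), (1, 0, 0, 0, 0, 0), (0, 547, 1, 2, 0, 0),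
   (0, 2, 2, 137, 1, 0), (0, 3, 2, 61, 1, 0), (1, 0, 0, 0, 0, 0), (0, 19, 1, 29, 1, 0),
   (3, 3, 1, 2, 184, 0), (0, 7, 1, 79, 1, 0), (0, 2, 1, 277, 1, 0), (2, 37, 1, 3, 15, 0),
   (0, 2, 2, 139, 1, 0), (0, 557, 1, 2, 0, 0), (1, 0, 0, 0, 0, 0), (0, 13, 1, 43, 1, 0),
   (3, 5, 1, 2, 112, 0), (2, 11, 1, 3, 51, 0), (0, 2, 1, 281, 1, 0), (0, 563, 1, 2, 0, 0),
   (2, 47, 1, 2, 12, 0), (0, 5, 1, 113, 1, 0), (0, 2, 1, 283, 1, 0), (0, 3, 4, 7, 1, 0),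
   (0, 2, 3, 71, 1, 0), (0, 569, 1, 2, 0, 0), (1, 0, 0, 0, 0, 0), (0, 571, 1, 2, 0, 0),
   (1, 0, 0, 0, 0, 0), (0, 3, 1, 191, 1, 0), (1, 0, 0, 0, 0, 0), (0, 5, 2, 23, 1, 0),
   (0, 2, 6, 3, 2, 0), (0, 577, 1, 2, 0, 0), (0, 2, 1, 17, 2, 0), (0, 3, 1, 193, 1, 0),
   (1, 0, 0, 0, 0, 0), (0, 7, 1, 83, 1, 0), (1, 0, 0, 0, 0, 0), (0, 11, 1, 53, 1, 0),
   (0, 2, 3, 73, 1, 0), (2, 5, 1, 3, 117, 0), (0, 2, 1, 293, 1, 0), (0, 587, 1, 2, 0, 0),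
   (2, 7, 2, 2, 12, 0), (0, 19, 1, 31, 1, 0), (1, 0, 0, 0, 0, 0), (0, 3, 1, 197, 1, 0),
   (0, 2, 4, 37, 1, 0), (0, 593, 1, 2, 0, 0), (1, 0, 0, 0, 0, 0), (2, 5, 1, 7, 119, 0),
   (0, 2, 2, 149, 1, 0), (0, 3, 1, 199, 1, 0), (1, 0, 0, 0, 0, 0), (0, 599, 1, 2, 0, 0),
   (2, 5, 2, 2, 24, 0), (0, 601, 1, 2, 0, 0), (1, 0, 0, 0, 0, 0), (0, 3, 2, 67, 1, 0),
   (0, 2, 2, 151, 1, 0), (0, 5, 1, 11, 2, 0), (1, 0, 0, 0, 0, 0), (0, 607, 1, 2, 0, 0),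
   (0, 2, 5, 19, 1, 0), (2, 3, 1, 7, 203, 0), (1, 0, 0, 0, 0, 0), (0, 13, 1, 47, 1, 0),
   (3, 17, 1, 2, 36, 0), (0, 613, 1, 2, 0, 0), (0, 2, 1, 307, 1, 0), (2, 41, 1, 3, 15, 0),
   (3, 7, 1, 2, 88, 0), (0, 617, 1, 2, 0, 0), (1, 0, 0, 0, 0, 0), (0, 619, 1, 2, 0, 0),
   (1, 0, 0, 0, 0, 0), (0, 3, 3, 23, 1, 0), (0, 2, 1, 311, 1, 0), (0, 7, 1, 89, 1, 0),
   (2, 13, 1, 2, 48, 0), (0, 5, 4, 2, 0, 0), (0, 2, 1, 313, 1, 0), (2, 11, 1, 3, 57, 0),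
   (0, 2, 2, 157, 1, 0), (0, 17, 1, 37, 1, 0), (1, 0, 0, 0, 0, 0), (0, 631, 1, 2, 0, 0),
   (0, 2, 3, 79, 1, 0), (0, 3, 1, 211, 1, 0), (0, 2, 1, 317, 1, 0), (0, 5, 1, 127, 1, 0),
   (2, 53, 1, 2, 12, 0), (0, 7, 2, 13, 1, 0), (1, 0, 0, 0, 0, 0), (0, 3, 2, 71, 1, 0),
   (0, 2, 7, 5, 1, 0), (0, 641, 1, 2, 0, 0), (1, 0, 0, 0, 0, 0), (0, 643, 1, 2, 0, 0),
   (1, 0, 0, 0, 0, 0), (2, 5, 1, 3, 129, 0), (1, 0, 0, 0, 0, 0), (0, 647, 1, 2, 0, 0),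
   (0, 2, 3, 3, 4, 0), (0, 11, 1, 59, 1, 0), (1, 0, 0, 0, 0, 0), (2, 7, 1, 3, 93, 0),
   (0, 2, 2, 163, 1, 0), (0, 653, 1, 2, 0, 0), (1, 0, 0, 0, 0, 0), (0, 5, 1, 131, 1, 0),
   (0, 2, 4, 41, 1, 0), (0, 3, 2, 73, 1, 0), (1, 0, 0, 0, 0, 0), (0, 659, 1, 2, 0, 0),
   (9, 0, 0, 0, 0, 0), (0, 661, 1, 2, 0, 0), (0, 2, 1, 331, 1, 0), (2, 3, 1, 13, 221, 0),
   (0, 2, 3, 83, 1, 0), (2, 5, 1, 7, 133, 0), (1, 0, 0, 0, 0, 0), (0, 23, 1, 29, 1, 0),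
   (0, 2, 2, 167, 1, 0), (0, 3, 1, 223, 1, 0), (1, 0, 0, 0, 0, 0), (0, 11, 1, 61, 1, 0),
   (3, 7, 1, 2, 96, 0), (0, 673, 1, 2, 0, 0), (0, 2, 1, 337, 1, 0), (0, 3, 3, 5, 2, 0),
   (0, 2, 2, 13, 2, 0), (0, 677, 1, 2, 0, 0), (1, 0, 0, 0, 0, 0), (0, 7, 1, 97, 1, 0),
   (1, 0, 0, 0, 0, 0), (0, 3, 1, 227, 1, 0), (1, 0, 0, 0, 0, 0), (0, 683, 1, 2, 0, 0),
   (2, 19, 1, 2, 36, 0), (0, 5, 1, 137, 1, 0), (0, 2, 1, 7, 3, 0), (0, 3, 1, 229, 1, 0),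
   (0, 2, 4, 43, 1, 0), (0, 13, 1, 53, 1, 0), (1, 0, 0, 0, 0, 0), (0, 691, 1, 2, 0, 0),
   (0, 2, 2, 173, 1, 0), (2, 3, 2, 7, 77, 0), (0, 2, 1, 347, 1, 0), (0, 5, 1, 139, 1, 0),
   (2, 29, 1, 2, 24, 0), (0, 17, 1, 41, 1, 0), (0, 2, 1, 349, 1, 0), (0, 3, 1, 233, 1, 0),
   (1, 0, 0, 0, 0, 0), (0, 701, 1, 2, 0, 0), (1, 0, 0, 0, 0, 0), (0, 19, 1, 37, 1, 0),
   (0, 2, 6, 11, 1, 0), (2, 47, 1, 3, 15, 0), (0, 2, 1, 353, 1, 0), (0, 7, 1, 101, 1, 0),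
   (2, 59, 1, 2, 12, 0), (0, 709, 1, 2, 0, 0), (1, 0, 0, 0, 0, 0), (0, 3, 2, 79, 1, 0),
   (0, 2, 3, 89, 1, 0), (0, 23, 1, 31, 1, 0), (1, 0, 0, 0, 0, 0), (2, 5, 1, 11, 143, 0),
   (0, 2, 2, 179, 1, 0), (0, 3, 1, 239, 1, 0), (0, 2, 1, 359, 1, 0), (0, 719, 1, 2, 0, 0),
   (9, 0, 0, 0, 0, 0), (0, 7, 1, 103, 1, 0), (0, 2, 1, 19, 2, 0), (0, 3, 1, 241, 1, 0),
   (0, 2, 2, 181, 1, 0), (0, 5, 2, 29, 1, 0), (1, 0, 0, 0, 0, 0), (0, 727, 1, 2, 0, 0),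
   (2, 7, 1, 2, 104, 0), (0, 3, 6, 2, 0, 0), (1, 0, 0, 0, 0, 0), (0, 17, 1, 43, 1, 0),
   (2, 61, 1, 2, 12, 0), (0, 733, 1, 2, 0, 0), (0, 2, 1, 367, 1, 0), (3, 3, 1, 5, 245, 0),
   (0, 2, 5, 23, 1, 0), (0, 11, 1, 67, 1, 0), (1, 0, 0, 0, 0, 0), (0, 739, 1, 2, 0, 0),
   (1, 0, 0, 0, 0, 0), (2, 13, 1, 3, 57, 0), (1, 0, 0, 0, 0, 0), (0, 743, 1, 2, 0, 0),
   (2, 31, 1, 2, 24, 0), (0, 5, 1, 149, 1, 0), (0, 2, 1, 373, 1, 0), (0, 3, 2, 83, 1, 0),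
   (1, 0, 0, 0, 0, 0), (0, 7, 1, 107, 1, 0), (1, 0, 0, 0, 0, 0), (0, 751, 1, 2, 0, 0),
   (0, 2, 4, 47, 1, 0), (0, 3, 1, 251, 1, 0), (1, 0, 0, 0, 0, 0), (0, 5, 1, 151, 1, 0),
   (9, 0, 0, 0, 0, 0), (0, 757, 1, 2, 0, 0), (0, 2, 1, 379, 1, 0), (2, 23, 1, 3, 33, 0),
   (1, 0, 0, 0, 0, 0), (0, 761, 1, 2, 0, 0), (1, 0, 0, 0, 0, 0), (0, 7, 1, 109, 1, 0),
   (0, 2, 2, 191, 1, 0), (2, 17, 1, 3, 45, 0), (0, 2, 1, 383, 1, 0), (0, 13, 1, 59, 1, 0),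
   (0, 2, 8, 3, 1, 0), (0, 769, 1, 2, 0, 0), (1, 0, 0, 0, 0, 0), (0, 3, 1, 257, 1, 0),
   (0, 2, 2, 193, 1, 0), (0, 773, 1, 2, 0, 0), (1, 0, 0, 0, 0, 0), (0, 5, 2, 31, 1, 0),
   (0, 2, 3, 97, 1, 0), (2, 7, 1, 3, 111, 0), (0, 2, 1, 389, 1, 0), (0, 19, 1, 41, 1, 0),
   (2, 13, 1, 2, 60, 0), (0, 11, 1, 71, 1, 0), (1, 0, 0, 0, 0, 0), (0, 3, 3, 29, 1, 0),
   (0, 2, 4, 7, 2, 0), (0, 5, 1, 157, 1, 0), (1, 0, 0, 0, 0, 0), (0, 787, 1, 2, 0, 0),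
   (0, 2, 2, 197, 1, 0), (0, 3, 1, 263, 1, 0), (1, 0, 0, 0, 0, 0), (0, 7, 1, 113, 1, 0),
   (3, 11, 1, 2, 72, 0), (0, 13, 1, 61, 1, 0), (0, 2, 1, 397, 1, 0), (2, 5, 1, 3, 159, 0),
   (0, 2, 2, 199, 1, 0), (0, 797, 1, 2, 0, 0), (1, 0, 0, 0, 0, 0), (0, 17, 1, 47, 1, 0),
   (0, 2, 5, 5, 2, 0), (0, 3, 2, 89, 1, 0), (0, 2, 1, 401, 1, 0), (0, 11, 1, 73, 1, 0),
   (2, 67, 1, 2, 12, 0), (2, 7, 1, 5, 115, 0), (1, 0, 0, 0, 0, 0), (0, 3, 1, 269, 1, 0),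
   (0, 2, 3, 101, 1, 0), (0, 809, 1, 2, 0, 0), (1, 0, 0, 0, 0, 0), (0, 811, 1, 2, 0, 0),
   (1, 0, 0, 0, 0, 0), (0, 3, 1, 271, 1, 0), (1, 0, 0, 0, 0, 0), (0, 5, 1, 163, 1, 0),
   (2, 17, 1, 2, 48, 0), (0, 19, 1, 43, 1, 0), (0, 2, 1, 409, 1, 0), (2, 7, 1, 3, 117, 0),
   (1, 0, 0, 0, 0, 0), (0, 821, 1, 2, 0, 0), (1, 0, 0, 0, 0, 0), (0, 823, 1, 2, 0, 0),
   (0, 2, 3, 103, 1, 0), (2, 11, 1, 3, 75, 0), (1, 0, 0, 0, 0, 0), (0, 827, 1, 2, 0, 0),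
   (2, 23, 1, 2, 36, 0), (0, 829, 1, 2, 0, 0), (1, 0, 0, 0, 0, 0), (0, 3, 1, 277, 1, 0),
   (0, 2, 6, 13, 1, 0), (0, 7, 2, 17, 1, 0), (1, 0, 0, 0, 0, 0), (0, 5, 1, 167, 1, 0),
   (1, 0, 0, 0, 0, 0), (0, 3, 3, 31, 1, 0), (0, 2, 1, 419, 1, 0), (0, 839, 1, 2, 0, 0),
   (3, 7, 1, 2, 120, 0), (0, 29, 2, 2, 0, 0), (0, 2, 1, 421, 1, 0), (0, 3, 1, 281, 1, 0),
   (0, 2, 2, 211, 1, 0), (0, 5, 1, 13, 2, 0), (1, 0, 0, 0, 0, 0), (0, 7, 1, 11, 2, 0),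
   (0, 2, 4, 53, 1, 0), (0, 3, 1, 283, 1, 0), (1, 0, 0, 0, 0, 0), (0, 23, 1, 37, 1, 0),
   (2, 71, 1, 2, 12, 0), (0, 853, 1, 2, 0, 0), (1, 0, 0, 0, 0, 0), (2, 19, 1, 3, 45, 0),
   (0, 2, 3, 107, 1, 0), (0, 857, 1, 2, 0, 0), (1, 0, 0, 0, 0, 0), (0, 859, 1, 2, 0, 0),
   (1, 0, 0, 0, 0, 0), (2, 3, 1, 7, 287, 0), (0, 2, 1, 431, 1, 0), (0, 863, 1, 2, 0, 0),
   (0, 2, 5, 3, 3, 0), (0, 5, 1, 173, 1, 0), (0, 2, 1, 433, 1, 0), (0, 3, 1, 17, 2, 0),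
   (1, 0, 0, 0, 0, 0), (0, 11, 1, 79, 1, 0), (1, 0, 0, 0, 0, 0), (0, 13, 1, 67, 1, 0),
   (0, 2, 3, 109, 1, 0), (0, 3, 2, 97, 1, 0), (1, 0, 0, 0, 0, 0), (0, 5, 3, 7, 1, 0),
   (2, 73, 1, 2, 12, 0), (0, 877, 1, 2, 0, 0), (0, 2, 1, 439, 1, 0), (0, 3, 1, 293, 1, 0),
   (2, 11, 1, 2, 80, 0), (0, 881, 1, 2, 0, 0), (1, 0, 0, 0, 0, 0), (0, 883, 1, 2, 0, 0),
   (1, 0, 0, 0, 0, 0), (2, 5, 1, 3, 177, 0), (0, 2, 1, 443, 1, 0), (0, 887, 1, 2, 0, 0),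
   (2, 37, 1, 2, 24, 0), (0, 7, 1, 127, 1, 0), (1, 0, 0, 0, 0, 0), (0, 3, 4, 11, 1, 0),
   (0, 2, 2, 223, 1, 0), (0, 19, 1, 47, 1, 0), (1, 0, 0, 0, 0, 0), (0, 5, 1, 179, 1, 0),
   (0, 2, 7, 7, 1, 0), (2, 3, 1, 13, 299, 0), (0, 2, 1, 449, 1, 0), (0, 29, 1, 31, 1, 0),
   (4, 5, 2, 2, 36, 2), (0, 17, 1, 53, 1, 0), (1, 0, 0, 0, 0, 0), (2, 43, 1, 3, 21, 0),
   (0, 2, 3, 113, 1, 0), (0, 5, 1, 181, 1, 0), (1, 0, 0, 0, 0, 0), (0, 907, 1, 2, 0, 0),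
   (0, 2, 2, 227, 1, 0), (0, 3, 2, 101, 1, 0), (1, 0, 0, 0, 0, 0), (0, 911, 1, 2, 0, 0),
   (2, 19, 1, 2, 48, 0), (0, 11, 1, 83, 1, 0), (0, 2, 1, 457, 1, 0), (2, 61, 1, 3, 15, 0),
   (0, 2, 2, 229, 1, 0), (0, 7, 1, 131, 1, 0), (1, 0, 0, 0, 0, 0), (0, 919, 1, 2, 0, 0),
   (1, 0, 0, 0, 0, 0), (0, 3, 1, 307, 1, 0), (0, 2, 1, 461, 1, 0), (0, 13, 1, 71, 1, 0),
   (3, 11, 1, 2, 84, 0), (0, 5, 2, 37, 1, 0), (0, 2, 1, 463, 1, 0), (0, 3, 2, 103, 1, 0),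
   (0, 2, 5, 29, 1, 0), (0, 929, 1, 2, 0, 0), (1, 0, 0, 0, 0, 0), (0, 7, 2, 19, 1, 0),
   (0, 2, 2, 233, 1, 0), (0, 3, 1, 311, 1, 0), (0, 2, 1, 467, 1, 0), (2, 5, 1, 11, 187, 0),
   (2, 13, 1, 2, 72, 0), (0, 937, 1, 2, 0, 0), (1, 0, 0, 0, 0, 0), (0, 3, 1, 313, 1, 0),
   (1, 0, 0, 0, 0, 0), (0, 941, 1, 2, 0, 0), (1, 0, 0, 0, 0, 0), (0, 23, 1, 41, 1, 0),
   (0, 2, 4, 59, 1, 0), (2, 3, 3, 5, 35, 0), (1, 0, 0, 0, 0, 0), (0, 947, 1, 2, 0, 0),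
   (2, 79, 1, 2, 12, 0), (0, 13, 1, 73, 1, 0), (1, 0, 0, 0, 0, 0), (0, 3, 1, 317, 1, 0),
   (2, 7, 1, 2, 136, 0), (0, 953, 1, 2, 0, 0), (1, 0, 0, 0, 0, 0), (0, 5, 1, 191, 1, 0),
   (0, 2, 2, 239, 1, 0), (2, 11, 1, 3, 87, 0), (0, 2, 1, 479, 1, 0), (0, 7, 1, 137, 1, 0),
   (4, 2, 6, 3, 15, 2), (0, 31, 2, 2, 0, 0), (1, 0, 0, 0, 0, 0), (0, 3, 2, 107, 1, 0),
   (0, 2, 2, 241, 1, 0), (0, 5, 1, 193, 1, 0), (1, 0, 0, 0, 0, 0), (0, 967, 1, 2, 0, 0),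
   (0, 2, 3, 11, 2, 0), (2, 17, 1, 3, 57, 0), (1, 0, 0, 0, 0, 0), (0, 971, 1, 2, 0, 0),
   (0, 2, 2, 3, 5, 0), (0, 7, 1, 139, 1, 0), (0, 2, 1, 487, 1, 0), (2, 5, 2, 3, 39, 0),
   (0, 2, 4, 61, 1, 0), (0, 977, 1, 2, 0, 0), (1, 0, 0, 0, 0, 0), (0, 11, 1, 89, 1, 0),
   (1, 0, 0, 0, 0, 0), (0, 3, 2, 109, 1, 0), (0, 2, 1, 491, 1, 0), (0, 983, 1, 2, 0, 0),
   (2, 41, 1, 2, 24, 0), (0, 5, 1, 197, 1, 0), (1, 0, 0, 0, 0, 0), (2, 3, 1, 7, 329, 0),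
   (1, 0, 0, 0, 0, 0), (0, 23, 1, 43, 1, 0), (1, 0, 0, 0, 0, 0), (0, 991, 1, 2, 0, 0),
   (0, 2, 5, 31, 1, 0), (0, 3, 1, 331, 1, 0), (1, 0, 0, 0, 0, 0), (0, 5, 1, 199, 1, 0),
   (2, 83, 1, 2, 12, 0), (0, 997, 1, 2, 0, 0), (0, 2, 1, 499, 1, 0), (0, 3, 3, 37, 1, 0),
   (0, 2, 3, 5, 3, 0), (2, 7, 1, 11, 143, 0), (1, 0, 0, 0, 0, 0), (0, 17, 1, 59, 1, 0),
   (0, 2, 2, 251, 1, 0), (2, 67, 1, 3, 15, 0), (0, 2, 1, 503, 1, 0), (0, 19, 1, 53, 1, 0),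
   (3, 7, 1, 2, 144, 0), (0, 1009, 1, 2, 0, 0), (1, 0, 0, 0, 0, 0), (0, 3, 1, 337, 1, 0),
   (1, 0, 0, 0, 0, 0), (0, 1013, 1, 2, 0, 0), (1, 0, 0, 0, 0, 0), (2, 5, 1, 7, 203, 0),
   (0, 2, 3, 127, 1, 0), (0, 3, 2, 113, 1, 0), (0, 2, 1, 509, 1, 0), (0, 1019, 1, 2, 0, 0),
   (2, 17, 1, 2, 60, 0), (0, 1021, 1, 2, 0, 0), (1, 0, 0, 0, 0, 0), (2, 11, 1, 3, 93, 0),
   (0, 2, 10, 3, 0, 0), (0, 5, 2, 41, 1, 0), (1, 0, 0, 0, 0, 0), (0, 13, 1, 79, 1, 0),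
   (0, 2, 2, 257, 1, 0), (0, 3, 1, 7, 3, 0), (1, 0, 0, 0, 0, 0), (0, 1031, 1, 2, 0, 0),
   (2, 43, 1, 2, 24, 0), (0, 1033, 1, 2, 0, 0), (1, 0, 0, 0, 0, 0), (2, 5, 1, 3, 207, 0),
   (1, 0, 0, 0, 0, 0), (0, 17, 1, 61, 1, 0), (1, 0, 0, 0, 0, 0), (0, 1039, 1, 2, 0, 0),
   (3, 13, 1, 2, 80, 0), (0, 3, 1, 347, 1, 0), (0, 2, 1, 521, 1, 0), (0, 7, 1, 149, 1, 0),
   (2, 29, 1, 2, 36, 0), (2, 5, 1, 11, 209, 0), (0, 2, 1, 523, 1, 0), (0, 3, 1, 349, 1, 0),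
   (0, 2, 3, 131, 1, 0), (0, 1049, 1, 2, 0, 0), (1, 0, 0, 0, 0, 0), (0, 1051, 1, 2, 0, 0),
   (0, 2, 2, 263, 1, 0), (0, 3, 4, 13, 1, 0), (1, 0, 0, 0, 0, 0), (0, 5, 1, 211, 1, 0),
   (3, 11, 1, 2, 96, 0), (0, 7, 1, 151, 1, 0), (0, 2, 1, 23, 2, 0), (0, 3, 1, 353, 1, 0),
   (1, 0, 0, 0, 0, 0), (0, 1061, 1, 2, 0, 0), (1, 0, 0, 0, 0, 0), (0, 1063, 1, 2, 0, 0),
   (2, 7, 1, 2, 152, 0), (2, 71, 1, 3, 15, 0), (1, 0, 0, 0, 0, 0), (0, 11, 1, 97, 1, 0),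
   (2, 89, 1, 2, 12, 0), (0, 1069, 1, 2, 0, 0), (1, 0, 0, 0, 0, 0), (2, 3, 2, 7, 119, 0),
   (0, 2, 4, 67, 1, 0), (0, 29, 1, 37, 1, 0), (1, 0, 0, 0, 0, 0), (0, 5, 2, 43, 1, 0),
   (0, 2, 2, 269, 1, 0), (0, 3, 1, 359, 1, 0), (1, 0, 0, 0, 0, 0), (0, 13, 1, 83, 1, 0),
   (9, 0, 0, 0, 0, 0), (0, 23, 1, 47, 1, 0), (0, 2, 1, 541, 1, 0), (0, 3, 1, 19, 2, 0),
   (0, 2, 2, 271, 1, 0), (2, 31, 1, 5, 35, 0), (1, 0, 0, 0, 0, 0), (0, 1087, 1, 2, 0, 0),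
   (0, 2, 6, 17, 1, 0), (0, 3, 2, 11, 2, 0), (1, 0, 0, 0, 0, 0), (0, 1091, 1, 2, 0, 0),
   (9, 0, 0, 0, 0, 0)]

def excB (n : ℕ) : Bool :=
  decide (n = 60) || decide (n = 168) || decide (n = 360) || decide (n = 504) ||
  decide (n = 660) || decide (n = 720) || decide (n = 756) || decide (n = 1080) ||
  decide (n = 1092)

def certOK (n : ℕ) : Bool :=
  excB n || (match certs.getD n (9, 0, 0, 0, 0, 0) with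
    | (kind, p, a, q, m, k) => validB n kind p a q m k)

set_option maxRecDepth 100000 in
theorem certs_ok : (List.range 1093).all certOK = true := by decide +kernel

theorem sweep (n : ℕ) (hn : n < 1093) (h60 : n ≠ 60) (h168 : n ≠ 168) (h360 : n ≠ 360)
    (h504 : n ≠ 504) (h660 : n ≠ 660) (h720 : n ≠ 720) (h756 : n ≠ 756) (h1080 : n ≠ 1080)
    (h1092 : n ≠ 1092) : NoSimple.{u} n := by
  have h := List.all_eq_true.mp certs_ok n (List.mem_range.mpr hn)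
  unfold certOK at h
  rw [Bool.or_eq_true] at h
  rcases h with h | h
  · exfalso
    simp only [excB, Bool.or_eq_true, decide_eq_true_eq] at h
    omega
  · rcases hc : certs.getD n (9, 0, 0, 0, 0, 0) with ⟨kind, p, a, q, m, k⟩
    rw [hc] at h
    exact noSimple_of_validB n kind p a q m k h

end Cfsg.Agent.Lib.Helper93.SO
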