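import Mathlib
import Cfsg.Agent.Lib.Helper17.Simple
import Cfsg.Agent.Lib.Helper93.SOd

/-!
# Simple groups of order `5400`: centralizers of `5`-elements in two Sylow subgroups

If `G` is a simple group of order `5400` and `d ≠ 1` lies in two distinct Sylow
`5`-subgroups, then `|C_G(d)| = 300` and `d` lies in exactly six Sylow `5`-subgroups.
-/

set_option autoImplicit false

namespace Cfsg.Agent.Lib.Helper93.Ord5400a

universe u

/-- A group of order `25 * j`, `j ∈ {3, 9}`, has a unique Sylow `5`-subgroup. -/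
theorem subsingleton_sylow_five_odd {H : Type*} [Group H] [Finite H] (j : ℕ)
    (hH : Nat.card H = 25 * j) (hj : j = 3 ∨ j = 9) : Subsingleton (Sylow 5 H) := by
  have : Fact (Nat.Prime 5) := ⟨by norm_num⟩
  obtain ⟨S⟩ := (Sylow.nonempty : Nonempty (Sylow 5 H))
  have h1 := card_sylow_modEq_one 5 H
  have h2 := Sylow.card_dvd_index S
  have h3 : Nat.card (S : Subgroup H) = 5 ^ 2 :=
    Cfsg.Agent.Lib.Helper17.card_sylow_eq_of_card_eq (G := H) 5 2 j (by rw [hH]; norm_num)
      (by rcases hj with rfl | rfl <;> norm_num) S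
  have h4 : (S : Subgroup H).index = j := by
    have := (S : Subgroup H).card_mul_index
    rw [h3, hH] at this
    omega
  rw [h4] at h2
  have h5 : Nat.card (Sylow 5 H) = 1 := by
    have hle : Nat.card (Sylow 5 H) ≤ j := Nat.le_of_dvd (by rcases hj with rfl | rfl <;> norm_num) h2
    have hmod : Nat.card (Sylow 5 H) % 5 = 1 := h1
    rcases hj with rfl | rfl
    · interval_cases (Nat.card (Sylow 5 H)) <;> omega
    · interval_cases (Nat.card (Sylow 5 H)) <;> omega
  exact (Nat.card_eq_one_iff_unique.mp h5).1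

/-- A group of order `50 * j`, `j ∈ {3, 9}`, has a unique Sylow `5`-subgroup. -/
theorem subsingleton_sylow_five_even {M : Type*} [Group M] [Finite M] (j : ℕ)
    (hM : Nat.card M = 50 * j) (hj : j = 3 ∨ j = 9) : Subsingleton (Sylow 5 M) := by
  have : Fact (Nat.Prime 5) := ⟨by norm_num⟩
  have : Fact (Nat.Prime 2) := ⟨by norm_num⟩
  -- a normal subgroup of index two
  obtain ⟨T⟩ := (Sylow.nonempty : Nonempty (Sylow 2 M))
  have hT2 : Nat.card (T : Subgroup M) = 2 ^ 1 :=
    Cfsg.Agent.Lib.Helper17.card_sylow_eq_of_card_eq (G := M) 2 1 (25 * j) (by rw [hM]; ring)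
      (by rcases hj with rfl | rfl <;> norm_num) T
  have hcyc : IsCyclic (T : Subgroup M) := isCyclic_of_prime_card (p := 2) (by rw [hT2]; norm_num)
  have hmin : (Nat.card M).minFac = 2 := by
    rw [hM]
    rcases hj with rfl | rfl <;> norm_num
  have hcompl := IsCyclic.isComplement' hmin hcyc
  set K : Subgroup M := (MonoidHom.transferSylow T (hcyc.normalizer_le_centralizer hmin)).ker
    with hK
  have hKn : K.Normal := MonoidHom.normal_ker _
  have hKcard : Nat.card K = 25 * j := by
    have := hcompl.card_mul_card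
    rw [hT2, hM] at this
    omega
  have hKidx : K.index = 2 := by
    have := K.card_mul_index
    rw [hKcard, hM] at this
    rcases hj with rfl | rfl <;> omega
  have hsubK : Subsingleton (Sylow 5 K) := subsingleton_sylow_five_odd j hKcard hj
  have hle : ∀ S : Sylow 5 M, (S : Subgroup M) ≤ K := by
    intro S
    have hS : Nat.card (S : Subgroup M) = 5 ^ 2 :=
      Cfsg.Agent.Lib.Helper17.card_sylow_eq_of_card_eq (G := M) 5 2 (2 * j) (by rw [hM]; ring)
        (by rcases hj with rfl | rfl <;> norm_num) S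
    have h1 : K.relIndex (S : Subgroup M) ∣ 2 := hKidx ▸ Subgroup.relIndex_dvd_index_of_normal K _
    have h2 : K.relIndex (S : Subgroup M) ∣ 25 := by
      have := Subgroup.relIndex_dvd_card K (S : Subgroup M)
      rwa [hS] at this
    have h3 : K.relIndex (S : Subgroup M) = 1 := by
      have := Nat.dvd_gcd h1 h2
      simpa using this
    exact Subgroup.relIndex_eq_one.mp h3
  refine ⟨fun S S' => ?_⟩
  exact Sylow.subtype_injective (hP := hle S) (hQ := hle S') (Subsingleton.elim _ _)

theorem arith_5400 (c i k n : ℕ) (h1 : c * i = 5400) (h2 : 25 * k = c) (h3 : n ∣ k)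
    (h4 : n % 5 = 1) (h5 : 2 ≤ n) (h6 : 10 ≤ i) : n = 6 ∧ (k = 6 ∨ k = 12 ∨ k = 18) := by
  subst h2
  have hk : k ≤ 21 := by nlinarith
  have hk0 : 0 < k := by
    rcases Nat.eq_zero_or_pos k with h | h
    · subst h; simp at h1
    · exact h
  have hn : n ≤ k := Nat.le_of_dvd hk0 h3
  interval_cases k <;> interval_cases n <;> omega

/-- In a simple group of order `5400`, the centralizer of a nontrivial element lying in two
distinct Sylow `5`-subgroups has order `300`, and the element lies in exactly six Sylow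
`5`-subgroups. -/
theorem card_centralizer_5400 {G : Type u} [Group G] [Finite G] [IsSimpleGroup G]
    (hG : Nat.card G = 5400) (P Q : Sylow 5 G) (hPQ : P ≠ Q) (d : G)
    (hdP : d ∈ (P : Subgroup G)) (hdQ : d ∈ (Q : Subgroup G)) (hd1 : d ≠ 1) :
    Nat.card (Subgroup.centralizer ({d} : Set G)) = 300 ∧
      Nat.card {S : Sylow 5 G // d ∈ (S : Subgroup G)} = 6 := by
  classical
  have : Fact (Nat.Prime 5) := ⟨by norm_num⟩
  have hS25 : ∀ S : Sylow 5 G, Nat.card (S : Subgroup G) = 5 ^ 2 := fun S =>
    Cfsg.Agent.Lib.Helper17.card_sylow_eq_of_card_eq (G := G) 5 2 216 (by rw [hG]; norm_num)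
      (by norm_num) S
  -- Sylow 5-subgroups are abelian
  have hScomm : ∀ S : Sylow 5 G, ∀ a ∈ (S : Subgroup G), ∀ b ∈ (S : Subgroup G),
      a * b = b * a := by
    intro S a ha b hb
    have h := (IsPGroup.isMulCommutative_of_card_eq_prime_sq (p := 5) (G := ↥(S : Subgroup G))
      (hS25 S)).is_comm.comm ⟨a, ha⟩ ⟨b, hb⟩
    exact congrArg Subtype.val h
  set M : Subgroup G := Subgroup.centralizer ({d} : Set G) with hM
  have hSM : ∀ S : Sylow 5 G, d ∈ (S : Subgroup G) → (S : Subgroup G) ≤ M := by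
    intro S hdS x hx
    rw [hM, Subgroup.mem_centralizer_iff]
    intro y hy
    rw [Set.mem_singleton_iff] at hy
    subst hy
    exact hScomm S y hdS x hx
  have hnc : ¬ IsMulCommutative G :=
    Cfsg.Agent.Lib.Helper17.not_comm_of_not_prime (by rw [hG]; norm_num)
  have hMtop : M ≠ ⊤ := Cfsg.Agent.Lib.Helper93.SO.centralizer_singleton_ne_top hnc d hd1
  have hfact := Cfsg.Agent.Lib.Helper17.card_dvd_factorial_index M hMtop
  have hidx : 10 ≤ M.index := by
    by_contra hlt
    rw [not_le] at hlt
    have h9 : M.index.factorial ∣ Nat.factorial 9 := Nat.factorial_dvd_factorial (by omega)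
    have := hfact.trans h9
    rw [hG] at this
    revert this
    decide
  have hMcard := M.card_mul_index
  rw [hG] at hMcard
  -- Sylow subgroups of `M`
  set P' : Sylow 5 M := P.subtype (hSM P hdP) with hP'
  set Q' : Sylow 5 M := Q.subtype (hSM Q hdQ) with hQ'
  have hPQ' : P' ≠ Q' := fun h => hPQ (Sylow.subtype_injective h)
  have hP'card : Nat.card (P' : Subgroup M) = 25 := by
    rw [hP', Sylow.coe_subtype]
    rw [Nat.card_congr (Subgroup.subgroupOfEquivOfLe (hSM P hdP)).toEquiv, hS25 P]
    norm_num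
  have h1 : Nat.card (Sylow 5 M) % 5 = 1 := card_sylow_modEq_one 5 M
  have h2 := Sylow.card_dvd_index P'
  have h3 := (P' : Subgroup M).card_mul_index
  rw [hP'card] at h3
  have hn2 : 2 ≤ Nat.card (Sylow 5 M) := by
    by_contra hlt
    rw [not_le] at hlt
    have : Subsingleton (Sylow 5 M) := Finite.card_le_one_iff_subsingleton.mp (by omega)
    exact hPQ' (Subsingleton.elim _ _)
  obtain ⟨hn6, hk⟩ := arith_5400 _ _ _ _ hMcard h3 h2 h1 hn2 hidx
  have hk12 : (P' : Subgroup M).index = 12 := by
    rcases hk with hk | hk | hk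
    · exfalso
      have : Subsingleton (Sylow 5 M) :=
        subsingleton_sylow_five_even 3 (by rw [← h3, hk]) (Or.inl rfl)
      exact hPQ' (Subsingleton.elim _ _)
    · exact hk
    · exfalso
      have : Subsingleton (Sylow 5 M) :=
        subsingleton_sylow_five_even 9 (by rw [← h3, hk]) (Or.inr rfl)
      exact hPQ' (Subsingleton.elim _ _)
  have hM300 : Nat.card M = 300 := by rw [← h3, hk12]
  refine ⟨hM300, ?_⟩
  rw [← hn6]
  have hdM : d ∈ M := by
    rw [hM, Subgroup.mem_centralizer_iff]
    intro y hy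
    rw [Set.mem_singleton_iff] at hy
    subst hy
    rfl
  have hdT : ∀ T : Sylow 5 M, (⟨d, hdM⟩ : M) ∈ (T : Subgroup M) := by
    intro T
    obtain ⟨g, hg⟩ := MulAction.exists_smul_eq M Q' T
    rw [← hg, Sylow.coe_subgroup_smul, Subgroup.mem_pointwise_smul_iff_inv_smul_mem]
    have hgd : d * (g : G) = (g : G) * d := by
      have hg2 : (g : G) ∈ Subgroup.centralizer ({d} : Set G) := g.2
      exact (Subgroup.mem_centralizer_iff.mp hg2) d rfl
    have hfix : (MulAut.conj g)⁻¹ • (⟨d, hdM⟩ : M) = ⟨d, hdM⟩ := by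
      rw [MulAut.smul_def, MulAut.conj_inv_apply]
      apply Subtype.ext
      simp only [Subgroup.coe_mul, Subgroup.coe_inv]
      rw [mul_assoc, hgd, inv_mul_cancel_left]
    rw [hfix, hQ', Sylow.coe_subtype, Subgroup.mem_subgroupOf]
    exact hdQ
  refine Nat.card_eq_of_bijective
    (fun S : {S : Sylow 5 G // d ∈ (S : Subgroup G)} => S.1.subtype (hSM S.1 S.2)) ⟨?_, ?_⟩
  · intro S S' h
    exact Subtype.ext (Sylow.subtype_injective h)
  · intro T
    have hTcard : Nat.card (T : Subgroup M) = 5 ^ 2 :=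
      Cfsg.Agent.Lib.Helper17.card_sylow_eq_of_card_eq (G := M) 5 2 12 (by rw [hM300]; norm_num)
        (by norm_num) T
    have hS0card : Nat.card ((T : Subgroup M).map M.subtype) =
        5 ^ (Nat.card G).factorization 5 := by
      rw [Subgroup.card_map_of_injective M.subtype_injective, hTcard, ← hS25 P,
        Sylow.card_eq_multiplicity]
    have hdS0 : d ∈ (Sylow.ofCard ((T : Subgroup M).map M.subtype) hS0card : Subgroup G) := by
      rw [Sylow.coe_ofCard]
      exact ⟨⟨d, hdM⟩, hdT T, rfl⟩
    refine ⟨⟨Sylow.ofCard ((T : Subgroup M).map M.subtype) hS0card, hdS0⟩, ?_⟩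
    apply Sylow.ext
    rw [Sylow.coe_subtype, Sylow.coe_ofCard]
    exact Subgroup.comap_map_eq_self_of_injective M.subtype_injective _

end Cfsg.Agent.Lib.Helper93.Ord5400a
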