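import Mathlib
import Cfsg.Agent.Lib.Helper93.LargeExtra

set_option autoImplicit false

namespace Cfsg.Agent.Lib.Helper93

variable {G : Type*} [Group G]

/-- A non-central element of `Q_a` twisted-commutes with some element of `Q_a`. -/
theorem exists_tw {Q : Subgroup G} {a b : G} (ha : ES Q a) (hba : b ∈ Q) (hb1 : b ≠ 1)
    (hne : b ≠ a) : ∃ q ∈ Q, b * q = a * (q * b) := by
  by_contra hcon
  push Not at hcon
  have hall : ∀ w ∈ Q, b * w = w * b := by
    intro w hw
    rcases ha.comm b hba w hw with e | e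
    · exact e
    · exact absurd e (hcon w hw)
  rcases ha.center b hba hall with e | e
  · exact hb1 e
  · exact hne e

/-- If `x`, `y`, `x y` are pairwise orthogonal then `Q_x ∩ Q_y ≤ Q_{xy}`. -/
theorem inter_le_mul {x y v : G} (hx : ES (coreQ x) x) (hyx : y ∈ coreQ x) (hy1 : y ≠ 1)
    (hyne : y ≠ x) (hxxy : x ∈ coreQ (x * y)) (hvx : v ∈ coreQ x) (hvy : v ∈ coreQ y) :
    v ∈ coreQ (x * y) := by
  obtain ⟨q, hq, hyq⟩ := exists_tw hx hyx hy1 hyne
  have hqy : q * y = x * (y * q) := tw_symm hx.sq_one hyq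
  have hqyq : q * y * q⁻¹ = x * y := by rw [hqy]; group
  have h1 := conj_mem_coreQ q y v hvy
  rw [hqyq] at h1
  rcases hx.comm q hq v hvx with e | e
  · have e1 : q * v * q⁻¹ = v := by rw [e]; group
    rwa [e1] at h1
  · have e1 : q * v * q⁻¹ = x * v := by rw [e]; group
    rw [e1] at h1
    have := (coreQ (x * y)).mul_mem ((coreQ (x * y)).inv_mem hxxy) h1
    have e2 : x⁻¹ * (x * v) = v := by group
    rwa [e2] at this

end Cfsg.Agent.Lib.Helper93
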