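import Mathlib
import Cfsg.Agent.Lib.Helper93.Singular

set_option autoImplicit false

namespace Cfsg.Agent.Lib.Helper93

variable {G : Type*} [Group G]

theorem comm_mul_comm {g g' v : G} (h1 : g * v = v * g) (h2 : g' * v = v * g') :
    (g * g') * v = v * (g * g') := by
  calc g * g' * v = g * (g' * v) := by group
    _ = g * (v * g') := by rw [h2]
    _ = (g * v) * g' := by group
    _ = (v * g) * g' := by rw [h1]
    _ = v * (g * g') := by group

theorem tw_mul_comm {a g g' x : G} (h1 : g * x = a * (x * g)) (h2 : g' * x = x * g') :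
    (g * g') * x = a * (x * (g * g')) := by
  calc g * g' * x = g * (g' * x) := by group
    _ = g * (x * g') := by rw [h2]
    _ = (g * x) * g' := by group
    _ = (a * (x * g)) * g' := by rw [h1]
    _ = a * (x * (g * g')) := by group

theorem comm_mul_tw {a g g' x : G} (hga : g * a = a * g) (h1 : g * x = x * g)
    (h2 : g' * x = a * (x * g')) : (g * g') * x = a * (x * (g * g')) := by
  calc g * g' * x = g * (g' * x) := by group
    _ = g * (a * (x * g')) := by rw [h2]
    _ = (g * a) * (x * g') := by group
    _ = (a * g) * (x * g') := by rw [hga]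
    _ = a * ((g * x) * g') := by group
    _ = a * ((x * g) * g') := by rw [h1]
    _ = a * (x * (g * g')) := by group

theorem ne_of_tw {a g x : G} (ha : a ≠ 1) (h : g * x = a * (x * g)) : g * x ≠ x * g := by
  intro e
  apply ha
  rw [e] at h
  have h3 : 1 * (x * g) = a * (x * g) := by rw [one_mul]; exact h
  exact (mul_right_cancel h3).symm

/-- `g` twisted-commuting with both `x` and `y` commutes with `x y`. -/
theorem tw_tw_mul {a g x y : G} (ha : a * a = 1) (hxa : x * a = a * x)
    (h1 : g * x = a * (x * g)) (h2 : g * y = a * (y * g)) : g * (x * y) = (x * y) * g := by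
  calc g * (x * y) = (g * x) * y := by group
    _ = (a * (x * g)) * y := by rw [h1]
    _ = a * x * (g * y) := by group
    _ = a * x * (a * (y * g)) := by rw [h2]
    _ = a * (x * a) * (y * g) := by group
    _ = a * (a * x) * (y * g) := by rw [hxa]
    _ = (a * a) * (x * y * g) := by group
    _ = x * y * g := by rw [ha, one_mul]

/-- Duality in an extraspecial-like group: an element outside the subgroup generated by the centre
and a finite set `S` is moved by some element centralizing `S`. -/
theorem dual_exists {Q : Subgroup G} {a : G} (ha : ES Q a) (S : Finset G) :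
    (∀ s ∈ S, s ∈ Q) → ∀ x ∈ Q, x ∉ Subgroup.closure (insert a (S : Set G)) →
    ∃ g ∈ Q, (∀ s ∈ S, g * s = s * g) ∧ g * x ≠ x * g := by
  classical
  induction S using Finset.induction_on with
  | empty =>
    intro _ x hx hxW
    have hx1 : x ≠ 1 := fun e => hxW (e ▸ one_mem _)
    have hxa : x ≠ a := fun e => hxW (e ▸ Subgroup.subset_closure (Set.mem_insert _ _))
    obtain ⟨q, hq, hxq⟩ := exists_tw ha hx hx1 hxa
    refine ⟨q, hq, by simp, ?_⟩
    exact ne_of_tw ha.ne_one (tw_symm ha.sq_one hxq)
  | insert y S hyS ih =>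
    intro hS x hx hxW
    have hyQ : y ∈ Q := hS y (Finset.mem_insert_self _ _)
    have hS' : ∀ s ∈ S, s ∈ Q := fun s hs => hS s (Finset.mem_insert_of_mem hs)
    have hWW : Subgroup.closure (insert a (S : Set G)) ≤
        Subgroup.closure (insert a ((insert y S : Finset G) : Set G)) := by
      apply Subgroup.closure_mono
      intro t ht
      rcases ht with rfl | ht
      · exact Set.mem_insert _ _
      · exact Set.mem_insert_of_mem _ (by simp [Finset.mem_coe.mp ht])
    have hyW' : y ∈ Subgroup.closure (insert a ((insert y S : Finset G) : Set G)) :=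
      Subgroup.subset_closure (Set.mem_insert_of_mem _ (by simp))
    have hxW0 : x ∉ Subgroup.closure (insert a (S : Set G)) := fun h => hxW (hWW h)
    by_cases hy : y ∈ Subgroup.closure (insert a (S : Set G))
    · obtain ⟨g, hg, hgS, hgx⟩ := ih hS' x hx hxW0
      refine ⟨g, hg, ?_, hgx⟩
      have hle : Subgroup.closure (insert a (S : Set G)) ≤ Subgroup.centralizer ({g} : Set G) := by
        rw [Subgroup.closure_le]
        intro t ht
        rw [SetLike.mem_coe, Subgroup.mem_centralizer_iff]
        rintro _ rfl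
        rcases ht with rfl | ht
        · exact ha.central _ hg
        · exact hgS t (Finset.mem_coe.mp ht)
      have hgy : g * y = y * g := by
        have := hle hy
        rw [Subgroup.mem_centralizer_iff] at this
        exact this g rfl
      intro s hs
      rcases Finset.mem_insert.mp hs with rfl | hs
      · exact hgy
      · exact hgS s hs
    · have hxyW : x * y ∉ Subgroup.closure (insert a (S : Set G)) := by
        intro h
        apply hxW
        have := mul_mem (hWW h) (inv_mem hyW')
        have e : x * y * y⁻¹ = x := by group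
        rwa [e] at this
      obtain ⟨g1, hg1, hg1S, hg1x⟩ := ih hS' x hx hxW0
      obtain ⟨g2, hg2, hg2S, hg2y⟩ := ih hS' y hyQ hy
      obtain ⟨g3, hg3, hg3S, hg3xy⟩ := ih hS' (x * y) (Q.mul_mem hx hyQ) hxyW
      have t1x : g1 * x = a * (x * g1) := (ha.comm g1 hg1 x hx).resolve_left hg1x
      have t2y : g2 * y = a * (y * g2) := (ha.comm g2 hg2 y hyQ).resolve_left hg2y
      have fin : ∀ g ∈ Q, (∀ s ∈ S, g * s = s * g) → g * y = y * g → g * x ≠ x * g →
          ∃ g ∈ Q, (∀ s ∈ insert y S, g * s = s * g) ∧ g * x ≠ x * g := by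
        intro g hg hgS hgy hgx
        refine ⟨g, hg, ?_, hgx⟩
        intro s hs
        rcases Finset.mem_insert.mp hs with rfl | hs
        · exact hgy
        · exact hgS s hs
      rcases ha.comm g1 hg1 y hyQ with c1y | t1y
      · exact fin g1 hg1 hg1S c1y hg1x
      · rcases ha.comm g2 hg2 x hx with c2x | t2x
        · refine fin (g1 * g2) (Q.mul_mem hg1 hg2) (fun s hs => comm_mul_comm (hg1S s hs) (hg2S s hs))
            ?_ ?_
          · exact tw_mul_tw ha.sq_one (ha.central g1 hg1) t1y t2y
          · exact ne_of_tw ha.ne_one (tw_mul_comm t1x c2x)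
        · rcases ha.comm g3 hg3 y hyQ with c3y | t3y
          · refine fin g3 hg3 hg3S c3y ?_
            intro c3x
            apply hg3xy
            calc g3 * (x * y) = (g3 * x) * y := by group
              _ = (x * g3) * y := by rw [c3x]
              _ = x * (g3 * y) := by group
              _ = x * (y * g3) := by rw [c3y]
              _ = x * y * g3 := by group
          · have c3x : g3 * x = x * g3 := by
              rcases ha.comm g3 hg3 x hx with c | t
              · exact c
              · exact absurd (tw_tw_mul ha.sq_one (ha.central x hx) t t3y) hg3xy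
            refine fin (g3 * g1) (Q.mul_mem hg3 hg1)
              (fun s hs => comm_mul_comm (hg3S s hs) (hg1S s hs)) ?_ ?_
            · exact tw_mul_tw ha.sq_one (ha.central g3 hg3) t3y t1y
            · exact ne_of_tw ha.ne_one (comm_mul_tw (ha.central g3 hg3) c3x t1x)

/-- The subgroup of elements normalizing `U` and acting trivially on `QU` modulo `U`. -/
def commSub (U QU : Subgroup G) : Subgroup G where
  carrier := {g | g ∈ Subgroup.normalizer (U : Set G) ∧ ∀ x ∈ QU, g * x * g⁻¹ * x⁻¹ ∈ U}
  one_mem' := ⟨one_mem _, fun x _ => by simp⟩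
  mul_mem' := by
    rintro g1 g2 ⟨hn1, h1⟩ ⟨hn2, h2⟩
    refine ⟨mul_mem hn1 hn2, fun x hx => ?_⟩
    have e : g1 * g2 * x * (g1 * g2)⁻¹ * x⁻¹ =
        g1 * (g2 * x * g2⁻¹ * x⁻¹) * g1⁻¹ * (g1 * x * g1⁻¹ * x⁻¹) := by group
    rw [e]
    exact U.mul_mem ((Subgroup.mem_normalizer_iff.mp hn1 _).mp (h2 x hx)) (h1 x hx)
  inv_mem' := by
    rintro g ⟨hn, h⟩
    refine ⟨inv_mem hn, fun x hx => ?_⟩
    have e : g⁻¹ * x * g⁻¹⁻¹ * x⁻¹ = g⁻¹ * (g * x * g⁻¹ * x⁻¹)⁻¹ * g⁻¹⁻¹ := by group
    rw [e]
    exact (Subgroup.mem_normalizer_iff.mp (inv_mem hn) _).mp (U.inv_mem (h x hx))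

theorem mem_commSub {U QU : Subgroup G} {g : G} : g ∈ commSub U QU ↔
    g ∈ Subgroup.normalizer (U : Set G) ∧ ∀ x ∈ QU, g * x * g⁻¹ * x⁻¹ ∈ U := Iff.rfl

/-- conjugating an element of `Q_a` by an element of `Q_a` changes it at most by `a` -/
theorem ES.conj_mem_pair {Q : Subgroup G} {a : G} (ha : ES Q a) {g h : G} (hg : g ∈ Q)
    (hh : h ∈ Q) : g * h * g⁻¹ = h ∨ g * h * g⁻¹ = a * h := by
  rcases ha.comm g hg h hh with e | e
  · left; rw [e]; group
  · right; rw [e]; group

/-- In the singular setting `Q_u` lies in `commSub U QU`. -/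
theorem coreQ_le_commSub {U QU : Subgroup G} {u : G} (hu : u ∈ U) (ha : ES (coreQ u) u)
    (hUQ : U ≤ coreQ u) (hQU : QU ≤ coreQ u) : coreQ u ≤ commSub U QU := by
  intro g hg
  have key : ∀ g ∈ coreQ u, ∀ h ∈ U, g * h * g⁻¹ ∈ U := by
    intro g hg h hh
    rcases ha.conj_mem_pair hg (hUQ hh) with e | e
    · rw [e]; exact hh
    · rw [e]; exact U.mul_mem hu hh
  refine ⟨?_, ?_⟩
  · rw [Subgroup.mem_normalizer_iff]
    intro h
    constructor
    · exact key g hg h
    · intro hh
      have := key g⁻¹ ((coreQ u).inv_mem hg) _ hh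
      have e : g⁻¹ * (g * h * g⁻¹) * g⁻¹⁻¹ = h := by group
      rwa [e] at this
  · intro x hx
    rcases ha.conj_mem_pair hg (hQU hx) with e | e
    · rw [e]; simp
    · rw [e]
      have e2 : u * x * x⁻¹ = u := by group
      rw [e2]; exact hu

end Cfsg.Agent.Lib.Helper93
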