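import Mathlib

set_option autoImplicit false

namespace Cfsg.Agent.Lib.Helper93.ES

/-- A model of the extraspecial group `2^{1+4}_-` on 32 points: bits `a b c d t` stand for
`e^a f^b i^c j^d z^t` with `e, f` anticommuting involutions, `i, j` anticommuting elements of
order 4 with square `z`, and `⟨e,f⟩` commuting with `⟨i,j⟩`. -/
def M : Type := Fin 32

instance : DecidableEq M := inferInstanceAs (DecidableEq (Fin 32))
instance : Fintype M := inferInstanceAs (Fintype (Fin 32))

/-- the `k`-th bit -/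
def bit (k : ℕ) (x : M) : ℕ := (x.val / 2 ^ k) % 2

/-- the twist -/
def tw (x y : M) : ℕ :=
  (bit 1 x * bit 0 y + bit 3 x * bit 2 y + bit 2 x * bit 2 y + bit 3 x * bit 3 y) % 2

def mulM (x y : M) : M :=
  ⟨(x.val ^^^ y.val ^^^ (16 * tw x y)) % 32, Nat.mod_lt _ (by norm_num)⟩

def invM (x : M) : M :=
  ⟨(x.val ^^^ (16 * tw x x)) % 32, Nat.mod_lt _ (by norm_num)⟩

def oneM : M := (0 : Fin 32)

instance : Mul M := ⟨mulM⟩
instance : One M := ⟨oneM⟩
instance : Inv M := ⟨invM⟩

theorem mul_assocM : ∀ x y z : M, x * y * z = x * (y * z) := by decide +kernel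

theorem one_mulM : ∀ x : M, 1 * x = x := by decide +kernel

theorem mul_oneM : ∀ x : M, x * 1 = x := by decide +kernel

theorem inv_mulM : ∀ x : M, x⁻¹ * x = 1 := by decide +kernel

instance : Group M where
  mul_assoc := mul_assocM
  one_mul := one_mulM
  mul_one := mul_oneM
  inv_mul_cancel := inv_mulM

end Cfsg.Agent.Lib.Helper93.ES
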