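import Mathlib
import Cfsg.Agent.Lib.Helper93.ESa

set_option autoImplicit false

namespace Cfsg.Agent.Lib.Helper93.ES

/-- the central involution of the model -/
def Zm : M := (16 : Fin 32)

theorem bit0_mul : ∀ x y : M, bit 0 (x * y) = (bit 0 x + bit 0 y) % 2 := by decide +kernel
theorem bit1_mul : ∀ x y : M, bit 1 (x * y) = (bit 1 x + bit 1 y) % 2 := by decide +kernel
theorem bit2_mul : ∀ x y : M, bit 2 (x * y) = (bit 2 x + bit 2 y) % 2 := by decide +kernel
theorem bit3_mul : ∀ x y : M, bit 3 (x * y) = (bit 3 x + bit 3 y) % 2 := by decide +kernel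
theorem bit4_mul : ∀ x y : M, bit 4 (x * y) =
    ((bit 2 x + bit 2 y) / 2 + ((bit 3 x + bit 3 y) / 2 +
      (bit 4 x + bit 4 y + bit 1 x * bit 0 y + bit 3 x * bit 2 y))) % 2 := by decide +kernel

theorem bits_one : bit 0 (1 : M) = 0 ∧ bit 1 (1 : M) = 0 ∧ bit 2 (1 : M) = 0 ∧
    bit 3 (1 : M) = 0 ∧ bit 4 (1 : M) = 0 := by decide +kernel

theorem bits_Zm : bit 0 Zm = 0 ∧ bit 1 Zm = 0 ∧ bit 2 Zm = 0 ∧ bit 3 Zm = 0 ∧ bit 4 Zm = 1 := by
  decide +kernel

/-- every nontrivial element of the model is `Zm` or has `Zm` as a commutator -/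
theorem normal_contains_Zm : ∀ x : M, x ≠ 1 → x = Zm ∨ ∃ g : M, g * x * g⁻¹ * x⁻¹ = Zm := by
  decide +kernel

theorem card_M : Nat.card M = 32 := by
  rw [Nat.card_eq_fintype_card]; rfl

section abstract
variable {P : Type*} [Group P]

/-- relations satisfied by generators `e f i j z` of a copy of `2^{1+4}_-` -/
structure Rel (e f i j z : P) : Prop where
  hz : ∀ x, z * x = x * z
  z1 : z ≠ 1
  z2 : z ^ 2 = 1
  e2 : e ^ 2 = 1
  f2 : f ^ 2 = 1
  i2 : i ^ 2 = z
  j2 : j ^ 2 = z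
  fe : f * e = e * f * z
  ji : j * i = i * j * z
  ie : i * e = e * i
  i_f : i * f = f * i
  je : j * e = e * j
  jf : j * f = f * j

variable {e f i j z : P}

/-- twisted commutation of powers -/
theorem pow_swap {a b ζ : P} (hζ : ∀ x, ζ * x = x * ζ) (h : b * a = a * b * ζ) (m n : ℕ) :
    b ^ m * a ^ n = a ^ n * b ^ m * ζ ^ (m * n) := by
  have h1 : ∀ m : ℕ, b ^ m * a = a * b ^ m * ζ ^ m := by
    intro m
    induction m with
    | zero => simp
    | succ k ih =>
      have hc : Commute (ζ ^ k) b := (Commute.pow_left (hζ b) k)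
      calc b ^ (k + 1) * a = b ^ k * (b * a) := by rw [pow_succ, mul_assoc]
        _ = b ^ k * (a * b * ζ) := by rw [h]
        _ = (b ^ k * a) * b * ζ := by simp only [mul_assoc]
        _ = a * b ^ k * ζ ^ k * b * ζ := by rw [ih]
        _ = a * b ^ k * (ζ ^ k * b) * ζ := by simp only [mul_assoc]
        _ = a * b ^ k * (b * ζ ^ k) * ζ := by rw [hc.eq]
        _ = a * (b ^ k * b) * (ζ ^ k * ζ) := by simp only [mul_assoc]
        _ = a * b ^ (k + 1) * ζ ^ (k + 1) := by rw [← pow_succ, ← pow_succ]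
  induction n with
  | zero => simp
  | succ k ih =>
    have hc : Commute (ζ ^ (m * k)) a := (Commute.pow_left (hζ a) _)
    calc b ^ m * a ^ (k + 1) = (b ^ m * a ^ k) * a := by rw [pow_succ, mul_assoc]
      _ = a ^ k * b ^ m * ζ ^ (m * k) * a := by rw [ih]
      _ = a ^ k * b ^ m * (ζ ^ (m * k) * a) := by simp only [mul_assoc]
      _ = a ^ k * b ^ m * (a * ζ ^ (m * k)) := by rw [hc.eq]
      _ = a ^ k * (b ^ m * a) * ζ ^ (m * k) := by simp only [mul_assoc]
      _ = a ^ k * (a * b ^ m * ζ ^ m) * ζ ^ (m * k) := by rw [h1 m]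
      _ = (a ^ k * a) * b ^ m * (ζ ^ m * ζ ^ (m * k)) := by simp only [mul_assoc]
      _ = a ^ (k + 1) * b ^ m * ζ ^ (m * (k + 1)) := by
        rw [← pow_succ, ← pow_add]; congr 2; ring

/-- product of two twisted pairs -/
theorem pair_mul {a b ζ : P} (hζ : ∀ x, ζ * x = x * ζ) (h : b * a = a * b * ζ) (m n m' n' : ℕ) :
    (a ^ m * b ^ n) * (a ^ m' * b ^ n') = a ^ (m + m') * b ^ (n + n') * ζ ^ (n * m') := by
  have hc : Commute (ζ ^ (n * m')) (b ^ n') := Commute.pow_left (hζ _) _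
  calc (a ^ m * b ^ n) * (a ^ m' * b ^ n') = a ^ m * (b ^ n * a ^ m') * b ^ n' := by
        simp only [mul_assoc]
    _ = a ^ m * (a ^ m' * b ^ n * ζ ^ (n * m')) * b ^ n' := by rw [pow_swap hζ h]
    _ = (a ^ m * a ^ m') * b ^ n * (ζ ^ (n * m') * b ^ n') := by simp only [mul_assoc]
    _ = (a ^ m * a ^ m') * b ^ n * (b ^ n' * ζ ^ (n * m')) := by rw [hc.eq]
    _ = (a ^ m * a ^ m') * (b ^ n * b ^ n') * ζ ^ (n * m') := by simp only [mul_assoc]
    _ = _ := by rw [← pow_add, ← pow_add]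

/-- the normal-form word -/
def word (e f i j z : P) (a b c d t : ℕ) : P := (e ^ a * f ^ b) * (i ^ c * j ^ d) * z ^ t

theorem word_mul (R : Rel e f i j z) (a b c d t a' b' c' d' t' : ℕ) :
    word e f i j z a b c d t * word e f i j z a' b' c' d' t' =
      word e f i j z (a + a') (b + b') (c + c') (d + d') (t + t' + b * a' + d * c') := by
  unfold word
  have hzp : ∀ (k : ℕ) (x : P), Commute (z ^ k) x := fun k x => Commute.pow_left (R.hz x) k
  have hie : Commute i e := R.ie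
  have hif : Commute i f := R.i_f
  have hje : Commute j e := R.je
  have hjf : Commute j f := R.jf
  have hY : Commute (i ^ c * j ^ d) (e ^ a' * f ^ b') := by
    apply Commute.mul_left
    · exact Commute.mul_right (hie.pow_pow _ _) (hif.pow_pow _ _)
    · exact Commute.mul_right (hje.pow_pow _ _) (hjf.pow_pow _ _)
  have h1 := pair_mul R.hz R.fe a b a' b'
  have h2 := pair_mul R.hz R.ji c d c' d'
  calc (e ^ a * f ^ b) * (i ^ c * j ^ d) * z ^ t * ((e ^ a' * f ^ b') * (i ^ c' * j ^ d') * z ^ t')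
      = (e ^ a * f ^ b) * (i ^ c * j ^ d) * (z ^ t * ((e ^ a' * f ^ b') * (i ^ c' * j ^ d'))) * z ^ t' := by
        simp only [mul_assoc]
    _ = (e ^ a * f ^ b) * (i ^ c * j ^ d) * (((e ^ a' * f ^ b') * (i ^ c' * j ^ d')) * z ^ t) * z ^ t' := by
        rw [(hzp t _).eq]
    _ = (e ^ a * f ^ b) * ((i ^ c * j ^ d) * (e ^ a' * f ^ b')) * (i ^ c' * j ^ d') * (z ^ t * z ^ t') := by
        simp only [mul_assoc]
    _ = (e ^ a * f ^ b) * ((e ^ a' * f ^ b') * (i ^ c * j ^ d)) * (i ^ c' * j ^ d') * (z ^ t * z ^ t') := by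
        rw [hY.eq]
    _ = ((e ^ a * f ^ b) * (e ^ a' * f ^ b')) * ((i ^ c * j ^ d) * (i ^ c' * j ^ d')) * (z ^ t * z ^ t') := by
        simp only [mul_assoc]
    _ = (e ^ (a + a') * f ^ (b + b') * z ^ (b * a')) * (i ^ (c + c') * j ^ (d + d') * z ^ (d * c')) *
          (z ^ t * z ^ t') := by rw [h1, h2]
    _ = e ^ (a + a') * f ^ (b + b') * (z ^ (b * a') * (i ^ (c + c') * j ^ (d + d'))) * (z ^ (d * c') *
          (z ^ t * z ^ t')) := by simp only [mul_assoc]
    _ = e ^ (a + a') * f ^ (b + b') * ((i ^ (c + c') * j ^ (d + d')) * z ^ (b * a')) * (z ^ (d * c') *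
          (z ^ t * z ^ t')) := by rw [(hzp (b * a') _).eq]
    _ = e ^ (a + a') * f ^ (b + b') * (i ^ (c + c') * j ^ (d + d')) * (z ^ (b * a') * (z ^ (d * c') *
          (z ^ t * z ^ t'))) := by simp only [mul_assoc]
    _ = _ := by
        rw [← pow_add, ← pow_add, ← pow_add]
        congr 2; ring

/-- reduction of exponents: squares to `z` -/
theorem pow_red {x z : P} (h : x ^ 2 = z) (n : ℕ) : x ^ n = x ^ (n % 2) * z ^ (n / 2) := by
  conv_lhs => rw [← Nat.mod_add_div n 2]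
  rw [pow_add, pow_mul, h]

theorem word_red (R : Rel e f i j z) (a b c d t : ℕ) :
    word e f i j z a b c d t =
      word e f i j z (a % 2) (b % 2) (c % 2) (d % 2) ((c / 2 + (d / 2 + t)) % 2) := by
  unfold word
  have hzp : ∀ (k : ℕ) (x : P), Commute (z ^ k) x := fun k x => Commute.pow_left (R.hz x) k
  rw [← pow_eq_pow_mod a R.e2, ← pow_eq_pow_mod b R.f2, ← pow_eq_pow_mod _ R.z2]
  rw [pow_red R.i2 c, pow_red R.j2 d]
  calc e ^ a * f ^ b * (i ^ (c % 2) * z ^ (c / 2) * (j ^ (d % 2) * z ^ (d / 2))) * z ^ t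
      = e ^ a * f ^ b * (i ^ (c % 2) * (z ^ (c / 2) * j ^ (d % 2)) * z ^ (d / 2)) * z ^ t := by
        simp only [mul_assoc]
    _ = e ^ a * f ^ b * (i ^ (c % 2) * (j ^ (d % 2) * z ^ (c / 2)) * z ^ (d / 2)) * z ^ t := by
        rw [(hzp (c / 2) _).eq]
    _ = e ^ a * f ^ b * (i ^ (c % 2) * j ^ (d % 2)) * (z ^ (c / 2) * (z ^ (d / 2) * z ^ t)) := by
        simp only [mul_assoc]
    _ = _ := by rw [← pow_add, ← pow_add]

/-- the map from the model -/
def psi (e f i j z : P) (x : M) : P :=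
  word e f i j z (bit 0 x) (bit 1 x) (bit 2 x) (bit 3 x) (bit 4 x)

theorem psi_mul (R : Rel e f i j z) (x y : M) :
    psi e f i j z (x * y) = psi e f i j z x * psi e f i j z y := by
  unfold psi
  rw [word_mul R, bit0_mul, bit1_mul, bit2_mul, bit3_mul, bit4_mul]
  exact (word_red R _ _ _ _ _).symm

theorem psi_one : psi e f i j z 1 = 1 := by
  unfold psi word
  obtain ⟨h0, h1, h2, h3, h4⟩ := bits_one
  rw [h0, h1, h2, h3, h4]; simp

theorem psi_Zm : psi e f i j z Zm = z := by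
  unfold psi word
  obtain ⟨h0, h1, h2, h3, h4⟩ := bits_Zm
  rw [h0, h1, h2, h3, h4]; simp

/-- the homomorphism from the model -/
def psiHom (R : Rel e f i j z) : M →* P where
  toFun := psi e f i j z
  map_one' := psi_one
  map_mul' := psi_mul R

theorem psiHom_injective (R : Rel e f i j z) : Function.Injective (psiHom R) := by
  rw [injective_iff_map_eq_one]
  intro x hx
  by_contra hne
  have hZ : psiHom R Zm = 1 := by
    rcases normal_contains_Zm x hne with h | ⟨g, hg⟩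
    · rw [← h]; exact hx
    · rw [← hg]; simp [hx]
  exact R.z1 (psi_Zm.symm.trans hZ)

/-- the isomorphism from the model to a group of order 32 with such generators -/
noncomputable def psiEquiv [Finite P] (R : Rel e f i j z) (h32 : Nat.card P = 32) : M ≃* P :=
  MulEquiv.ofBijective (psiHom R)
    ((Nat.bijective_iff_injective_and_card _).2 ⟨psiHom_injective R, by rw [card_M, h32]⟩)

end abstract

end Cfsg.Agent.Lib.Helper93.ES
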