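import Mathlib
import Cfsg.Agent.Lib.Helper93.ESb

set_option autoImplicit false

namespace Cfsg.Agent.Lib.Helper93.ES

/-- coercion helper -/
def ofF (n : Fin 32) : M := n

/-- representatives of the five pairs of non-central involutions of the model -/
def rep : Fin 5 → M := ![ofF 1, ofF 2, ofF 7, ofF 11, ofF 15]

/-- the index of the pair containing a non-central involution -/
def idx (x : M) : Fin 5 :=
  if x = rep 0 ∨ x = rep 0 * Zm then 0 else if x = rep 1 ∨ x = rep 1 * Zm then 1 else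
  if x = rep 2 ∨ x = rep 2 * Zm then 2 else if x = rep 3 ∨ x = rep 3 * Zm then 3 else 4

theorem inv_pair : ∀ x : M, x * x = 1 → x ≠ 1 → x ≠ Zm →
    (x = rep (idx x) ∨ x = rep (idx x) * Zm) := by decide +kernel

theorem idx_rep : ∀ i : Fin 5, idx (rep i) = i ∧ idx (rep i * Zm) = i := by decide +kernel

theorem rep_inv : ∀ i : Fin 5, rep i * rep i = 1 ∧ rep i ≠ 1 ∧ rep i ≠ Zm := by decide +kernel

theorem sq_eq_Zm : ∀ x : M, x * x ≠ 1 → x * x = Zm := by decide +kernel

theorem Zm_sq : Zm * Zm = 1 := by decide +kernel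

theorem Zm_ne_one : Zm ≠ 1 := by decide +kernel

theorem w_sq : ofF 3 * ofF 3 = Zm := by decide +kernel

theorem aut_Zm (α : MulAut M) : α Zm = Zm := by
  have h : α Zm = α (ofF 3) * α (ofF 3) := by rw [← map_mul, w_sq]
  rw [h]
  apply sq_eq_Zm
  rw [← h]
  intro h1
  exact Zm_ne_one (α.injective (h1.trans (map_one α).symm))

/-- the action on the five pairs -/
def act (α : MulAut M) (i : Fin 5) : Fin 5 := idx (α (rep i))

theorem act_spec (α : MulAut M) (i : Fin 5) :
    α (rep i) = rep (act α i) ∨ α (rep i) = rep (act α i) * Zm := by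
  obtain ⟨h1, h2, h3⟩ := rep_inv i
  apply inv_pair
  · rw [← map_mul, h1, map_one]
  · intro h
    exact h2 (α.injective (h.trans (map_one α).symm))
  · intro h
    exact h3 (α.injective (h.trans (aut_Zm α).symm))

theorem act_mul (α β : MulAut M) (i : Fin 5) : act (α * β) i = act α (act β i) := by
  obtain ⟨k, hk⟩ : ∃ k, k = act β i := ⟨_, rfl⟩
  obtain ⟨l, hl⟩ : ∃ l, l = act α k := ⟨_, rfl⟩
  have hb := act_spec β i
  have ha := act_spec α k
  rw [← hk] at hb ⊢
  rw [← hl] at ha ⊢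
  have hi := idx_rep l
  show idx ((α * β) (rep i)) = l
  rw [MulAut.mul_apply]
  rcases hb with hb | hb <;> rcases ha with ha | ha
  · rw [hb, ha]; exact hi.1
  · rw [hb, ha]; exact hi.2
  · rw [hb, map_mul, ha, aut_Zm]; exact hi.2
  · rw [hb, map_mul, ha, aut_Zm, mul_assoc, Zm_sq, mul_one]; exact hi.1

theorem act_one (i : Fin 5) : act 1 i = i := (idx_rep i).1

/-- the homomorphism `Aut(M) → S₅` -/
def Phi : MulAut M →* Equiv.Perm (Fin 5) where
  toFun α :=
    { toFun := act α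
      invFun := act α⁻¹
      left_inv := fun i => by rw [← act_mul, inv_mul_cancel, act_one]
      right_inv := fun i => by rw [← act_mul, mul_inv_cancel, act_one] }
  map_one' := by ext i; simp [act_one]
  map_mul' α β := by ext i; simp [act_mul]

theorem Phi_apply (α : MulAut M) (i : Fin 5) : Phi α i = act α i := rfl

theorem conj_idx : ∀ (g : M) (i : Fin 5), idx (g * rep i * g⁻¹) = i := by decide +kernel

/-- twist by the central involution -/
def twz (s : Bool) (x : M) : M := if s then x * Zm else x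

theorem inner_signs : ∀ s0 s1 s2 s3 : Bool, ∃ g : M,
    g * rep 0 * g⁻¹ = twz s0 (rep 0) ∧ g * rep 1 * g⁻¹ = twz s1 (rep 1) ∧
    g * rep 2 * g⁻¹ = twz s2 (rep 2) ∧ g * rep 3 * g⁻¹ = twz s3 (rep 3) := by decide +kernel

theorem gen_word : ∀ x : M, x = rep 0 ^ bit 0 x * rep 1 ^ bit 1 x *
    (rep 1 * rep 0 * rep 2) ^ bit 2 x * (rep 1 * rep 0 * rep 3) ^ bit 3 x *
    (rep 0 * rep 1 * (rep 0 * rep 1)) ^ bit 4 x := by decide +kernel

theorem twz_spec (α : MulAut M) (i : Fin 5) (h : act α i = i) :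
    ∃ s : Bool, α (rep i) = twz s (rep i) := by
  rcases act_spec α i with h1 | h1
  · exact ⟨false, by rw [h1, h]; rfl⟩
  · exact ⟨true, by rw [h1, h]; rfl⟩

theorem ker_Phi : Phi.ker = (MulAut.conj : M →* MulAut M).range := by
  ext α
  rw [MonoidHom.mem_ker, MonoidHom.mem_range]
  constructor
  · intro h
    have hact : ∀ i, act α i = i := by
      intro i
      have := congrArg (fun σ : Equiv.Perm (Fin 5) => σ i) h
      simpa [Phi_apply] using this
    obtain ⟨s0, h0⟩ := twz_spec α 0 (hact 0)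
    obtain ⟨s1, h1⟩ := twz_spec α 1 (hact 1)
    obtain ⟨s2, h2⟩ := twz_spec α 2 (hact 2)
    obtain ⟨s3, h3⟩ := twz_spec α 3 (hact 3)
    obtain ⟨g, g0, g1, g2, g3⟩ := inner_signs s0 s1 s2 s3
    refine ⟨g, ?_⟩
    ext x
    obtain ⟨a, b, c, d, t, hx⟩ : ∃ a b c d t : ℕ, x = rep 0 ^ a * rep 1 ^ b *
        (rep 1 * rep 0 * rep 2) ^ c * (rep 1 * rep 0 * rep 3) ^ d *
        (rep 0 * rep 1 * (rep 0 * rep 1)) ^ t := ⟨_, _, _, _, _, gen_word x⟩
    have c0 : MulAut.conj g (rep 0) = α (rep 0) := by rw [MulAut.conj_apply, g0, h0]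
    have c1 : MulAut.conj g (rep 1) = α (rep 1) := by rw [MulAut.conj_apply, g1, h1]
    have c2 : MulAut.conj g (rep 2) = α (rep 2) := by rw [MulAut.conj_apply, g2, h2]
    have c3 : MulAut.conj g (rep 3) = α (rep 3) := by rw [MulAut.conj_apply, g3, h3]
    rw [hx]
    simp only [map_mul, map_pow, c0, c1, c2, c3]
  · rintro ⟨g, rfl⟩
    apply Equiv.ext
    intro i
    show idx (MulAut.conj g (rep i)) = i
    rw [MulAut.conj_apply, conj_idx]

/-- table lookup -/
def tbl (l : List (Fin 32)) (x : M) : M := l.getD x.val 0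

/-- tables of four automorphisms inducing the adjacent transpositions -/
def T : Fin 4 → List (Fin 32) := ![
  [0, 2, 1, 19, 4, 6, 5, 23, 8, 10, 9, 27, 12, 14, 13, 31, 16, 18, 17, 3, 20, 22, 21, 7, 24, 26, 25, 11, 28, 30, 29, 15],
  [0, 1, 7, 6, 4, 5, 19, 18, 13, 12, 10, 11, 25, 24, 14, 15, 16, 17, 23, 22, 20, 21, 3, 2, 29, 28, 26, 27, 9, 8, 30, 31],
  [0, 1, 2, 3, 8, 9, 10, 11, 4, 5, 6, 7, 28, 29, 30, 31, 16, 17, 18, 19, 24, 25, 26, 27, 20, 21, 22, 23, 12, 13, 14, 15],
  [0, 1, 2, 3, 4, 5, 6, 7, 12, 13, 14, 15, 24, 25, 26, 27, 16, 17, 18, 19, 20, 21, 22, 23, 28, 29, 30, 31, 8, 9, 10, 11]]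

/-- tables of the inverses -/
def T' : Fin 4 → List (Fin 32) := ![
  [0, 2, 1, 19, 4, 6, 5, 23, 8, 10, 9, 27, 12, 14, 13, 31, 16, 18, 17, 3, 20, 22, 21, 7, 24, 26, 25, 11, 28, 30, 29, 15],
  [0, 1, 23, 22, 4, 5, 3, 2, 29, 28, 10, 11, 9, 8, 14, 15, 16, 17, 7, 6, 20, 21, 19, 18, 13, 12, 26, 27, 25, 24, 30, 31],
  [0, 1, 2, 3, 8, 9, 10, 11, 4, 5, 6, 7, 28, 29, 30, 31, 16, 17, 18, 19, 24, 25, 26, 27, 20, 21, 22, 23, 12, 13, 14, 15],
  [0, 1, 2, 3, 4, 5, 6, 7, 28, 29, 30, 31, 8, 9, 10, 11, 16, 17, 18, 19, 20, 21, 22, 23, 12, 13, 14, 15, 24, 25, 26, 27]]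

theorem T_left : ∀ (k : Fin 4) (x : M), tbl (T' k) (tbl (T k) x) = x := by decide +kernel
theorem T_right : ∀ (k : Fin 4) (x : M), tbl (T k) (tbl (T' k) x) = x := by decide +kernel
theorem T_mul : ∀ (k : Fin 4) (x y : M), tbl (T k) (x * y) = tbl (T k) x * tbl (T k) y := by
  decide +kernel

/-- four automorphisms inducing the adjacent transpositions -/
def sw (k : Fin 4) : MulAut M where
  toFun := tbl (T k)
  invFun := tbl (T' k)
  left_inv := T_left k
  right_inv := T_right k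
  map_mul' := T_mul k

theorem sw_act : ∀ (k : Fin 4) (i : Fin 5),
    idx (tbl (T k) (rep i)) = Equiv.swap k.castSucc k.succ i := by decide +kernel

theorem Phi_sw (k : Fin 4) : Phi (sw k) = Equiv.swap k.castSucc k.succ := by
  ext i
  rw [Phi_apply]
  exact congrArg Fin.val (sw_act k i)

theorem Phi_surjective : Function.Surjective Phi := by
  rw [← MonoidHom.mrange_eq_top]
  apply top_unique
  rw [← Equiv.Perm.mclosure_swap_castSucc_succ 4, Submonoid.closure_le]
  rintro _ ⟨k, rfl⟩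
  exact ⟨sw k, Phi_sw k⟩

theorem center_M : ∀ g : M, (∀ x : M, g * x * g⁻¹ = x) ↔ (g = 1 ∨ g = Zm) := by decide +kernel

theorem card_inn_M : Nat.card (MulAut.conj : M →* MulAut M).range = 16 := by
  have h1 := Subgroup.index_ker (MulAut.conj : M →* MulAut M)
  have h2 := Subgroup.card_mul_index (MulAut.conj : M →* MulAut M).ker
  rw [card_M] at h2
  have h3 : Nat.card (MulAut.conj : M →* MulAut M).ker = 2 := by
    rw [Nat.card_eq_two_iff]
    have m1 : (1 : M) ∈ (MulAut.conj : M →* MulAut M).ker := Subgroup.one_mem _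
    have mz : Zm ∈ (MulAut.conj : M →* MulAut M).ker := by
      rw [MonoidHom.mem_ker]
      ext x
      rw [MulAut.conj_apply]
      exact (center_M Zm).2 (Or.inr rfl) x
    refine ⟨⟨1, m1⟩, ⟨Zm, mz⟩, ?_, ?_⟩
    · intro h
      exact Zm_ne_one (congrArg Subtype.val h).symm
    · ext ⟨g, hg⟩
      simp only [Set.mem_insert_iff, Set.mem_singleton_iff, Set.mem_univ, iff_true, Subtype.mk.injEq]
      apply (center_M g).1
      intro x
      rw [MonoidHom.mem_ker] at hg
      have := congrArg (fun α : MulAut M => α x) hg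
      simpa using this
  rw [h3] at h2
  omega

/-- the result for the model -/
theorem model_result [hN : (MulAut.conj : M →* MulAut M).range.Normal] :
    Nat.card ↥(MulAut.conj : M →* MulAut M).range = 16 ∧ Nat.card (MulAut M) = 1920 ∧
      Nonempty ((MulAut M ⧸ (MulAut.conj : M →* MulAut M).range) ≃* Equiv.Perm (Fin 5)) := by
  refine ⟨card_inn_M, ?_, ?_⟩
  · have h1 := Subgroup.card_eq_card_quotient_mul_card_subgroup Phi.ker
    have h2 : Nat.card (MulAut M ⧸ Phi.ker) = 120 := by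
      rw [Nat.card_congr (QuotientGroup.quotientKerEquivOfSurjective Phi Phi_surjective).toEquiv,
        Nat.card_eq_fintype_card, Fintype.card_perm]
      rfl
    have h3 : Nat.card Phi.ker = 16 := by rw [ker_Phi]; exact card_inn_M
    rw [h1, h2, h3]
  · exact ⟨(QuotientGroup.quotientMulEquivOfEq ker_Phi.symm).trans
      (QuotientGroup.quotientKerEquivOfSurjective Phi Phi_surjective)⟩

end Cfsg.Agent.Lib.Helper93.ES
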