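import Mathlib
import Cfsg.Agent.Lib.Helper93.ESc
import Cfsg.Agent.Lib.Helper93.G320a

set_option autoImplicit false

namespace Cfsg.Agent.Lib.Helper93.ES

open Cfsg.Agent.Lib.Helper93.G320 (card_mul_card_le)

variable {P : Type*} [Group P]

/-- abstract description of an extraspecial group of order 32 without `E₈` -/
structure Base (P : Type*) [Group P] (z : P) : Prop where
  card : Nat.card P = 32
  zc : ∀ x, z * x = x * z
  z1 : z ≠ 1
  z2 : z ^ 2 = 1
  cen : ∀ x, (∀ y, x * y = y * x) → x = 1 ∨ x = z
  sq : ∀ x, x ^ 2 = 1 ∨ x ^ 2 = z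
  cm : ∀ x y, x * y = y * x ∨ x * y = y * x * z
  noE8 : ∀ A : Subgroup P, (∀ a ∈ A, a ^ 2 = 1) → Nat.card A ≤ 4

variable {z : P}

theorem Base.finite (B : Base P z) : Finite P :=
  Nat.finite_of_card_ne_zero (by rw [B.card]; norm_num)

theorem exists_not_mem [Finite P] [DecidableEq P] (C : Subgroup P) (S : Finset P)
    (h : S.card < Nat.card C) : ∃ y ∈ C, y ∉ S := by
  by_contra hcon
  push Not at hcon
  have h1 : (C : Set P) ⊆ (S : Set P) := fun y hy => hcon y hy
  have h2 : Nat.card C = (C : Set P).ncard := Nat.card_coe_set_eq _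
  have h3 := Set.ncard_le_ncard h1 (Finset.finite_toSet S)
  rw [Set.ncard_coe_finset] at h3
  omega

theorem five_le [Finite P] (A : Subgroup P) (a b c d e : P) (ha : a ∈ A) (hb : b ∈ A) (hc : c ∈ A)
    (hd : d ∈ A) (he : e ∈ A) (hab : a ≠ b) (hac : a ≠ c) (had : a ≠ d) (hae : a ≠ e)
    (hbc : b ≠ c) (hbd : b ≠ d) (hbe : b ≠ e) (hcd : c ≠ d) (hce : c ≠ e) (hde : d ≠ e) :
    5 ≤ Nat.card A := by
  have hinj : Function.Injective
      (![⟨a, ha⟩, ⟨b, hb⟩, ⟨c, hc⟩, ⟨d, hd⟩, ⟨e, he⟩] : Fin 5 → A) := by
    intro i j hij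
    fin_cases i <;> fin_cases j <;> simp_all
  have := Nat.card_le_card_of_injective _ hinj
  simpa using this

theorem mem_cent {x g : P} : g ∈ Subgroup.centralizer ({x} : Set P) ↔ x * g = g * x := by
  rw [Subgroup.mem_centralizer_iff]
  simp

theorem Base.cent_card (B : Base P z) (x : P) :
    16 ≤ Nat.card (Subgroup.centralizer ({x} : Set P)) := by
  have := B.finite
  by_cases h : ∀ y, y ∈ Subgroup.centralizer ({x} : Set P)
  · have : Subgroup.centralizer ({x} : Set P) = ⊤ := by
      ext y; simp [h y]
    rw [this, Subgroup.card_top, B.card]; norm_num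
  · push Not at h
    obtain ⟨a, ha⟩ := h
    have hidx : (Subgroup.centralizer ({x} : Set P)).index = 2 := by
      rw [Subgroup.index_eq_two_iff]
      refine ⟨a, fun b => ?_⟩
      by_cases hb : b ∈ Subgroup.centralizer ({x} : Set P)
      · right
        refine ⟨hb, fun hba => ha ?_⟩
        have := Subgroup.mul_mem _ (Subgroup.inv_mem _ hb) hba
        simpa using this
      · left
        refine ⟨?_, hb⟩
        rw [mem_cent] at ha hb ⊢
        have h1 : x * a = a * x * z := (B.cm x a).resolve_left ha
        have h2 : x * b = b * x * z := (B.cm x b).resolve_left hb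
        have hz2 : z * z = 1 := by rw [← pow_two]; exact B.z2
        calc x * (b * a) = (x * b) * a := by rw [mul_assoc]
          _ = b * x * z * a := by rw [h2]
          _ = b * x * (z * a) := by rw [mul_assoc]
          _ = b * x * (a * z) := by rw [B.zc a]
          _ = b * (x * a) * z := by simp only [mul_assoc]
          _ = b * (a * x * z) * z := by rw [h1]
          _ = b * a * x * (z * z) := by simp only [mul_assoc]
          _ = b * a * x := by rw [hz2, mul_one]
    have := Subgroup.card_mul_index (Subgroup.centralizer ({x} : Set P))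
    rw [hidx, B.card] at this
    omega

theorem Base.zz (B : Base P z) : z * z = 1 := by rw [← pow_two]; exact B.z2

/-- inverse of an element with square `z` -/
theorem Base.inv_of_sq (B : Base P z) {x : P} (h : x ^ 2 = z) : x⁻¹ = x * z := by
  apply inv_eq_of_mul_eq_one_right
  rw [← mul_assoc, ← pow_two, h, B.zz]

/-- a non-central involution exists -/
theorem Base.exists_e (B : Base P z) : ∃ e : P, e ^ 2 = 1 ∧ e ≠ 1 ∧ e ≠ z := by
  classical
  have := B.finite
  obtain ⟨x, -, hx⟩ := exists_not_mem (⊤ : Subgroup P) {1, z} (by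
    rw [Subgroup.card_top, B.card]
    exact lt_of_le_of_lt Finset.card_le_two (by norm_num))
  simp only [Finset.mem_insert, Finset.mem_singleton, not_or] at hx
  rcases B.sq x with h | h
  · exact ⟨x, h, hx.1, hx.2⟩
  · obtain ⟨y, hyC, hyS⟩ := exists_not_mem (Subgroup.centralizer ({x} : Set P)) {1, x, z, x * z}
      (lt_of_le_of_lt Finset.card_le_four (lt_of_lt_of_le (by norm_num) (B.cent_card x)))
    simp only [Finset.mem_insert, Finset.mem_singleton, not_or] at hyS
    rw [mem_cent] at hyC
    rcases B.sq y with h' | h'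
    · exact ⟨y, h', hyS.1, hyS.2.2.1⟩
    · have hc : Commute x y := hyC
      refine ⟨x * y, ?_, ?_, ?_⟩
      · rw [hc.mul_pow, h, h', B.zz]
      · intro h1
        apply hyS.2.2.2
        rw [← B.inv_of_sq h]
        exact (inv_eq_of_mul_eq_one_right h1).symm
      · intro h1
        apply hyS.2.1
        have : y = x⁻¹ * z := by rw [← h1]; group
        rw [this, B.inv_of_sq h, mul_assoc, B.zz, mul_one]

/-- an involution anticommuting with a given non-central involution -/
theorem Base.exists_f (B : Base P z) {e : P} (he1 : e ≠ 1) (hez : e ≠ z) (he2 : e ^ 2 = 1) :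
    ∃ f : P, f ^ 2 = 1 ∧ f * e = e * f * z := by
  have hnc : ∃ y, e * y ≠ y * e := by
    by_contra hcon
    push Not at hcon
    rcases B.cen e hcon with h | h
    · exact he1 h
    · exact hez h
  obtain ⟨y, hy⟩ := hnc
  have h1 : e * y = y * e * z := (B.cm e y).resolve_left hy
  have hye : y * e = e * y * z := by rw [h1, mul_assoc, B.zz, mul_one]
  have hee : e * e = 1 := by rw [← pow_two]; exact he2
  rcases B.sq y with h | h
  · exact ⟨y, h, hye⟩
  · refine ⟨e * y, ?_, ?_⟩
    · have hyy : y * y = z := by rw [← pow_two]; exact h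
      calc (e * y) ^ 2 = e * (y * e) * y := by rw [pow_two]; simp only [mul_assoc]
        _ = e * (e * y * z) * y := by rw [hye]
        _ = (e * e) * y * (z * y) := by simp only [mul_assoc]
        _ = (e * e) * y * (y * z) := by rw [B.zc y]
        _ = (e * e) * (y * y) * z := by simp only [mul_assoc]
        _ = 1 := by rw [hee, hyy, one_mul, B.zz]
    · calc e * y * e = e * (y * e) := by rw [mul_assoc]
        _ = e * (e * y * z) := by rw [hye]
        _ = e * (e * y) * z := by simp only [mul_assoc]

end Cfsg.Agent.Lib.Helper93.ES
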