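import Mathlib
import Cfsg.Agent.Lib.Helper93.ESd

set_option autoImplicit false

namespace Cfsg.Agent.Lib.Helper93.ES

open Cfsg.Agent.Lib.Helper93.G320 (card_mul_card_le)

variable {P : Type*} [Group P] {z : P}

/-- the subgroup generated by three commuting involutions has exponent 2 -/
theorem closure_three_exp {e g z : P} (he : e ^ 2 = 1) (hg : g ^ 2 = 1) (hz : z ^ 2 = 1)
    (heg : e * g = g * e) (hzc : ∀ x, z * x = x * z) :
    ∀ a ∈ Subgroup.closure ({e, g, z} : Set P), a ^ 2 = 1 := by
  have h1 : Subgroup.closure ({e, g, z} : Set P) ≤ Subgroup.centralizer ({e, g, z} : Set P) := by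
    rw [Subgroup.closure_le]
    intro s hs
    rw [SetLike.mem_coe, Subgroup.mem_centralizer_iff]
    intro t ht
    simp only [Set.mem_insert_iff, Set.mem_singleton_iff] at hs ht
    rcases hs with rfl | rfl | rfl <;> rcases ht with rfl | rfl | rfl
    · rfl
    · exact heg.symm
    · exact hzc _
    · exact heg
    · rfl
    · exact hzc _
    · exact (hzc _).symm
    · exact (hzc _).symm
    · rfl
  have h2 : Subgroup.closure ({e, g, z} : Set P) ≤
      Subgroup.centralizer (Subgroup.closure ({e, g, z} : Set P) : Set P) := by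
    rw [Subgroup.closure_le]
    intro s hs
    rw [SetLike.mem_coe, Subgroup.mem_centralizer_iff]
    intro a ha
    exact ((Subgroup.mem_centralizer_iff.1 (h1 ha)) s hs).symm
  intro a ha
  induction ha using Subgroup.closure_induction with
  | mem x hx =>
    simp only [Set.mem_insert_iff, Set.mem_singleton_iff] at hx
    rcases hx with rfl | rfl | rfl
    · exact he
    · exact hg
    · exact hz
  | one => simp
  | mul x y hx hy px py =>
    have hc : Commute x y := (Subgroup.mem_centralizer_iff.1 (h2 hy)) x hx
    rw [hc.mul_pow, px, py, one_mul]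
  | inv x hx px => rw [inv_pow, px, inv_one]

/-- the remaining two generators -/
theorem Base.exists_ij (B : Base P z) {e f : P} (he1 : e ≠ 1) (hez : e ≠ z) (he2 : e ^ 2 = 1)
    (hf2 : f ^ 2 = 1) (hfe : f * e = e * f * z) : ∃ i j : P, Rel e f i j z := by
  classical
  have := B.finite
  obtain ⟨C, hC⟩ : ∃ C : Subgroup P, C = Subgroup.centralizer ({e} : Set P) ⊓
      Subgroup.centralizer ({f} : Set P) := ⟨_, rfl⟩
  have hCmem : ∀ g, g ∈ C ↔ e * g = g * e ∧ f * g = g * f := by
    intro g; rw [hC, Subgroup.mem_inf, mem_cent, mem_cent]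
  have hC8 : 8 ≤ Nat.card C := by
    have h := card_mul_card_le (A := Subgroup.centralizer ({e} : Set P))
      (B := Subgroup.centralizer ({f} : Set P)) (L := ⊤) le_top le_top
    rw [Subgroup.card_top, B.card, ← hC] at h
    have h1 := B.cent_card e
    have h2 := B.cent_card f
    have : 16 * 16 ≤ Nat.card (Subgroup.centralizer ({e} : Set P)) *
        Nat.card (Subgroup.centralizer ({f} : Set P)) := Nat.mul_le_mul h1 h2
    omega
  -- no non-central involutions in C
  have hnoinv : ∀ g ∈ C, g ^ 2 = 1 → g = 1 ∨ g = z := by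
    intro g hg hg2
    by_contra hcon
    push Not at hcon
    obtain ⟨hge, hgf⟩ := (hCmem g).1 hg
    have hexp := closure_three_exp he2 hg2 B.z2 hge B.zc
    have h4 := B.noE8 _ hexp
    have me : e ∈ Subgroup.closure ({e, g, z} : Set P) := Subgroup.subset_closure (by simp)
    have mg : g ∈ Subgroup.closure ({e, g, z} : Set P) := Subgroup.subset_closure (by simp)
    have mz : z ∈ Subgroup.closure ({e, g, z} : Set P) := Subgroup.subset_closure (by simp)
    have hz1 := B.z1
    have hne : e * f * z ≠ e * f := by
      intro h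
      apply B.z1
      have : e * f * z = e * f * 1 := by rw [h, mul_one]
      exact mul_left_cancel this
    have h5 := five_le _ 1 z e (e * z) g (Subgroup.one_mem _) mz me (Subgroup.mul_mem _ me mz) mg
      (Ne.symm B.z1) (Ne.symm he1) (by
        intro h
        apply hez
        have : e = (e * z) * z := by rw [mul_assoc, B.zz, mul_one]
        rw [this, ← h, one_mul]) (Ne.symm hcon.1) (Ne.symm hez) (by
        intro h
        apply he1
        have : e * z = 1 * z := by rw [one_mul]; exact h.symm
        exact mul_right_cancel this) (Ne.symm hcon.2) (by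
        intro h
        apply B.z1
        have : e * z = e * 1 := by rw [mul_one]; exact h.symm
        exact mul_left_cancel this) (by
        intro h
        apply hne
        rw [← hfe, h, hgf]) (by
        intro h
        apply hne
        have h1 : f * (e * z) = (e * z) * f := by rw [h]; exact hgf
        calc e * f * z = e * (z * f) := by rw [mul_assoc, B.zc f]
          _ = (e * z) * f := by rw [mul_assoc]
          _ = f * (e * z) := h1.symm
          _ = (f * e) * z := by rw [mul_assoc]
          _ = e * f * z * z := by rw [hfe]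
          _ = e * f := by rw [mul_assoc, B.zz, mul_one])
    omega
  -- pick i
  obtain ⟨i, hiC, hiS⟩ := exists_not_mem C {1, z}
    (lt_of_le_of_lt Finset.card_le_two (lt_of_lt_of_le (by norm_num) hC8))
  simp only [Finset.mem_insert, Finset.mem_singleton, not_or] at hiS
  have hi2 : i ^ 2 = z := by
    rcases B.sq i with h | h
    · rcases hnoinv i hiC h with h' | h'
      · exact absurd h' hiS.1
      · exact absurd h' hiS.2
    · exact h
  -- pick j
  have hexj : ∃ j ∈ C, i * j ≠ j * i := by
    by_contra hall
    push Not at hall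
    obtain ⟨y, hyC, hyS⟩ := exists_not_mem C {1, i, z, i * z}
      (lt_of_le_of_lt Finset.card_le_four (lt_of_lt_of_le (by norm_num) hC8))
    simp only [Finset.mem_insert, Finset.mem_singleton, not_or] at hyS
    have hy2 : y ^ 2 = z := by
      rcases B.sq y with h | h
      · rcases hnoinv y hyC h with h' | h'
        · exact absurd h' hyS.1
        · exact absurd h' hyS.2.2.1
      · exact h
    have hc : Commute i y := hall y hyC
    have hw2 : (i * y) ^ 2 = 1 := by rw [hc.mul_pow, hi2, hy2, B.zz]
    rcases hnoinv (i * y) (C.mul_mem hiC hyC) hw2 with h1 | h1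
    · apply hyS.2.2.2
      rw [← B.inv_of_sq hi2]
      exact (inv_eq_of_mul_eq_one_right h1).symm
    · apply hyS.2.1
      have : y = i⁻¹ * z := by rw [← h1]; group
      rw [this, B.inv_of_sq hi2, mul_assoc, B.zz, mul_one]
  obtain ⟨j, hjC, hij⟩ := hexj
  have h1 : i * j = j * i * z := (B.cm i j).resolve_left hij
  have hji : j * i = i * j * z := by rw [h1, mul_assoc, B.zz, mul_one]
  have hj1 : j ≠ 1 := by rintro rfl; exact hij (by simp)
  have hjz : j ≠ z := by rintro rfl; exact hij (B.zc i).symm
  have hj2 : j ^ 2 = z := by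
    rcases B.sq j with h | h
    · rcases hnoinv j hjC h with h' | h'
      · exact absurd h' hj1
      · exact absurd h' hjz
    · exact h
  obtain ⟨hie, hif⟩ := (hCmem i).1 hiC
  obtain ⟨hje, hjf⟩ := (hCmem j).1 hjC
  exact ⟨i, j,
    { hz := B.zc
      z1 := B.z1
      z2 := B.z2
      e2 := he2
      f2 := hf2
      i2 := hi2
      j2 := hj2
      fe := hfe
      ji := hji
      ie := hie.symm
      i_f := hif.symm
      je := hje.symm
      jf := hjf.symm }⟩

/-- the isomorphism with the model -/
theorem Base.nonempty_equiv (B : Base P z) : Nonempty (M ≃* P) := by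
  have := B.finite
  obtain ⟨e, he2, he1, hez⟩ := B.exists_e
  obtain ⟨f, hf2, hfe⟩ := B.exists_f he1 hez he2
  obtain ⟨i, j, R⟩ := B.exists_ij he1 hez he2 hf2 hfe
  exact ⟨psiEquiv R B.card⟩

/-- inner automorphisms form a normal subgroup -/
theorem inn_normal (Q : Type*) [Group Q] : (MulAut.conj : Q →* MulAut Q).range.Normal := by
  constructor
  rintro _ ⟨g, rfl⟩ α
  refine ⟨α g, ?_⟩
  ext x
  simp [MulAut.mul_apply]

/-- transport along an isomorphism -/
theorem transport {P Q : Type*} [Group P] [Group Q] (ι : Q ≃* P)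
    [hP : (MulAut.conj : P →* MulAut P).range.Normal]
    [hQ : (MulAut.conj : Q →* MulAut Q).range.Normal]
    (h : Nat.card ↥(MulAut.conj : Q →* MulAut Q).range = 16 ∧ Nat.card (MulAut Q) = 1920 ∧
      Nonempty ((MulAut Q ⧸ (MulAut.conj : Q →* MulAut Q).range) ≃* Equiv.Perm (Fin 5))) :
    Nat.card ↥(MulAut.conj : P →* MulAut P).range = 16 ∧ Nat.card (MulAut P) = 1920 ∧
      Nonempty ((MulAut P ⧸ (MulAut.conj : P →* MulAut P).range) ≃* Equiv.Perm (Fin 5)) := by
  obtain ⟨h1, h2, ⟨φ⟩⟩ := h
  have hmap : (MulAut.conj : Q →* MulAut Q).range.map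
      ((MulAut.congr ι : MulAut Q ≃* MulAut P) : MulAut Q →* MulAut P) =
      (MulAut.conj : P →* MulAut P).range := by
    ext α
    constructor
    · rintro ⟨_, ⟨g, rfl⟩, rfl⟩
      refine ⟨ι g, ?_⟩
      ext x
      simp [MulAut.congr]
    · rintro ⟨p, rfl⟩
      refine ⟨MulAut.conj (ι.symm p), ⟨_, rfl⟩, ?_⟩
      ext x
      simp [MulAut.congr]
  refine ⟨?_, ?_, ?_⟩
  · rw [← hmap, Subgroup.card_map_of_injective (MulAut.congr ι).injective]
    exact h1
  · rw [← Nat.card_congr (MulAut.congr ι).toEquiv]
    exact h2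
  · exact ⟨(QuotientGroup.congr _ _ (MulAut.congr ι) hmap).symm.trans φ⟩

/-- the main theorem in abstract form -/
theorem Base.result (B : Base P z) [hP : (MulAut.conj : P →* MulAut P).range.Normal] :
    Nat.card ↥(MulAut.conj : P →* MulAut P).range = 16 ∧ Nat.card (MulAut P) = 1920 ∧
      Nonempty ((MulAut P ⧸ (MulAut.conj : P →* MulAut P).range) ≃* Equiv.Perm (Fin 5)) := by
  obtain ⟨ι⟩ := B.nonempty_equiv
  haveI := inn_normal M
  exact transport ι model_result

end Cfsg.Agent.Lib.Helper93.ES
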