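import Mathlib
import Cfsg.Agent.Lib.Helper93.G320a

set_option autoImplicit false

namespace Cfsg.Agent.Lib.Helper93.G320

variable {G : Type*} [Group G] {H Z : Subgroup G} {T : G}

theorem mem_normalizer_of_conj_mem [Finite G] (R : Subgroup G) (g : G)
    (h : ∀ x ∈ R, g * x * g⁻¹ ∈ R) : g ∈ Subgroup.normalizer (R : Set G) := by
  rw [Subgroup.mem_normalizer_iff]
  intro x
  refine ⟨h x, fun hx => ?_⟩
  have key : ∀ k : ℕ, ∀ y ∈ R, g ^ k * y * (g ^ k)⁻¹ ∈ R := by
    intro k
    induction k with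
    | zero => intro y hy; simpa using hy
    | succ k ih =>
      intro y hy
      have := h _ (ih y hy)
      rw [pow_succ']
      convert this using 1
      group
  have hn := key (orderOf g - 1) _ hx
  have hpos : 0 < orderOf g := orderOf_pos g
  have e : g ^ (orderOf g - 1) = g⁻¹ := by
    rw [eq_inv_iff_mul_eq_one, ← pow_succ, Nat.sub_add_cancel hpos, pow_orderOf_eq_one]
  rw [e] at hn
  simpa [mul_assoc] using hn

/-- An element of order 5 inverted by `T` does not centralize `H`. -/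
theorem Setup.not_centralizes (S : Setup G H Z T) (ρ : G) (hρ5 : ρ ^ 5 = 1) (hρ1 : ρ ≠ 1)
    (hinv : T * ρ * T⁻¹ = ρ⁻¹) : ¬ (∀ h ∈ H, ρ * h = h * ρ) := by
  have := S.finite
  intro hcen
  have : Fact (Nat.Prime 5) := ⟨by norm_num⟩
  have ho : orderOf ρ = 5 := orderOf_eq_prime hρ5 hρ1
  obtain ⟨R, hR⟩ : ∃ R, R = Subgroup.zpowers ρ := ⟨_, rfl⟩
  have hρR : ρ ∈ R := hR ▸ Subgroup.mem_zpowers ρ
  have hHN : H ≤ Subgroup.normalizer (R : Set G) := fun h hh =>
    mem_normalizer_of_conj_mem R h (fun x hx => by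
      rw [hR] at hx
      obtain ⟨k, rfl⟩ := Subgroup.mem_zpowers_iff.1 hx
      rw [← conj_zpow]
      have : h * ρ * h⁻¹ = ρ := by rw [← hcen h hh]; simp
      rw [this]; exact Subgroup.zpow_mem _ hρR k)
  have hTN : T ∈ Subgroup.normalizer (R : Set G) :=
    mem_normalizer_of_conj_mem R T (fun x hx => by
      rw [hR] at hx
      obtain ⟨k, rfl⟩ := Subgroup.mem_zpowers_iff.1 hx
      rw [← conj_zpow, hinv]
      exact Subgroup.zpow_mem _ (Subgroup.inv_mem _ hρR) k)
  have hRN : R ≤ Subgroup.normalizer (R : Set G) := Subgroup.le_normalizer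
  have hK : H ⊔ Subgroup.zpowers T ≤ Subgroup.normalizer (R : Set G) :=
    sup_le hHN ((Subgroup.zpowers_le).2 hTN)
  have h64 : 64 ∣ Nat.card (Subgroup.normalizer (R : Set G)) :=
    S.cardK ▸ Subgroup.card_dvd_of_le hK
  have h5 : 5 ∣ Nat.card (Subgroup.normalizer (R : Set G)) := by
    have := Subgroup.card_dvd_of_le hRN
    have hc : Nat.card R = 5 := by rw [hR, Nat.card_zpowers, ho]
    rwa [hc] at this
  have h320 : Nat.card (Subgroup.normalizer (R : Set G)) ∣ 320 :=
    S.hG ▸ Subgroup.card_subgroup_dvd_card _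
  have hcard : Nat.card (Subgroup.normalizer (R : Set G)) = Nat.card G := by
    rw [S.hG]
    have : 320 ∣ Nat.card (Subgroup.normalizer (R : Set G)) := by
      have := Nat.Coprime.mul_dvd_of_dvd_of_dvd (by norm_num : Nat.Coprime 64 5) h64 h5
      simpa using this
    exact Nat.dvd_antisymm h320 this
  have htop := Subgroup.eq_top_of_card_eq _ hcard
  have hRn : R.Normal := Subgroup.normalizer_eq_top_iff.1 htop
  have hRH : R ≤ H := S.hF R hRn (by
    intro a ha b hb
    rw [hR] at ha hb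
    obtain ⟨i, rfl⟩ := Subgroup.mem_zpowers_iff.1 ha
    obtain ⟨j, rfl⟩ := Subgroup.mem_zpowers_iff.1 hb
    exact ((Commute.refl ρ).zpow_zpow i j).eq)
  have hρH : ρ ∈ H := hRH hρR
  have h32 : ρ ^ 32 = 1 := by
    have := pow_card_eq_one' (G := H) (x := ⟨ρ, hρH⟩)
    rw [S.h32] at this
    exact congrArg Subtype.val this
  apply hρ1
  calc ρ = ρ ^ 65 * (ρ ^ 64)⁻¹ := by group
    _ = (ρ ^ 5) ^ 13 * ((ρ ^ 32) ^ 2)⁻¹ := by rw [← pow_mul, ← pow_mul]
    _ = 1 := by rw [hρ5, h32]; simp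

theorem Setup.card_cent (S : Setup G H Z T) (ρ : G) (hρ5 : ρ ^ 5 = 1) (hρ1 : ρ ≠ 1)
    (hinv : T * ρ * T⁻¹ = ρ⁻¹) :
    Nat.card (H ⊓ Subgroup.centralizer {ρ} : Subgroup G) = 2 := by
  have := S.finite
  have := S.hHn
  have : Fact (Nat.Prime 5) := ⟨by norm_num⟩
  have hmod : Nat.card H ≡ Nat.card (H ⊓ Subgroup.centralizer {ρ} : Subgroup G) [MOD 5] := by
    obtain ⟨a, ha⟩ : ∃ a, a = ConjAct.toConjAct ρ := ⟨_, rfl⟩
    have ha5 : a ^ 5 = 1 := by rw [ha, ← map_pow, hρ5, map_one]
    have hA : IsPGroup 5 (Subgroup.zpowers a) := by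
      rintro ⟨x, hx⟩
      obtain ⟨k, rfl⟩ := Subgroup.mem_zpowers_iff.1 hx
      refine ⟨1, Subtype.ext ?_⟩
      show (a ^ k) ^ 5 ^ 1 = 1
      rw [pow_one, ← zpow_natCast, ← zpow_mul, mul_comm, zpow_mul, zpow_natCast, ha5, one_zpow]
    have h1 := hA.card_modEq_card_fixedPoints (α := H)
    have hfix : ∀ h : H, h ∈ MulAction.fixedPoints (Subgroup.zpowers a) H ↔
        (h : G) ∈ Subgroup.centralizer {ρ} := by
      intro h
      rw [Subgroup.mem_centralizer_iff]
      constructor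
      · intro hh x hx
        rw [Set.mem_singleton_iff] at hx
        subst hx
        have := hh ⟨a, Subgroup.mem_zpowers a⟩
        have h2 : ((a • h : H) : G) = (h : G) := congrArg Subtype.val this
        rw [ConjAct.Subgroup.val_conj_smul, ConjAct.smul_def, ha, ConjAct.ofConjAct_toConjAct] at h2
        calc x * (h : G) = x * h * x⁻¹ * x := by group
          _ = h * x := by rw [h2]
      · intro hh
        have hst : a ∈ MulAction.stabilizer (ConjAct G) h := by
          rw [MulAction.mem_stabilizer_iff]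
          apply Subtype.ext
          rw [ConjAct.Subgroup.val_conj_smul, ConjAct.smul_def, ha, ConjAct.ofConjAct_toConjAct]
          rw [hh ρ rfl]; simp
        have hle : Subgroup.zpowers a ≤ MulAction.stabilizer (ConjAct G) h :=
          (Subgroup.zpowers_le).2 hst
        rintro ⟨b, hb⟩
        exact MulAction.mem_stabilizer_iff.1 (hle hb)
    have hcard : Nat.card (MulAction.fixedPoints (Subgroup.zpowers a) H) =
        Nat.card (H ⊓ Subgroup.centralizer {ρ} : Subgroup G) := by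
      apply Nat.card_eq_of_bijective
        (fun x : MulAction.fixedPoints (Subgroup.zpowers a) H =>
          (⟨(x.1 : G), ⟨x.1.2, (hfix x.1).1 x.2⟩⟩ : (H ⊓ Subgroup.centralizer {ρ} : Subgroup G)))
      constructor
      · intro x y hxy
        apply Subtype.ext
        apply Subtype.ext
        have := congrArg Subtype.val hxy
        exact this
      · rintro ⟨y, hyH, hyC⟩
        exact ⟨⟨⟨y, hyH⟩, (hfix ⟨y, hyH⟩).2 hyC⟩, rfl⟩
    rw [← hcard]
    exact h1
  have hdvd : Nat.card (H ⊓ Subgroup.centralizer {ρ} : Subgroup G) ∣ 2 ^ 5 := by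
    have := Subgroup.card_dvd_of_le (inf_le_left : H ⊓ Subgroup.centralizer {ρ} ≤ H)
    rw [S.h32] at this
    exact this
  have hne : Nat.card (H ⊓ Subgroup.centralizer {ρ} : Subgroup G) ≠ 32 := by
    intro h
    have : H ⊓ Subgroup.centralizer {ρ} = H :=
      Subgroup.eq_of_le_of_card_ge inf_le_left (by rw [h, S.h32])
    apply S.not_centralizes ρ hρ5 hρ1 hinv
    intro x hx
    have hx' : x ∈ H ⊓ Subgroup.centralizer {ρ} := by rw [this]; exact hx
    exact (Subgroup.mem_centralizer_iff.1 hx'.2) ρ rfl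
  obtain ⟨j, hj, hcj⟩ := (Nat.dvd_prime_pow Nat.prime_two).1 hdvd
  rw [hcj] at hmod hne ⊢
  rw [S.h32] at hmod
  unfold Nat.ModEq at hmod
  interval_cases j <;> simp_all

end Cfsg.Agent.Lib.Helper93.G320
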