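import Mathlib
import Cfsg.Agent.Lib.Helper93.G320b

set_option autoImplicit false

namespace Cfsg.Agent.Lib.Helper93.G320

variable {G : Type*} [Group G] {H Z : Subgroup G} {T : G}

theorem Setup.hZn (S : Setup G H Z T) : Z.Normal := ⟨fun z hz g => by
  rw [S.hZc z hz g, mul_inv_cancel_right]; exact hz⟩

/-- elements of `Z` have square one -/
theorem Setup.sq_Z (S : Setup G H Z T) {z : G} (hz : z ∈ Z) : z ^ 2 = 1 := by
  have := pow_card_eq_one' (G := Z) (x := ⟨z, hz⟩)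
  rw [S.hZ2] at this
  exact congrArg Subtype.val this

/-- `Z = C_H(ρ)` for the order-5 element. -/
theorem Setup.cent_eq_Z (S : Setup G H Z T) (ρ : G) (hρ5 : ρ ^ 5 = 1) (hρ1 : ρ ≠ 1)
    (hinv : T * ρ * T⁻¹ = ρ⁻¹) : Z = H ⊓ Subgroup.centralizer {ρ} := by
  have := S.finite
  apply Subgroup.eq_of_le_of_card_ge
  · intro z hz
    refine Subgroup.mem_inf.2 ⟨S.hZH hz, ?_⟩
    rw [Subgroup.mem_centralizer_iff]
    intro x hx
    rw [Set.mem_singleton_iff] at hx
    subst hx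
    exact S.hZc z hz x
  · rw [S.card_cent ρ hρ5 hρ1 hinv, S.hZ2]

section quot
variable [hZn : Z.Normal]

/-- elements of `H` commuting with `u` modulo `Z` -/
def P (H Z : Subgroup G) [Z.Normal] (u : G) : Subgroup G :=
  H ⊓ (Subgroup.centralizer {(QuotientGroup.mk' Z u)}).comap (QuotientGroup.mk' Z)

theorem mem_P' {u h : G} : h ∈ P H Z u ↔
    h ∈ H ∧ Commute (QuotientGroup.mk' Z h) (QuotientGroup.mk' Z u) := by
  unfold P
  rw [Subgroup.mem_inf, Subgroup.mem_comap, Subgroup.mem_centralizer_iff]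
  constructor
  · rintro ⟨h1, h2⟩
    exact ⟨h1, (h2 _ rfl).symm⟩
  · rintro ⟨h1, h2⟩
    refine ⟨h1, fun x hx => ?_⟩
    rw [Set.mem_singleton_iff] at hx
    subst hx
    exact h2.eq.symm

theorem commute_mk_iff {a b : G} :
    Commute (QuotientGroup.mk' Z a) (QuotientGroup.mk' Z b) ↔ a * b * a⁻¹ * b⁻¹ ∈ Z := by
  rw [← QuotientGroup.eq_one_iff, commute_iff_eq]
  simp only [QuotientGroup.mk'_apply, QuotientGroup.mk_mul, QuotientGroup.mk_inv]
  constructor
  · intro h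
    rw [h]; group
  · intro h
    have := congrArg (fun x => x * ((b : G ⧸ Z) * (a : G ⧸ Z))) h
    simpa [mul_assoc] using this

theorem mem_P {u h : G} : h ∈ P H Z u ↔ h ∈ H ∧ h * u * h⁻¹ * u⁻¹ ∈ Z := by
  rw [mem_P', commute_mk_iff]

theorem P_le (u : G) : P H Z u ≤ H := inf_le_left

theorem card_comap_mk (S : Setup G H Z T) (A : Subgroup (G ⧸ Z)) :
    Nat.card (A.comap (QuotientGroup.mk' Z)) = 2 * Nat.card A := by
  have := S.finite
  have h1 := Subgroup.card_mul_index (A.comap (QuotientGroup.mk' Z))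
  have h2 := Subgroup.index_comap_of_surjective A (QuotientGroup.mk'_surjective Z)
  have h3 := Subgroup.card_mul_index A
  have h4 := Subgroup.card_eq_card_quotient_mul_card_subgroup Z
  rw [S.hG, S.hZ2] at h4
  rw [S.hG, h2] at h1
  have hQ : Nat.card (G ⧸ Z) = 160 := by omega
  rw [hQ] at h3
  have hpos : 0 < A.index := by
    rcases Nat.eq_zero_or_pos A.index with h0 | h0
    · rw [h0] at h3; omega
    · exact h0
  have : Nat.card (A.comap (QuotientGroup.mk' Z)) * A.index = (2 * Nat.card A) * A.index := by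
    rw [h1, mul_assoc, h3]; norm_num
  exact Nat.eq_of_mul_eq_mul_right hpos this

theorem Setup.P_inf_le (S : Setup G H Z T) (g : G) (hg : (T * (g⁻¹ * T * g)) ^ 64 ≠ 1) :
    P H Z T ⊓ P H Z (g⁻¹ * T * g) ≤ Z := by
  have := S.finite
  intro h hh
  obtain ⟨h1, h2⟩ := Subgroup.mem_inf.1 hh
  rw [mem_P'] at h1 h2
  obtain ⟨hH, c1⟩ := h1
  obtain ⟨-, c2⟩ := h2
  obtain ⟨c, hc⟩ : ∃ c, c = T * (g⁻¹ * T * g) := ⟨_, rfl⟩
  rw [← hc] at hg
  obtain ⟨ρ, hρ⟩ : ∃ ρ, ρ = c ^ 64 := ⟨_, rfl⟩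
  have hρ1 : ρ ≠ 1 := hρ ▸ hg
  have hρ5 : ρ ^ 5 = 1 := by
    rw [hρ, ← pow_mul]
    have := pow_card_eq_one' (G := G) (x := c)
    rw [S.hG] at this
    exact this
  have h2 : T * T = 1 := by rw [← pow_two]; exact S.hT
  have h2' : ∀ x : G, T * (T * x) = x := by intro x; rw [← mul_assoc, h2, one_mul]
  have hcinv : T * c * T⁻¹ = c⁻¹ := by
    rw [hc, S.Tinv]
    have : (T * (g⁻¹ * T * g)) * (T * (T * (g⁻¹ * T * g)) * T) = 1 := by
      simp only [mul_assoc, h2', mul_inv_cancel_left, inv_mul_cancel_left, h2]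
    exact (inv_eq_of_mul_eq_one_right this).symm
  have hinv : T * ρ * T⁻¹ = ρ⁻¹ := by
    rw [hρ, ← conj_pow, hcinv, inv_pow]
  have c3 : Commute (QuotientGroup.mk' Z h) (QuotientGroup.mk' Z ρ) := by
    rw [hρ, map_pow, hc, map_mul]
    exact (c1.mul_right c2).pow_right 64
  rw [commute_mk_iff] at c3
  obtain ⟨ζ, hζ⟩ : ∃ ζ, ζ = h * ρ * h⁻¹ * ρ⁻¹ := ⟨_, rfl⟩
  rw [← hζ] at c3
  have e1 : h * ρ * h⁻¹ = ζ * ρ := by rw [hζ]; group
  have e2 : (ζ * ρ) ^ 5 = ζ ^ 5 * ρ ^ 5 := by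
    have : Commute ζ ρ := (S.hZc ζ c3 ρ).symm
    exact this.mul_pow 5
  have e3 : ζ ^ 5 = 1 := by
    have : (h * ρ * h⁻¹) ^ 5 = 1 := by rw [conj_pow, hρ5]; simp
    rw [e1, e2, hρ5, mul_one] at this
    exact this
  have e4 : ζ = 1 := by
    have := S.sq_Z c3
    calc ζ = ζ ^ 5 * ((ζ ^ 2) ^ 2)⁻¹ := by group
      _ = 1 := by rw [e3, this]; simp
  have hcen : h ∈ H ⊓ Subgroup.centralizer {ρ} := by
    refine Subgroup.mem_inf.2 ⟨hH, ?_⟩
    rw [Subgroup.mem_centralizer_iff]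
    intro x hx
    rw [Set.mem_singleton_iff] at hx
    subst hx
    rw [e4] at hζ
    have : h * x * h⁻¹ * x⁻¹ * x * h = x * h := by rw [← hζ]; group
    rw [← this]; group
  rw [S.cent_eq_Z ρ hρ5 hρ1 hinv]
  exact hcen

theorem Setup.card_P_le (S : Setup G H Z T) : Nat.card (P H Z T) ≤ 8 := by
  have := S.finite
  have hHn := S.hHn
  obtain ⟨g, hg⟩ := S.exists_c
  have hinf := S.P_inf_le g hg
  have hle : Nat.card (P H Z T) ≤ Nat.card (P H Z (g⁻¹ * T * g)) := by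
    apply Nat.card_le_card_of_injective
      (fun y : P H Z T => (⟨g⁻¹ * (y : G) * g, by
        have hy := y.2
        rw [mem_P] at hy ⊢
        refine ⟨?_, ?_⟩
        · have := hHn.conj_mem _ hy.1 g⁻¹
          simpa using this
        · have := hZn.conj_mem _ hy.2 g⁻¹
          convert this using 1
          group⟩ : P H Z (g⁻¹ * T * g)))
    intro x y hxy
    have := congrArg Subtype.val hxy
    apply Subtype.ext
    simpa using this
  have h1 := card_mul_card_le (P_le (H := H) (Z := Z) T) (P_le (H := H) (Z := Z) (g⁻¹ * T * g))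
  have h2 : Nat.card (P H Z T ⊓ P H Z (g⁻¹ * T * g) : Subgroup G) ≤ 2 := by
    have := Subgroup.card_le_of_le hinf
    rwa [S.hZ2] at this
  rw [S.h32] at h1
  by_contra hc
  push Not at hc
  have : 9 * 9 ≤ Nat.card (P H Z T) * Nat.card (P H Z (g⁻¹ * T * g)) :=
    Nat.mul_le_mul hc (le_trans hc hle)
  have : 32 * Nat.card (P H Z T ⊓ P H Z (g⁻¹ * T * g) : Subgroup G) ≤ 64 := by omega
  omega

end quot

end Cfsg.Agent.Lib.Helper93.G320
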