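import Mathlib
import Cfsg.Agent.Lib.Helper93.G320c

set_option autoImplicit false

namespace Cfsg.Agent.Lib.Helper93.G320

variable {G : Type*} [Group G] {H Z : Subgroup G} {T : G}

section quot
variable [hZn : Z.Normal]

/-- images of elements of `H` commute in `G ⧸ Z` -/
theorem Setup.commute_mk (S : Setup G H Z T) {a b : G} (ha : a ∈ H) (hb : b ∈ H) :
    Commute (QuotientGroup.mk' Z a) (QuotientGroup.mk' Z b) :=
  commute_mk_iff.2 (S.hcomm a ha b hb)

theorem Setup.conjT_mem (S : Setup G H Z T) {a : G} (ha : a ∈ H) : T * a * T⁻¹ ∈ H :=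
  S.hHn.conj_mem a ha T

/-- Some `x ∈ H` does not commute with its `T`-conjugate. -/
theorem Setup.exists_noncomm (S : Setup G H Z T) :
    ∃ x ∈ H, x * (T * x * T⁻¹) ≠ (T * x * T⁻¹) * x := by
  have := S.finite
  by_contra hall
  push Not at hall
  -- the homomorphism x ↦ x * x^T mod Z
  let φ : ↥H →* G ⧸ Z :=
    { toFun := fun x => QuotientGroup.mk' Z ((x : G) * (T * (x : G) * T⁻¹))
      map_one' := by simp
      map_mul' := by
        intro x y
        have e : ((x * y : H) : G) * (T * ((x * y : H) : G) * T⁻¹) =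
            (x : G) * (y : G) * ((T * (x : G) * T⁻¹) * (T * (y : G) * T⁻¹)) := by
          rw [Subgroup.coe_mul]; group
        rw [e]
        have c := S.commute_mk y.2 (S.conjT_mem x.2)
        simp only [map_mul] at c ⊢
        rw [mul_assoc, ← mul_assoc (QuotientGroup.mk' Z (y : G)), c.eq]
        simp only [mul_assoc] }
  have hφ : ∀ x : H, φ x = QuotientGroup.mk' Z ((x : G) * (T * (x : G) * T⁻¹)) := fun x => rfl
  -- kernel is P
  have hker : φ.ker = (P H Z T).subgroupOf H := by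
    ext x
    rw [MonoidHom.mem_ker, hφ, Subgroup.mem_subgroupOf, mem_P, QuotientGroup.mk'_apply,
      QuotientGroup.eq_one_iff]
    have hx2 : T * ((x : G) ^ 2) * T⁻¹ ∈ Z := hZn.conj_mem _ (S.hsq _ x.2) T
    have e : (x : G) * (T * (x : G) * T⁻¹) =
        ((x : G) * T * (x : G)⁻¹ * T⁻¹) * (T * ((x : G) ^ 2) * T⁻¹) := by
      rw [pow_two]; group
    constructor
    · intro h
      refine ⟨x.2, ?_⟩
      have := Z.mul_mem h (Z.inv_mem hx2)
      rw [e] at this
      simpa [mul_assoc] using this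
    · rintro ⟨-, h⟩
      rw [e]
      exact Z.mul_mem h hx2
  obtain ⟨E, hE⟩ : ∃ E, E = φ.range.comap (QuotientGroup.mk' Z) := ⟨_, rfl⟩
  have hcardE : Nat.card E = 2 * Nat.card φ.range := by rw [hE]; exact card_comap_mk S _
  have hidx : Nat.card φ.range = (P H Z T).relIndex H := by
    rw [← Subgroup.index_ker, hker]; rfl
  have hmul := card_mul_relIndex (P_le (H := H) (Z := Z) T)
  rw [S.h32] at hmul
  have hP8 := S.card_P_le
  have hE8 : 8 ≤ Nat.card E := by
    rw [hcardE, hidx]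
    by_contra hc
    push Not at hc
    have h3 : (P H Z T).relIndex H ≤ 3 := by omega
    have : Nat.card (P H Z T) * (P H Z T).relIndex H ≤ 8 * 3 := Nat.mul_le_mul hP8 h3
    omega
  -- every element of E is x * x^T * ζ
  have hEmem : ∀ y ∈ E, ∃ x ∈ H, ∃ ζ ∈ Z, y = x * (T * x * T⁻¹) * ζ := by
    intro y hy
    rw [hE, Subgroup.mem_comap] at hy
    obtain ⟨x, hx⟩ := hy
    rw [hφ] at hx
    have := QuotientGroup.eq.1 hx
    exact ⟨x, x.2, _, this, by group⟩
  have hEH : E ≤ H := by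
    intro y hy
    obtain ⟨x, hx, ζ, hζ, rfl⟩ := hEmem y hy
    exact H.mul_mem (H.mul_mem hx (S.conjT_mem hx)) (S.hZH hζ)
  have hEexp : ∀ y ∈ E, y ^ 2 = 1 := by
    intro y hy
    obtain ⟨x, hx, ζ, hζ, rfl⟩ := hEmem y hy
    have hc := hall x hx
    have hζc : Commute (x * (T * x * T⁻¹)) ζ := S.hZc ζ hζ _
    rw [hζc.mul_pow, S.sq_Z hζ, mul_one]
    have hx2 : x ^ 2 ∈ Z := S.hsq x hx
    have hT2 : T * x ^ 2 * T⁻¹ = x ^ 2 := by
      rw [S.hZc _ hx2 T, mul_inv_cancel_right]
    have e : (x * (T * x * T⁻¹)) ^ 2 = x ^ 2 * (T * x ^ 2 * T⁻¹) := by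
      have hcc : Commute x (T * x * T⁻¹) := hc
      rw [hcc.mul_pow, conj_pow]
    rw [e, hT2, ← pow_two]
    exact S.sq_Z hx2
  have := S.hminus E hEH hEexp
  omega

/-- The centralizer of `T` in `H` has order at most 4. -/
theorem Setup.card_cent_T_le (S : Setup G H Z T) :
    Nat.card (H ⊓ Subgroup.centralizer {T} : Subgroup G) ≤ 4 := by
  have := S.finite
  obtain ⟨x, hx, hne⟩ := S.exists_noncomm
  have h2 : T * T = 1 := by rw [← pow_two]; exact S.hT
  have hle : H ⊓ Subgroup.centralizer {T} ≤ P H Z T := by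
    intro h hh
    obtain ⟨h1, h2⟩ := Subgroup.mem_inf.1 hh
    rw [mem_P]
    refine ⟨h1, ?_⟩
    have := (Subgroup.mem_centralizer_iff.1 h2) T rfl
    have e : h * T * h⁻¹ * T⁻¹ = 1 := by rw [← this]; group
    rw [e]; exact Z.one_mem
  have hf : x * (T * x * T⁻¹) ∈ P H Z T := by
    rw [mem_P]
    refine ⟨H.mul_mem hx (S.conjT_mem hx), ?_⟩
    have := S.hcomm x hx _ (S.conjT_mem hx)
    convert this using 1
    rw [S.Tinv]
    have h2' : ∀ y : G, T * (T * y) = y := by intro y; rw [← mul_assoc, h2, one_mul]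
    simp only [mul_assoc, mul_inv_rev, h2', S.Tinv]
  have hfn : x * (T * x * T⁻¹) ∉ (H ⊓ Subgroup.centralizer {T} : Subgroup G) := by
    intro hh
    obtain ⟨-, h3⟩ := Subgroup.mem_inf.1 hh
    have := (Subgroup.mem_centralizer_iff.1 h3) T rfl
    apply hne
    have e : T * (x * (T * x * T⁻¹)) * T⁻¹ = (T * x * T⁻¹) * x := by
      rw [S.Tinv]
      have h2' : ∀ y : G, T * (T * y) = y := by intro y; rw [← mul_assoc, h2, one_mul]
      simp only [mul_assoc, h2', h2, mul_one]
    rw [← e, this]; group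
  have hdvd := Subgroup.card_dvd_of_le hle
  have hneq : Nat.card (H ⊓ Subgroup.centralizer {T} : Subgroup G) ≠ Nat.card (P H Z T) := by
    intro h
    have := Subgroup.eq_of_le_of_card_ge hle (le_of_eq h.symm)
    exact hfn (this ▸ hf)
  have hP8 := S.card_P_le
  obtain ⟨m, hm⟩ := hdvd
  have hpos : 0 < Nat.card (P H Z T) := Nat.card_pos
  rcases m with _ | _ | m
  · omega
  · omega
  · rw [hm] at hP8
    nlinarith

end quot

/-- Final form without the instance argument. -/
theorem Setup.card_cent_T_le' (S : Setup G H Z T) :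
    Nat.card (H ⊓ Subgroup.centralizer {T} : Subgroup G) ≤ 4 := by
  have := S.hZn
  exact S.card_cent_T_le

end Cfsg.Agent.Lib.Helper93.G320
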