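import Mathlib

set_option autoImplicit false

namespace Cfsg.Agent.Lib.Helper93

/-- The `ZMod 2`-module structure on an elementary abelian 2-group, written additively. -/
@[reducible] def elemModule {A : Type*} [CommGroup A] (hA : ∀ a : A, a * a = 1) :
    Module (ZMod 2) (Additive A) :=
  AddCommGroup.zmodModule (n := 2) (fun x => by
    rw [two_nsmul]
    exact congrArg Additive.ofMul (hA (Additive.toMul x)))

/-- A submonoid of endomorphisms of an elementary abelian 2-group containing all
"transvections" contains every automorphism. -/
theorem aut_mem_of_transvections {A : Type*} [CommGroup A] [Finite A] (hA : ∀ a : A, a * a = 1)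
    (Γ : Submonoid (Monoid.End A))
    (hT : ∀ (a : A), a ≠ 1 → ∀ (S : Finset A) (x : A),
      x ∉ Subgroup.closure (insert a (S : Set A)) →
      ∃ f ∈ Γ, (∀ s ∈ S, f s = s) ∧ f x = a * x)
    (φ : A ≃* A) : φ.toMonoidHom ∈ Γ := by
  classical
  let _ : Module (ZMod 2) (Additive A) := elemModule hA
  let b := Module.finBasis (ZMod 2) (Additive A)
  let lin : Monoid.End A → (Additive A →ₗ[ZMod 2] Additive A) :=
    fun f => (MonoidHom.toAdditive f).toZModLinearMap 2
  have lin_apply : ∀ (f : Monoid.End A) (v : Additive A),
      lin f v = Additive.ofMul (f (Additive.toMul v)) := fun f v => rfl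
  have lin_one : lin 1 = LinearMap.id := by
    apply LinearMap.ext; intro v; rfl
  have lin_mul : ∀ f g : Monoid.End A, lin (f * g) = (lin f).comp (lin g) := by
    intro f g; apply LinearMap.ext; intro v; rfl
  have lin_inj : ∀ f g : Monoid.End A, lin f = lin g → f = g := by
    intro f g h
    apply MonoidHom.ext
    intro a
    have := congrArg (fun L : Additive A →ₗ[ZMod 2] Additive A => L (Additive.ofMul a)) h
    exact congrArg Additive.toMul this
  let P : Matrix (Fin (Module.finrank (ZMod 2) (Additive A)))
      (Fin (Module.finrank (ZMod 2) (Additive A))) (ZMod 2) → Prop :=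
    fun M => ∃ f ∈ Γ, lin f = Matrix.toLin b b M
  have hP : ∀ M : Matrix (Fin (Module.finrank (ZMod 2) (Additive A)))
      (Fin (Module.finrank (ZMod 2) (Additive A))) (ZMod 2), M.det ≠ 0 → P M := by
    intro M hM
    apply Matrix.diagonal_transvection_induction_of_det_ne_zero P M hM
    · intro D hD
      have hD1 : D = fun _ => 1 := by
        funext i
        have hDi : D i ≠ 0 := by
          intro h0
          apply hD
          rw [Matrix.det_diagonal]
          exact Finset.prod_eq_zero (Finset.mem_univ i) h0
        revert hDi
        generalize D i = d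
        revert d
        decide
      refine ⟨1, Γ.one_mem, ?_⟩
      rw [lin_one, hD1]
      have h1 : (Matrix.diagonal fun _ : Fin (Module.finrank (ZMod 2) (Additive A)) =>
          (1 : ZMod 2)) = 1 := Matrix.diagonal_one
      rw [h1, Matrix.toLin_one]
    · rintro ⟨i, j, hij, c⟩
      have hc : c = 0 ∨ c = 1 := by
        revert c
        decide
      rcases hc with rfl | rfl
      · refine ⟨1, Γ.one_mem, ?_⟩
        show lin 1 = Matrix.toLin b b (Matrix.transvection i j 0)
        rw [lin_one, Matrix.transvection_zero, Matrix.toLin_one]
      · have ha1 : Additive.toMul (b i) ≠ (1 : A) := by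
          intro h
          exact b.ne_zero i (congrArg Additive.ofMul h)
        let S : Finset A := (Finset.univ.erase j).image (fun k => Additive.toMul (b k))
        have hx : Additive.toMul (b j) ∉
            Subgroup.closure (insert (Additive.toMul (b i)) (S : Set A)) := by
          intro hmem
          have key : ∀ w ∈ Subgroup.closure (insert (Additive.toMul (b i)) (S : Set A)),
              b.repr (Additive.ofMul w) j = 0 := by
            intro w hw
            induction hw using Subgroup.closure_induction with
            | mem w hw =>
              rcases hw with rfl | hw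
              · show b.repr (b i) j = 0
                rw [Module.Basis.repr_self, Finsupp.single_apply, if_neg hij]
              · rw [Finset.mem_coe, Finset.mem_image] at hw
                obtain ⟨k, hk, rfl⟩ := hw
                show b.repr (b k) j = 0
                rw [Module.Basis.repr_self, Finsupp.single_apply,
                  if_neg (Finset.ne_of_mem_erase hk)]
            | one =>
              show b.repr 0 j = 0
              simp
            | mul w1 w2 _ _ h1 h2 =>
              show b.repr (Additive.ofMul w1 + Additive.ofMul w2) j = 0
              rw [map_add, Finsupp.add_apply, h1, h2, add_zero]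
            | inv w _ h =>
              show b.repr (- Additive.ofMul w) j = 0
              rw [map_neg, Finsupp.neg_apply, h, neg_zero]
          have h0 : b.repr (b j) j = 0 := key _ hmem
          have h2 : b.repr (b j) j = 1 := by
            rw [Module.Basis.repr_self, Finsupp.single_apply, if_pos rfl]
          exact one_ne_zero (h2.symm.trans h0)
        obtain ⟨f, hfΓ, hfS, hfx⟩ := hT _ ha1 S _ hx
        refine ⟨f, hfΓ, ?_⟩
        apply b.ext
        intro k
        show lin f (b k) = Matrix.toLin b b (Matrix.transvection i j 1) (b k)
        rw [Matrix.toLin_self, lin_apply]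
        by_cases hk : k = j
        · subst hk
          rw [hfx]
          simp [Matrix.transvection, Matrix.add_apply, add_smul, Finset.sum_add_distrib,
            Matrix.one_apply, Matrix.single_apply]
          exact add_comm _ _
        · rw [hfS _ (Finset.mem_image.mpr ⟨k, Finset.mem_erase.mpr ⟨hk, Finset.mem_univ _⟩, rfl⟩)]
          simp [Matrix.transvection, Matrix.add_apply, add_smul, Finset.sum_add_distrib,
            Matrix.one_apply, Matrix.single_apply]
          apply Finset.sum_eq_zero
          intro x _
          rw [if_neg]
          rintro ⟨_, h⟩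
          exact hk h.symm
    · rintro M N _ _ ⟨f, hf, hfM⟩ ⟨g, hg, hgN⟩
      exact ⟨f * g, Γ.mul_mem hf hg, by rw [lin_mul, hfM, hgN, Matrix.toLin_mul b b b]⟩
  have hφψ : (lin φ.toMonoidHom).comp (lin φ.symm.toMonoidHom) = LinearMap.id := by
    apply LinearMap.ext
    intro v
    show Additive.ofMul (φ (φ.symm (Additive.toMul v))) = v
    rw [MulEquiv.apply_symm_apply]
    rfl
  have hdet : (LinearMap.toMatrix b b (lin φ.toMonoidHom)).det ≠ 0 := by
    have h1 : LinearMap.toMatrix b b (lin φ.toMonoidHom) *
        LinearMap.toMatrix b b (lin φ.symm.toMonoidHom) = 1 := by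
      rw [← LinearMap.toMatrix_comp b b b, hφψ, LinearMap.toMatrix_id]
    intro h0
    have := congrArg Matrix.det h1
    rw [Matrix.det_mul, h0, zero_mul, Matrix.det_one] at this
    exact zero_ne_one this
  obtain ⟨f, hf, hfl⟩ := hP _ hdet
  rw [Matrix.toLin_toMatrix] at hfl
  have : f = φ.toMonoidHom := lin_inj _ _ hfl
  rw [← this]
  exact hf

end Cfsg.Agent.Lib.Helper93
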