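import Mathlib

/-!
# Odd-product involution graphs in symmetric groups: basic tools (helper93)

* `odd_of_pow` : `g ^ m = 1` with `m` odd gives an element of odd order;
* `via_swap`   : `viaEmbeddingHom` maps swaps to swaps (used to transport identities from `Fin n`);
* `ins`        : inserting two fixed points into a cycle of an odd-order permutation keeps the
  order odd;
* `peel`       : removing a 2-cycle from an involution.
-/

namespace Cfsg.Agent.Lib.Helper93.OddG

open Equiv Equiv.Perm

variable {α : Type*} [DecidableEq α]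

theorem odd_of_pow {G : Type*} [Monoid G] {g : G} {m : ℕ} (hm : Odd m) (h : g ^ m = 1) :
    Odd (orderOf g) :=
  Odd.of_dvd_nat hm (orderOf_dvd_of_pow_eq_one h)

theorem via_swap {n : ℕ} (ι : Fin n ↪ α) (i j : Fin n) :
    viaEmbeddingHom ι (swap i j) = swap (ι i) (ι j) := by
  ext p
  by_cases hp : p ∈ Set.range ι
  · obtain ⟨k, rfl⟩ := hp
    rw [viaEmbeddingHom_apply, viaEmbedding_apply]
    by_cases h1 : k = i
    · subst h1; simp
    · by_cases h2 : k = j
      · subst h2; simp
      · rw [swap_apply_of_ne_of_ne h1 h2, swap_apply_of_ne_of_ne (fun h => h1 (ι.injective h))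
          (fun h => h2 (ι.injective h))]
  · rw [viaEmbeddingHom_apply, viaEmbedding_apply_of_notMem _ _ _ hp, swap_apply_of_ne_of_ne]
    · rintro rfl; exact hp ⟨i, rfl⟩
    · rintro rfl; exact hp ⟨j, rfl⟩

omit [DecidableEq α] in
/-- Odd order is transported along `viaEmbeddingHom`. -/
theorem via_odd {n : ℕ} (ι : Fin n ↪ α) (g : Perm (Fin n)) (m : ℕ) (hm : Odd m) (h : g ^ m = 1) :
    Odd (orderOf (viaEmbeddingHom ι g)) := by
  apply odd_of_pow hm
  rw [← map_pow, h, map_one]

variable [Fintype α]

theorem ins_aux (g G : Perm α) (hg : Odd (orderOf g)) {q a b : α} (ha : g a = a) (hb : g b = b)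
    (hqa : q ≠ a) (hqb : q ≠ b)
    (Gq : G q = a) (Ga : G a = b) (Gb : G b = g q)
    (Gp : ∀ p, p ≠ q → p ≠ a → p ≠ b → G p = g p) :
    Odd (orderOf G) := by
  have hmpos : 0 < orderOf g := orderOf_pos g
  have hper : Function.IsPeriodicPt g (orderOf g) q := by
    show g^[orderOf g] q = q
    rw [iterate_eq_pow, pow_orderOf_eq_one]; rfl
  have hℓdvd : Function.minimalPeriod g q ∣ orderOf g := hper.minimalPeriod_dvd
  have hℓpos : 0 < Function.minimalPeriod g q := hper.minimalPeriod_pos hmpos
  have hℓodd : Odd (Function.minimalPeriod g q) := Odd.of_dvd_nat hg hℓdvd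
  have gpa : ∀ i : ℕ, (g ^ i) a = a := pow_apply_eq_self_of_apply_eq_self ha
  have gpb : ∀ i : ℕ, (g ^ i) b = b := pow_apply_eq_self_of_apply_eq_self hb
  have claimA : ∀ i : ℕ, 1 ≤ i → i ≤ Function.minimalPeriod g q →
      (G ^ (i + 2)) q = (g ^ i) q := by
    intro i hi
    induction i, hi using Nat.le_induction with
    | base =>
      intro _
      rw [show 1 + 2 = 3 from rfl, pow_succ', pow_succ', pow_one, pow_one, Perm.mul_apply,
        Perm.mul_apply, Gq, Ga, Gb]
    | succ i hi ih =>
      intro hle
      have ih' := ih (by omega)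
      have e1 : (G ^ (i + 1 + 2)) q = G ((G ^ (i + 2)) q) := by
        rw [show i + 1 + 2 = (i + 2) + 1 by ring, pow_succ', Perm.mul_apply]
      rw [e1, ih', pow_succ' g, Perm.mul_apply]
      apply Gp
      · intro h
        have hp' : Function.IsPeriodicPt g i q := by
          show g^[i] q = q
          rw [iterate_eq_pow]; exact h
        exact Function.not_isPeriodicPt_of_pos_of_lt_minimalPeriod (by omega) (by omega) hp'
      · intro h
        exact hqa ((g ^ i).injective (h.trans (gpa i).symm))
      · intro h
        exact hqb ((g ^ i).injective (h.trans (gpb i).symm))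
  have Gfix : (G ^ (Function.minimalPeriod g q + 2)) q = q := by
    rw [claimA _ hℓpos le_rfl]
    have := Function.iterate_minimalPeriod (f := g) (x := q)
    rw [iterate_eq_pow] at this
    exact this
  have key : G ^ (orderOf g * (Function.minimalPeriod g q + 2)) = 1 := by
    ext p
    by_cases hp : SameCycle G q p
    · obtain ⟨j, -, rfl⟩ := hp.exists_pow_eq'
      rw [mul_comm, pow_mul]
      apply pow_apply_eq_self_of_apply_eq_self
      rw [← Perm.mul_apply, ← pow_add, add_comm, pow_add, Perm.mul_apply, Gfix]
    · rw [pow_mul]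
      apply pow_apply_eq_self_of_apply_eq_self
      have hind : ∀ j : ℕ, (G ^ j) p = (g ^ j) p ∧ ¬ SameCycle G q ((G ^ j) p) := by
        intro j
        induction j with
        | zero => exact ⟨rfl, hp⟩
        | succ j ih =>
          obtain ⟨e, hs⟩ := ih
          have hs' : ¬ SameCycle G q (G ((G ^ j) p)) := by rwa [sameCycle_apply_right]
          refine ⟨?_, by rwa [pow_succ', Perm.mul_apply]⟩
          rw [pow_succ', Perm.mul_apply, pow_succ' g, Perm.mul_apply, ← e]
          apply Gp
          · intro h; exact hs (h ▸ SameCycle.refl _ _)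
          · intro h; apply hs; rw [h, ← Gq]
            exact sameCycle_apply_right.mpr (SameCycle.refl _ _)
          · intro h; apply hs; rw [h, ← Ga, ← Gq]
            exact sameCycle_apply_right.mpr (sameCycle_apply_right.mpr (SameCycle.refl _ _))
      rw [(hind _).1, pow_orderOf_eq_one]; rfl
  have hodd : Odd (orderOf g * (Function.minimalPeriod g q + 2)) := by
    apply hg.mul
    obtain ⟨r, hr⟩ := hℓodd
    exact ⟨r + 1, by omega⟩
  exact odd_of_pow hodd key

/-- **Insertion lemma.** If `g` has odd order and fixes `a ≠ b`, then inserting `a, b` after `q`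
in the cycle of `q` (i.e. multiplying by the 3-cycle `q → a → b → q`) keeps the order odd. -/
theorem ins (g : Perm α) (hg : Odd (orderOf g)) {q a b : α} (ha : g a = a) (hb : g b = b)
    (hab : a ≠ b) (hqa : q ≠ a) (hqb : q ≠ b) :
    Odd (orderOf (g * swap q a * swap a b)) := by
  apply ins_aux g _ hg ha hb hqa hqb
  · simp only [Perm.mul_apply]
    rw [swap_apply_of_ne_of_ne hqa hqb, swap_apply_left, ha]
  · simp only [Perm.mul_apply]
    rw [swap_apply_left, swap_apply_of_ne_of_ne hqb.symm hab.symm, hb]
  · simp only [Perm.mul_apply]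
    rw [swap_apply_right, swap_apply_right]
  · intro p h1 h2 h3
    simp only [Perm.mul_apply]
    rw [swap_apply_of_ne_of_ne h2 h3, swap_apply_of_ne_of_ne h1 h2]

/-- Removing the 2-cycle `(a b)` from an involution. -/
theorem peel (x : Perm α) (hx : x * x = 1) {a b : α} (hab : x a = b) (hne : a ≠ b) :
    (x * swap a b) * (x * swap a b) = 1 ∧ (x * swap a b).support = x.support \ {a, b} ∧
    (∀ p, p ≠ a → p ≠ b → (x * swap a b) p = x p) ∧ (x * swap a b) a = a ∧
    (x * swap a b) b = b := by
  have hxx : ∀ p, x (x p) = p := fun p => by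
    have := congrArg (fun f : Perm α => f p) hx
    simpa using this
  have hba : x b = a := by rw [← hab, hxx]
  have e1 : (x * swap a b) a = a := by simp [hba]
  have e2 : (x * swap a b) b = b := by simp [hab]
  have e3 : ∀ p, p ≠ a → p ≠ b → (x * swap a b) p = x p := by
    intro p h1 h2
    rw [Perm.mul_apply, swap_apply_of_ne_of_ne h1 h2]
  refine ⟨?_, ?_, e3, e1, e2⟩
  · ext p
    rw [Perm.mul_apply]
    by_cases h1 : p = a
    · subst h1; rw [e1, e1]; rfl
    · by_cases h2 : p = b
      · subst h2; rw [e2, e2]; rfl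
      · rw [e3 p h1 h2, e3, hxx]; · rfl
        · intro h; apply h2; rw [← hab, ← h, hxx]
        · intro h; apply h1; rw [← hba, ← h, hxx]
  · ext p
    simp only [mem_support, Finset.mem_sdiff, Finset.mem_insert, Finset.mem_singleton, not_or]
    by_cases h1 : p = a
    · subst h1; simp [e1]
    · by_cases h2 : p = b
      · subst h2; simp [e2]
      · rw [e3 p h1 h2]; simp [h1, h2]

end Cfsg.Agent.Lib.Helper93.OddG
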