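import Cfsg.Agent.Lib.Helper93.OddA

/-!
# Odd-product involution graphs: instances, solutions, finite identities (helper93)

`Inst S x y` : two involutions (or `1`) supported in `S` with supports of equal size.
`Sol S x y`  : there is an involution `z` supported in `S` with `x * z`, `y * z` of odd order.
`Exc S x y`  : the exceptional instance (`S` is a 4-cycle of the union graph of `x`, `y`).
-/

namespace Cfsg.Agent.Lib.Helper93.OddG

open Equiv Equiv.Perm

section fin

variable {α : Type*} [DecidableEq α]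

theorem identM3_fin (f : Fin 6 → α) (hf : Function.Injective f) :
    swap (f 0) (f 1) * swap (f 5) (f 1) * swap (f 3) (f 4) * swap (f 0) (f 2) * swap (f 4) (f 5)
      * swap (f 2) (f 3)
    = swap (f 1) (f 5) * swap (f 5) (f 3) * swap (f 0) (f 2) * swap (f 2) (f 4) := by
  have h := via_swap (⟨f, hf⟩ : Fin 6 ↪ α)
  simp only [Function.Embedding.coeFn_mk] at h
  simp only [← h, ← map_mul]
  congr 1
  decide

/-- points `[U, W, v1, v2, v3, v4]` -/
theorem identM3 {U W v1 v2 v3 v4 : α} (h : [U, W, v1, v2, v3, v4].Nodup) :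
    swap U W * swap v4 W * swap v2 v3 * swap U v1 * swap v3 v4 * swap v1 v2
    = swap W v4 * swap v4 v2 * swap U v1 * swap v1 v3 := by
  have hf : Function.Injective ![U, W, v1, v2, v3, v4] := by
    rw [← List.nodup_ofFn]; simpa using h
  simpa using identM3_fin _ hf

theorem identAx_fin (f : Fin 6 → α) (hf : Function.Injective f) :
    swap (f 2) (f 3) * swap (f 0) (f 1) * swap (f 4) (f 5) * swap (f 4) (f 0) * swap (f 1) (f 3)
      * swap (f 2) (f 5)
    = swap (f 5) (f 3) * swap (f 3) (f 0) * swap (f 4) (f 1) * swap (f 1) (f 2) := by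
  have h := via_swap (⟨f, hf⟩ : Fin 6 ↪ α)
  simp only [Function.Embedding.coeFn_mk] at h
  simp only [← h, ← map_mul]
  congr 1
  decide

/-- points `[c0, c1, c2, c3, u, t]` -/
theorem identAx {c0 c1 c2 c3 u t : α} (h : [c0, c1, c2, c3, u, t].Nodup) :
    swap c2 c3 * swap c0 c1 * swap u t * swap u c0 * swap c1 c3 * swap c2 t
    = swap t c3 * swap c3 c0 * swap u c1 * swap c1 c2 := by
  have hf : Function.Injective ![c0, c1, c2, c3, u, t] := by
    rw [← List.nodup_ofFn]; simpa using h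
  simpa using identAx_fin _ hf

theorem identAy_fin (f : Fin 6 → α) (hf : Function.Injective f) :
    swap (f 3) (f 0) * swap (f 1) (f 2) * swap (f 4) (f 5) * swap (f 4) (f 0) * swap (f 1) (f 3)
      * swap (f 2) (f 5)
    = swap (f 5) (f 1) * swap (f 1) (f 0) * swap (f 4) (f 3) * swap (f 3) (f 2) := by
  have h := via_swap (⟨f, hf⟩ : Fin 6 ↪ α)
  simp only [Function.Embedding.coeFn_mk] at h
  simp only [← h, ← map_mul]
  congr 1
  decide

/-- points `[c0, c1, c2, c3, u, t]` -/
theorem identAy {c0 c1 c2 c3 u t : α} (h : [c0, c1, c2, c3, u, t].Nodup) :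
    swap c3 c0 * swap c1 c2 * swap u t * swap u c0 * swap c1 c3 * swap c2 t
    = swap t c1 * swap c1 c0 * swap u c3 * swap c3 c2 := by
  have hf : Function.Injective ![c0, c1, c2, c3, u, t] := by
    rw [← List.nodup_ofFn]; simpa using h
  simpa using identAy_fin _ hf

theorem sp5_fin (f : Fin 5 → α) (hf : Function.Injective f) :
    (swap (f 0) (f 1) * swap (f 2) (f 4)) * (swap (f 0) (f 1) * swap (f 2) (f 4)) = 1 ∧
    Odd (orderOf (swap (f 2) (f 3) * swap (f 0) (f 1) * (swap (f 0) (f 1) * swap (f 2) (f 4)))) ∧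
    Odd (orderOf (swap (f 3) (f 0) * swap (f 1) (f 2) * (swap (f 0) (f 1) * swap (f 2) (f 4))))
    := by
  have h := via_swap (⟨f, hf⟩ : Fin 5 ↪ α)
  simp only [Function.Embedding.coeFn_mk] at h
  simp only [← h, ← map_mul]
  refine ⟨?_, ?_, ?_⟩
  · rw [← map_one (viaEmbeddingHom (⟨f, hf⟩ : Fin 5 ↪ α))]
    congr 1
    decide +kernel
  · exact via_odd _ _ 3 (by decide) (by decide +kernel)
  · exact via_odd _ _ 5 (by decide) (by decide +kernel)

/-- points `[c0, c1, c2, c3, p]` : a 4-cycle plus a common fixed point. -/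
theorem sp5 {c0 c1 c2 c3 p : α} (h : [c0, c1, c2, c3, p].Nodup) :
    (swap c0 c1 * swap c2 p) * (swap c0 c1 * swap c2 p) = 1 ∧
    Odd (orderOf (swap c2 c3 * swap c0 c1 * (swap c0 c1 * swap c2 p))) ∧
    Odd (orderOf (swap c3 c0 * swap c1 c2 * (swap c0 c1 * swap c2 p))) := by
  have hf : Function.Injective ![c0, c1, c2, c3, p] := by
    rw [← List.nodup_ofFn]; simpa using h
  simpa using sp5_fin _ hf

theorem sp8a_fin (f : Fin 8 → α) (hf : Function.Injective f) :
    (swap (f 0) (f 1) * swap (f 4) (f 7) * swap (f 3) (f 5) * swap (f 2) (f 6)) *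
      (swap (f 0) (f 1) * swap (f 4) (f 7) * swap (f 3) (f 5) * swap (f 2) (f 6)) = 1 ∧
    Odd (orderOf (swap (f 4) (f 5) * swap (f 6) (f 7) * swap (f 2) (f 3) * swap (f 0) (f 1) *
      (swap (f 0) (f 1) * swap (f 4) (f 7) * swap (f 3) (f 5) * swap (f 2) (f 6)))) ∧
    Odd (orderOf (swap (f 5) (f 6) * swap (f 7) (f 4) * swap (f 3) (f 0) * swap (f 1) (f 2) *
      (swap (f 0) (f 1) * swap (f 4) (f 7) * swap (f 3) (f 5) * swap (f 2) (f 6)))) := by
  have h := via_swap (⟨f, hf⟩ : Fin 8 ↪ α)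
  simp only [Function.Embedding.coeFn_mk] at h
  simp only [← h, ← map_mul]
  refine ⟨?_, ?_, ?_⟩
  · rw [← map_one (viaEmbeddingHom (⟨f, hf⟩ : Fin 8 ↪ α))]
    congr 1
    decide +kernel
  · exact via_odd _ _ 3 (by decide) (by decide +kernel)
  · exact via_odd _ _ 3 (by decide) (by decide +kernel)

/-- points `[c0, c1, c2, c3, d0, d1, d2, d3]` : two 4-cycles. -/
theorem sp8a {c0 c1 c2 c3 d0 d1 d2 d3 : α} (h : [c0, c1, c2, c3, d0, d1, d2, d3].Nodup) :
    (swap c0 c1 * swap d0 d3 * swap c3 d1 * swap c2 d2) *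
      (swap c0 c1 * swap d0 d3 * swap c3 d1 * swap c2 d2) = 1 ∧
    Odd (orderOf (swap d0 d1 * swap d2 d3 * swap c2 c3 * swap c0 c1 *
      (swap c0 c1 * swap d0 d3 * swap c3 d1 * swap c2 d2))) ∧
    Odd (orderOf (swap d1 d2 * swap d3 d0 * swap c3 c0 * swap c1 c2 *
      (swap c0 c1 * swap d0 d3 * swap c3 d1 * swap c2 d2))) := by
  have hf : Function.Injective ![c0, c1, c2, c3, d0, d1, d2, d3] := by
    rw [← List.nodup_ofFn]; simpa using h
  simpa using sp8a_fin _ hf

theorem sp8b_fin (f : Fin 8 → α) (hf : Function.Injective f) :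
    (swap (f 0) (f 1) * swap (f 2) (f 4) * swap (f 3) (f 7) * swap (f 5) (f 6)) *
      (swap (f 0) (f 1) * swap (f 2) (f 4) * swap (f 3) (f 7) * swap (f 5) (f 6)) = 1 ∧
    Odd (orderOf (swap (f 0) (f 7) * swap (f 5) (f 6) * swap (f 3) (f 4) * swap (f 1) (f 2) *
      (swap (f 0) (f 1) * swap (f 2) (f 4) * swap (f 3) (f 7) * swap (f 5) (f 6)))) ∧
    Odd (orderOf (swap (f 0) (f 5) * swap (f 7) (f 6) * swap (f 0) (f 5) * swap (f 4) (f 5) *
      swap (f 2) (f 3) * swap (f 0) (f 1) *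
      (swap (f 0) (f 1) * swap (f 2) (f 4) * swap (f 3) (f 7) * swap (f 5) (f 6)))) := by
  have h := via_swap (⟨f, hf⟩ : Fin 8 ↪ α)
  simp only [Function.Embedding.coeFn_mk] at h
  simp only [← h, ← map_mul]
  refine ⟨?_, ?_, ?_⟩
  · rw [← map_one (viaEmbeddingHom (⟨f, hf⟩ : Fin 8 ↪ α))]
    congr 1
    decide +kernel
  · exact via_odd _ _ 3 (by decide) (by decide +kernel)
  · exact via_odd _ _ 3 (by decide) (by decide +kernel)

/-- points `[u, v1, v2, v3, v4, w, q, p]` : an 8-cycle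
`u -y- v1 -x- v2 -y- v3 -x- v4 -y- w -x- q -y- p -x- u`. -/
theorem sp8b {u v1 v2 v3 v4 w q p : α} (h : [u, v1, v2, v3, v4, w, q, p].Nodup) :
    (swap u v1 * swap v2 v4 * swap v3 p * swap w q) *
      (swap u v1 * swap v2 v4 * swap v3 p * swap w q) = 1 ∧
    Odd (orderOf (swap u p * swap w q * swap v3 v4 * swap v1 v2 *
      (swap u v1 * swap v2 v4 * swap v3 p * swap w q))) ∧
    Odd (orderOf (swap u w * swap p q * swap u w * swap v4 w * swap v2 v3 * swap u v1 *
      (swap u v1 * swap v2 v4 * swap v3 p * swap w q))) := by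
  have hf : Function.Injective ![u, v1, v2, v3, v4, w, q, p] := by
    rw [← List.nodup_ofFn]; simpa using h
  simpa using sp8b_fin _ hf

theorem ident4_fin (f : Fin 4 → α) (hf : Function.Injective f) :
    swap (f 2) (f 3) * swap (f 0) (f 1) * swap (f 2) (f 3) * swap (f 0) (f 1) = 1 := by
  have h := via_swap (⟨f, hf⟩ : Fin 4 ↪ α)
  simp only [Function.Embedding.coeFn_mk] at h
  simp only [← h, ← map_mul]
  rw [← map_one (viaEmbeddingHom (⟨f, hf⟩ : Fin 4 ↪ α))]
  congr 1
  decide +kernel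

theorem ident4 {a b c d : α} (h : [a, b, c, d].Nodup) :
    swap c d * swap a b * swap c d * swap a b = 1 := by
  have hf : Function.Injective ![a, b, c, d] := by
    rw [← List.nodup_ofFn]; simpa using h
  simpa using ident4_fin _ hf

end fin

end Cfsg.Agent.Lib.Helper93.OddG
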