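import Cfsg.Agent.Lib.Helper93.OddB

/-!
# Odd-product involution graphs: local moves (helper93)
-/

namespace Cfsg.Agent.Lib.Helper93.OddG

open Equiv Equiv.Perm

variable {α : Type*} [DecidableEq α] [Fintype α]

/-- Two involutions (or `1`) supported in `S` with supports of equal size. -/
def Inst (S : Finset α) (x y : Perm α) : Prop :=
  x * x = 1 ∧ y * y = 1 ∧ x.support ⊆ S ∧ y.support ⊆ S ∧ x.support.card = y.support.card

/-- The exceptional instance: `S` is a 4-cycle of the union graph of `x` and `y`. -/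
def Exc (S : Finset α) (x y : Perm α) : Prop :=
  ∃ c0 c1 c2 c3 : α, [c0, c1, c2, c3].Nodup ∧ S = {c0, c1, c2, c3} ∧
    x c0 = c1 ∧ x c2 = c3 ∧ y c1 = c2 ∧ y c3 = c0

/-- A common odd-product neighbour supported in `S`. -/
def Sol (S : Finset α) (x y : Perm α) : Prop :=
  ∃ z : Perm α, z * z = 1 ∧ z.support ⊆ S ∧ Odd (orderOf (x * z)) ∧ Odd (orderOf (y * z))

/-- Induction hypothesis: all non-exceptional instances with support of size `< n` are solvable. -/
def IH (α : Type*) [DecidableEq α] [Fintype α] (n : ℕ) : Prop :=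
  ∀ (S : Finset α) (x y : Perm α), Inst S x y → x.support.card < n → ¬ Exc S x y → Sol S x y

omit [DecidableEq α] [Fintype α] in
theorem inv_apply (x : Perm α) (hx : x * x = 1) (p : α) : x (x p) = p := by
  have := congrArg (fun f : Perm α => f p) hx
  simpa using this

omit [DecidableEq α] [Fintype α] in
theorem inv_self (x : Perm α) (hx : x * x = 1) : x⁻¹ = x := inv_eq_of_mul_eq_one_left hx

omit [Fintype α] in
theorem comm_swap (f : Perm α) {a b : α} (ha : f a = a) (hb : f b = b) :
    f * swap a b = swap a b * f := by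
  rw [mul_swap_eq_swap_mul, ha, hb]

theorem fix_of_subset {f : Perm α} {S : Finset α} (h : f.support ⊆ S) {p : α} (hp : p ∉ S) :
    f p = p :=
  Perm.notMem_support.mp (fun h' => hp (h h'))

theorem supp_mul_swap {f : Perm α} {S : Finset α} (h : f.support ⊆ S) {a b : α} (ha : a ∈ S)
    (hb : b ∈ S) : (f * swap a b).support ⊆ S := by
  intro p hp
  by_contra hpS
  rw [Perm.mem_support, Perm.mul_apply,
    swap_apply_of_ne_of_ne (by rintro rfl; exact hpS ha) (by rintro rfl; exact hpS hb)] at hp
  exact hp (fix_of_subset h hpS)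

omit [Fintype α] in
theorem inv_mul_swap (f : Perm α) (hf : f * f = 1) {a b : α} (ha : f a = a) (hb : f b = b) :
    (f * swap a b) * (f * swap a b) = 1 := by
  rw [mul_assoc, ← mul_assoc (swap a b), ← comm_swap f ha hb, mul_assoc, swap_mul_self, mul_one, hf]

omit [DecidableEq α] [Fintype α] in
theorem odd_one_of_inv (x : Perm α) (hx : x * x = 1) (h : Odd (orderOf x)) : x = 1 := by
  have h2 : orderOf x ∣ 2 := orderOf_dvd_of_pow_eq_one (by rw [pow_two, hx])
  have h1 : orderOf x = 1 := by
    rcases (Nat.dvd_prime Nat.prime_two).mp h2 with h' | h'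
    · exact h'
    · rw [h'] at h; exact absurd h (by decide)
  exact orderOf_eq_one_iff.mp h1

theorem peelP (x : Perm α) (hx : x * x = 1) {a b : α} (hab : x a = b) (hne : a ≠ b) :
    ∃ x' : Perm α, x' * x' = 1 ∧ x = x' * swap a b ∧ x'.support = x.support \ {a, b} ∧
      x'.support.card + 2 = x.support.card ∧ x' a = a ∧ x' b = b ∧
      (∀ p, p ≠ a → p ≠ b → x' p = x p) := by
  obtain ⟨h1, h2, h3, h4, h5⟩ := peel x hx hab hne
  refine ⟨x * swap a b, h1, ?_, h2, ?_, h4, h5, h3⟩
  · rw [mul_assoc, swap_mul_self, mul_one]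
  · rw [h2]
    have hba : x b = a := by rw [← hab, inv_apply x hx]
    have hsub : ({a, b} : Finset α) ⊆ x.support := by
      intro p hp
      simp only [Finset.mem_insert, Finset.mem_singleton] at hp
      rw [Perm.mem_support]
      rcases hp with hp | hp
      · rw [hp, hab]; exact hne.symm
      · rw [hp, hba]; exact hne
    rw [Finset.card_sdiff_of_subset hsub, Finset.card_pair hne]
    have := Finset.card_le_card hsub
    rw [Finset.card_pair hne] at this
    omega

theorem inv_four (x : Perm α) (hx : x * x = 1) {a b c d : α} (hnd : [a, b, c, d].Nodup)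
    (hs : x.support ⊆ {a, b, c, d}) (hab : x a = b) (hcd : x c = d) :
    x = swap a b * swap c d := by
  have hba : x b = a := by rw [← hab, inv_apply x hx]
  have hdc : x d = c := by rw [← hcd, inv_apply x hx]
  simp only [List.nodup_cons, List.mem_cons, List.not_mem_nil, or_false, not_or, not_false_eq_true,
    List.nodup_nil, and_true] at hnd
  ext p
  have hp : p ∉ ({a, b, c, d} : Finset α) → x p = p := fun h =>
    Perm.notMem_support.mp (fun h' => h (hs h'))
  simp only [Finset.mem_insert, Finset.mem_singleton, not_or] at hp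
  rw [Perm.mul_apply]
  grind

theorem Inst.symm {S : Finset α} {x y : Perm α} (h : Inst S x y) : Inst S y x :=
  ⟨h.2.1, h.1, h.2.2.2.1, h.2.2.1, h.2.2.2.2.symm⟩

theorem Sol.symm {S : Finset α} {x y : Perm α} (h : Sol S x y) : Sol S y x := by
  obtain ⟨z, h1, h2, h3, h4⟩ := h
  exact ⟨z, h1, h2, h4, h3⟩

omit [Fintype α] in
theorem Exc.symm {S : Finset α} {x y : Perm α} (h : Exc S x y) : Exc S y x := by
  obtain ⟨c0, c1, c2, c3, hnd, hS, h1, h2, h3, h4⟩ := h
  refine ⟨c1, c2, c3, c0, ?_, ?_, h3, h4, h2, h1⟩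
  · simp only [List.nodup_cons, List.mem_cons, List.not_mem_nil, or_false, not_or,
      not_false_eq_true, List.nodup_nil, and_true] at hnd ⊢
    grind
  · rw [hS]; ext p; simp only [Finset.mem_insert, Finset.mem_singleton]; tauto


/-- **4-cycle case.** If the union graph has a 4-cycle component, the instance is solvable
(given the induction hypothesis). -/
theorem c4case {S : Finset α} {x y : Perm α} (hI : Inst S x y) (hE : ¬ Exc S x y)
    (ih : IH α x.support.card) {c0 c1 c2 c3 : α} (hnd : [c0, c1, c2, c3].Nodup)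
    (h01 : x c0 = c1) (h23 : x c2 = c3) (h12 : y c1 = c2) (h30 : y c3 = c0) : Sol S x y := by
  obtain ⟨hx, hy, hxS, hyS, hcard⟩ := hI
  have hnd' := hnd
  simp only [List.nodup_cons, List.mem_cons, List.not_mem_nil, or_false, not_or, not_false_eq_true,
    List.nodup_nil, and_true] at hnd'
  obtain ⟨⟨n01, n02, n03⟩, ⟨n12, n13⟩, n23⟩ := hnd'
  obtain ⟨x1, hx1, ex1, sx1, cx1, x1a, x1b, x1p⟩ := peelP x hx h01 n01
  have h23' : x1 c2 = c3 := by rw [x1p c2 (Ne.symm n02) (Ne.symm n12)]; exact h23
  obtain ⟨x', hx', ex', sx', cx', x'a, x'b, x'p⟩ := peelP x1 hx1 h23' n23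
  obtain ⟨y1, hy1, ey1, sy1, cy1, y1a, y1b, y1p⟩ := peelP y hy h12 n12
  have h30' : y1 c3 = c0 := by rw [y1p c3 (Ne.symm n13) (Ne.symm n23)]; exact h30
  obtain ⟨y', hy', ey', sy', cy', y'a, y'b, y'p⟩ := peelP y1 hy1 h30' (Ne.symm n03)
  have m0 : c0 ∈ S := hxS (by rw [Perm.mem_support, h01]; exact Ne.symm n01)
  have m1 : c1 ∈ S := hyS (by rw [Perm.mem_support, h12]; exact Ne.symm n12)
  have m2 : c2 ∈ S := hxS (by rw [Perm.mem_support, h23]; exact Ne.symm n23)
  have m3 : c3 ∈ S := hyS (by rw [Perm.mem_support, h30]; exact n03)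
  have fx0 : x' c0 = c0 := by rw [x'p c0 n02 n03]; exact x1a
  have fx1 : x' c1 = c1 := by rw [x'p c1 n12 n13]; exact x1b
  have fy1 : y' c1 = c1 := by rw [y'p c1 n13 (Ne.symm n01)]; exact y1a
  have fy2 : y' c2 = c2 := by rw [y'p c2 n23 (Ne.symm n02)]; exact y1b
  have hxe : x = x' * swap c2 c3 * swap c0 c1 := by rw [← ex']; exact ex1
  have hye : y = y' * swap c3 c0 * swap c1 c2 := by rw [← ey']; exact ey1
  have hx'S : x'.support ⊆ S \ {c0, c1, c2, c3} := by
    intro p hp
    rw [sx', sx1] at hp
    simp only [Finset.mem_sdiff, Finset.mem_insert, Finset.mem_singleton, not_or] at hp ⊢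
    exact ⟨hxS hp.1.1, hp.1.2.1, hp.1.2.2, hp.2.1, hp.2.2⟩
  have hy'S : y'.support ⊆ S \ {c0, c1, c2, c3} := by
    intro p hp
    rw [sy', sy1] at hp
    simp only [Finset.mem_sdiff, Finset.mem_insert, Finset.mem_singleton, not_or] at hp ⊢
    exact ⟨hyS hp.1.1, hp.2.2, hp.1.2.1, hp.1.2.2, hp.2.1⟩
  have hI' : Inst (S \ {c0, c1, c2, c3}) x' y' := ⟨hx', hy', hx'S, hy'S, by omega⟩
  have hlt : x'.support.card < x.support.card := by omega
  have h1S : (1 : Perm α).support ⊆ S := by simp
  by_cases hE' : Exc (S \ {c0, c1, c2, c3}) x' y'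
  · -- two 4-cycles
    obtain ⟨d0, d1, d2, d3, hnd2, hS2, g01, g23, g12, g30⟩ := hE'
    have hx4 : x' = swap d0 d1 * swap d2 d3 := inv_four x' hx' hnd2 (hS2 ▸ hx'S) g01 g23
    have hnd3 : [d1, d2, d3, d0].Nodup := by
      simp only [List.nodup_cons, List.mem_cons, List.not_mem_nil, or_false, not_or,
        not_false_eq_true, List.nodup_nil, and_true] at hnd2 ⊢
      grind
    have hy4 : y' = swap d1 d2 * swap d3 d0 := by
      refine inv_four y' hy' hnd3 ?_ g12 g30
      intro p hp
      have := hy'S hp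
      rw [hS2] at this
      simp only [Finset.mem_insert, Finset.mem_singleton] at this ⊢
      tauto
    have hd : ∀ p ∈ [d0, d1, d2, d3], p ∈ S ∧ p ∉ [c0, c1, c2, c3] := by
      intro p hp
      have : p ∈ S \ {c0, c1, c2, c3} := by rw [hS2]; simpa using hp
      simpa using this
    have hnd8 : [c0, c1, c2, c3, d0, d1, d2, d3].Nodup := by
      have := List.Nodup.append hnd hnd2 (by intro p hp1 hp2; exact (hd p hp2).2 hp1)
      simpa using this
    obtain ⟨hz, ox, oy⟩ := sp8a hnd8
    refine ⟨swap c0 c1 * swap d0 d3 * swap c3 d1 * swap c2 d2, hz, ?_, ?_, ?_⟩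
    · have e : ((1 : Perm α) * swap c0 c1 * swap d0 d3 * swap c3 d1 * swap c2 d2)
          = swap c0 c1 * swap d0 d3 * swap c3 d1 * swap c2 d2 := by rw [one_mul]
      rw [← e]
      exact supp_mul_swap (supp_mul_swap (supp_mul_swap (supp_mul_swap h1S m0 m1)
        (hd d0 (by simp)).1 (hd d3 (by simp)).1) m3 (hd d1 (by simp)).1) m2 (hd d2 (by simp)).1
    · rw [hxe, hx4]; exact ox
    · rw [hye, hy4]; exact oy
  · obtain ⟨z', hz', hz'S, ox', oy'⟩ := ih _ x' y' hI' hlt hE'
    by_cases hz1 : z' = 1
    · -- the rest is trivial: use a common fixed point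
      subst hz1
      have hx1' : x' = 1 := odd_one_of_inv x' hx' (by simpa using ox')
      have hy1' : y' = 1 := odd_one_of_inv y' hy' (by simpa using oy')
      have hne : (S \ {c0, c1, c2, c3}).Nonempty := by
        by_contra hem
        rw [Finset.not_nonempty_iff_eq_empty, Finset.sdiff_eq_empty_iff_subset] at hem
        apply hE
        refine ⟨c0, c1, c2, c3, hnd, ?_, h01, h23, h12, h30⟩
        apply Finset.Subset.antisymm hem
        intro p hp
        simp only [Finset.mem_insert, Finset.mem_singleton] at hp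
        rcases hp with rfl | rfl | rfl | rfl <;> assumption
      obtain ⟨p, hp⟩ := hne
      simp only [Finset.mem_sdiff, Finset.mem_insert, Finset.mem_singleton, not_or] at hp
      obtain ⟨hpS, hp0, hp1, hp2, hp3⟩ := hp
      have hnd5 : [c0, c1, c2, c3, p].Nodup := by
        simp only [List.nodup_cons, List.mem_cons, List.not_mem_nil, or_false, not_or,
          not_false_eq_true, List.nodup_nil, and_true]
        grind
      obtain ⟨hz, ox, oy⟩ := sp5 hnd5
      refine ⟨swap c0 c1 * swap c2 p, hz, ?_, ?_, ?_⟩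
      · have e : ((1 : Perm α) * swap c0 c1 * swap c2 p) = swap c0 c1 * swap c2 p := by
          rw [one_mul]
        rw [← e]
        exact supp_mul_swap (supp_mul_swap h1S m0 m1) m2 hpS
      · rw [hxe, hx1', one_mul]; exact ox
      · rw [hye, hy1', one_mul]; exact oy
    · -- absorb the 4-cycle through an edge `{u, t}` of `z'`
      obtain ⟨u, hu⟩ : ∃ u, z' u ≠ u := by
        by_contra hcon
        push Not at hcon
        exact hz1 (Perm.ext hcon)
      obtain ⟨t, ht⟩ : ∃ t, z' u = t := ⟨_, rfl⟩
      have hut : u ≠ t := fun h => hu (ht.trans h.symm)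
      have htu : z' t = u := by rw [← ht, inv_apply z' hz']
      have huS := hz'S (Perm.mem_support.mpr hu)
      have htS := hz'S (Perm.mem_support.mpr (by rw [htu]; exact hut))
      simp only [Finset.mem_sdiff, Finset.mem_insert, Finset.mem_singleton, not_or] at huS htS
      obtain ⟨huS, hu0, hu1, hu2, hu3⟩ := huS
      obtain ⟨htS, ht0, ht1, ht2, ht3⟩ := htS
      have fz : ∀ p ∈ ({c0, c1, c2, c3} : Finset α), z' p = p := fun p hp =>
        fix_of_subset hz'S (by simp only [Finset.mem_sdiff, not_and, not_not]; exact fun _ => hp)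
      have fz0 : z' c0 = c0 := fz c0 (by simp)
      have fz1 : z' c1 = c1 := fz c1 (by simp)
      have fz2 : z' c2 = c2 := fz c2 (by simp)
      have fz3 : z' c3 = c3 := fz c3 (by simp)
      obtain ⟨z2, hz2, ez2, sz2, cz2, z2u, z2t, z2p⟩ := peelP z' hz' ht hut
      have hz2e : z2 = z' * swap u t := by rw [ez2, mul_assoc, swap_mul_self, mul_one]
      have f2_0 : z2 c0 = c0 := by rw [z2p c0 (Ne.symm hu0) (Ne.symm ht0)]; exact fz0
      have f2_1 : z2 c1 = c1 := by rw [z2p c1 (Ne.symm hu1) (Ne.symm ht1)]; exact fz1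
      have f2_2 : z2 c2 = c2 := by rw [z2p c2 (Ne.symm hu2) (Ne.symm ht2)]; exact fz2
      have f2_3 : z2 c3 = c3 := by rw [z2p c3 (Ne.symm hu3) (Ne.symm ht3)]; exact fz3
      have hnd6 : [c0, c1, c2, c3, u, t].Nodup := by
        simp only [List.nodup_cons, List.mem_cons, List.not_mem_nil, or_false, not_or,
          not_false_eq_true, List.nodup_nil, and_true]
        grind
      have c01 : swap c0 c1 * z' = z' * swap c0 c1 := (comm_swap z' fz0 fz1).symm
      have c23 : swap c2 c3 * z' = z' * swap c2 c3 := (comm_swap z' fz2 fz3).symm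
      have c30 : swap c3 c0 * z' = z' * swap c3 c0 := (comm_swap z' fz3 fz0).symm
      have c12 : swap c1 c2 * z' = z' * swap c1 c2 := (comm_swap z' fz1 fz2).symm
      refine ⟨z2 * swap u c0 * swap c1 c3 * swap c2 t, ?_, ?_, ?_, ?_⟩
      · refine inv_mul_swap _ (inv_mul_swap _ (inv_mul_swap _ hz2 z2u f2_0) ?_ ?_) ?_ ?_
        · simp only [Perm.mul_apply]; grind
        · simp only [Perm.mul_apply]; grind
        · simp only [Perm.mul_apply]; grind
        · simp only [Perm.mul_apply]; grind
      · refine supp_mul_swap (supp_mul_swap (supp_mul_swap ?_ huS m0) m1 m3) m2 htS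
        rw [sz2]
        exact (Finset.sdiff_subset.trans hz'S).trans Finset.sdiff_subset
      · have e : x * (z2 * swap u c0 * swap c1 c3 * swap c2 t)
            = x' * z' * swap t c3 * swap c3 c0 * swap u c1 * swap c1 c2 := by
          calc x * (z2 * swap u c0 * swap c1 c3 * swap c2 t)
              = x' * (swap c2 c3 * (swap c0 c1 * z')) * swap u t * swap u c0 * swap c1 c3
                  * swap c2 t := by rw [hxe, hz2e]; simp only [mul_assoc]
            _ = x' * z' * (swap c2 c3 * swap c0 c1 * swap u t * swap u c0 * swap c1 c3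
                  * swap c2 t) := by
                rw [c01, ← mul_assoc (swap c2 c3), c23]; simp only [mul_assoc]
            _ = x' * z' * swap t c3 * swap c3 c0 * swap u c1 * swap c1 c2 := by
                rw [identAx hnd6]; simp only [mul_assoc]
        rw [e]
        refine ins _ (ins _ ox' ?_ ?_ (Ne.symm n03) ht3 ht0) ?_ ?_ n12 hu1 hu2
        · simp only [Perm.mul_apply]; grind
        · simp only [Perm.mul_apply]; grind
        · simp only [Perm.mul_apply]; grind
        · simp only [Perm.mul_apply]; grind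
      · have e : y * (z2 * swap u c0 * swap c1 c3 * swap c2 t)
            = y' * z' * swap t c1 * swap c1 c0 * swap u c3 * swap c3 c2 := by
          calc y * (z2 * swap u c0 * swap c1 c3 * swap c2 t)
              = y' * (swap c3 c0 * (swap c1 c2 * z')) * swap u t * swap u c0 * swap c1 c3
                  * swap c2 t := by rw [hye, hz2e]; simp only [mul_assoc]
            _ = y' * z' * (swap c3 c0 * swap c1 c2 * swap u t * swap u c0 * swap c1 c3
                  * swap c2 t) := by
                rw [c12, ← mul_assoc (swap c3 c0), c30]; simp only [mul_assoc]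
            _ = y' * z' * swap t c1 * swap c1 c0 * swap u c3 * swap c3 c2 := by
                rw [identAy hnd6]; simp only [mul_assoc]
        rw [e]
        refine ins _ (ins _ oy' ?_ ?_ (Ne.symm n01) ht1 ht0) ?_ ?_ (Ne.symm n23) hu3 hu2
        · simp only [Perm.mul_apply]; grind
        · simp only [Perm.mul_apply]; grind
        · simp only [Perm.mul_apply]; grind
        · simp only [Perm.mul_apply]; grind

end Cfsg.Agent.Lib.Helper93.OddG
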