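import Cfsg.Agent.Lib.Helper93.OddC

/-!
# Odd-product involution graphs: the contraction moves (helper93)
-/

namespace Cfsg.Agent.Lib.Helper93.OddG

open Equiv Equiv.Perm

variable {α : Type*} [DecidableEq α] [Fintype α]

/-- Common edge `{p, q}`. -/
theorem moveM2 {S : Finset α} {x y : Perm α} (hI : Inst S x y) (hE : ¬ Exc S x y)
    (ih : IH α x.support.card) {p q : α} (hpq : p ≠ q) (hxp : x p = q) (hyp : y p = q) :
    Sol S x y := by
  obtain ⟨hx, hy, hxS, hyS, hcard⟩ := hI
  obtain ⟨x', hx', ex', sx', cx', x'a, x'b, x'p⟩ := peelP x hx hxp hpq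
  obtain ⟨y', hy', ey', sy', cy', y'a, y'b, y'p⟩ := peelP y hy hyp hpq
  have mp : p ∈ S := hxS (by rw [Perm.mem_support, hxp]; exact hpq.symm)
  have hxq : x q = p := by rw [← hxp, inv_apply x hx]
  have mq : q ∈ S := hxS (by rw [Perm.mem_support, hxq]; exact hpq)
  have hx'S : x'.support ⊆ S \ {p, q} := by
    rw [sx']; exact Finset.sdiff_subset_sdiff hxS le_rfl
  have hy'S : y'.support ⊆ S \ {p, q} := by
    rw [sy']; exact Finset.sdiff_subset_sdiff hyS le_rfl
  have hI' : Inst (S \ {p, q}) x' y' := ⟨hx', hy', hx'S, hy'S, by omega⟩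
  have hlt : x'.support.card < x.support.card := by omega
  by_cases hE' : Exc (S \ {p, q}) x' y'
  · obtain ⟨c0, c1, c2, c3, hnd, hS2, g01, g23, g12, g30⟩ := hE'
    have hc : ∀ c ∈ ({c0, c1, c2, c3} : Finset α), c ≠ p ∧ c ≠ q := by
      intro c hc
      rw [← hS2] at hc
      simp only [Finset.mem_sdiff, Finset.mem_insert, Finset.mem_singleton, not_or] at hc
      exact hc.2
    refine c4case ⟨hx, hy, hxS, hyS, hcard⟩ hE ih hnd ?_ ?_ ?_ ?_
    · rw [← x'p c0 (hc c0 (by simp)).1 (hc c0 (by simp)).2]; exact g01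
    · rw [← x'p c2 (hc c2 (by simp)).1 (hc c2 (by simp)).2]; exact g23
    · rw [← y'p c1 (hc c1 (by simp)).1 (hc c1 (by simp)).2]; exact g12
    · rw [← y'p c3 (hc c3 (by simp)).1 (hc c3 (by simp)).2]; exact g30
  · obtain ⟨z', hz', hz'S, ox', oy'⟩ := ih _ x' y' hI' hlt hE'
    have fzp : z' p = p := fix_of_subset hz'S (by simp)
    have fzq : z' q = q := fix_of_subset hz'S (by simp)
    have cz : swap p q * z' = z' * swap p q := (comm_swap z' fzp fzq).symm
    refine ⟨z' * swap p q, inv_mul_swap z' hz' fzp fzq,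
      supp_mul_swap (hz'S.trans Finset.sdiff_subset) mp mq, ?_, ?_⟩
    · have e : x * (z' * swap p q) = x' * z' := by
        rw [ex', mul_assoc, ← mul_assoc (swap p q), cz, mul_assoc, swap_mul_self, mul_one]
      rw [e]; exact ox'
    · have e : y * (z' * swap p q) = y' * z' := by
        rw [ey', mul_assoc, ← mul_assoc (swap p q), cz, mul_assoc, swap_mul_self, mul_one]
      rw [e]; exact oy'

/-- Path end: `v1` is fixed by `y`, `x v1 = v2`, and `y v2 = v3 ≠ v2`. -/
theorem moveM4 {S : Finset α} {x y : Perm α} (hI : Inst S x y) (ih : IH α x.support.card)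
    {v1 v2 v3 : α} (h12 : x v1 = v2) (n12 : v1 ≠ v2) (hy1 : y v1 = v1) (h23 : y v2 = v3)
    (n23 : v2 ≠ v3) : Sol S x y := by
  obtain ⟨hx, hy, hxS, hyS, hcard⟩ := hI
  have h32 : y v3 = v2 := by rw [← h23, inv_apply y hy]
  have n13 : v1 ≠ v3 := by
    intro h
    rw [← h, hy1] at h32
    exact n12 h32
  obtain ⟨x', hx', ex', sx', cx', x'a, x'b, x'p⟩ := peelP x hx h12 n12
  obtain ⟨y', hy', ey', sy', cy', y'a, y'b, y'p⟩ := peelP y hy h23 n23
  have m1 : v1 ∈ S := hxS (by rw [Perm.mem_support, h12]; exact n12.symm)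
  have m2 : v2 ∈ S := hyS (by rw [Perm.mem_support, h23]; exact n23.symm)
  have m3 : v3 ∈ S := hyS (by rw [Perm.mem_support, h32]; exact n23)
  have hx'S : x'.support ⊆ S \ {v1, v2} := by
    rw [sx']; exact Finset.sdiff_subset_sdiff hxS le_rfl
  have hy'S : y'.support ⊆ S \ {v1, v2} := by
    intro p hp
    rw [sy'] at hp
    simp only [Finset.mem_sdiff, Finset.mem_insert, Finset.mem_singleton, not_or,
      Perm.mem_support] at hp ⊢
    refine ⟨hyS (Perm.mem_support.mpr hp.1), ?_, hp.2.1⟩
    rintro rfl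
    exact hp.1 hy1
  have hI' : Inst (S \ {v1, v2}) x' y' := ⟨hx', hy', hx'S, hy'S, by omega⟩
  have hlt : x'.support.card < x.support.card := by omega
  have y'1 : y' v1 = v1 := by rw [y'p v1 n12 n13]; exact hy1
  have hE' : ¬ Exc (S \ {v1, v2}) x' y' := by
    rintro ⟨c0, c1, c2, c3, hnd, hS2, g01, g23, g12, g30⟩
    simp only [List.nodup_cons, List.mem_cons, List.not_mem_nil, or_false, not_or,
      not_false_eq_true, List.nodup_nil, and_true] at hnd
    have hv3 : v3 ∈ S \ {v1, v2} := by
      simp only [Finset.mem_sdiff, Finset.mem_insert, Finset.mem_singleton, not_or]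
      exact ⟨m3, n13.symm, n23.symm⟩
    rw [hS2] at hv3
    simp only [Finset.mem_insert, Finset.mem_singleton] at hv3
    have g21 : y' c2 = c1 := by rw [← g12, inv_apply y' hy']
    have g03 : y' c0 = c3 := by rw [← g30, inv_apply y' hy']
    grind
  obtain ⟨z', hz', hz'S, ox', oy'⟩ := ih _ x' y' hI' hlt hE'
  have fz1 : z' v1 = v1 := fix_of_subset hz'S (by simp)
  have fz2 : z' v2 = v2 := fix_of_subset hz'S (by simp)
  have cz : swap v1 v2 * z' = z' * swap v1 v2 := (comm_swap z' fz1 fz2).symm
  refine ⟨z' * swap v1 v2, inv_mul_swap z' hz' fz1 fz2,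
    supp_mul_swap (hz'S.trans Finset.sdiff_subset) m1 m2, ?_, ?_⟩
  · have e : x * (z' * swap v1 v2) = x' * z' := by
      rw [ex', mul_assoc, ← mul_assoc (swap v1 v2), cz, mul_assoc, swap_mul_self, mul_one]
    rw [e]; exact ox'
  · obtain ⟨t, ht⟩ : ∃ t, z' v3 = t := ⟨_, rfl⟩
    have htv : z' t = v3 := by rw [← ht, inv_apply z' hz']
    have e : y * (z' * swap v1 v2) = y' * z' * swap t v2 * swap v2 v1 := by
      rw [ey', mul_assoc, ← mul_assoc (swap v2 v3), swap_mul_eq_mul_swap, inv_self z' hz', fz2,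
        ht, swap_comm v2 t, swap_comm v1 v2]
      simp only [mul_assoc]
    rw [e]
    refine ins _ oy' ?_ ?_ n12.symm ?_ ?_
    · rw [Perm.mul_apply, fz2, y'a]
    · rw [Perm.mul_apply, fz1, y'1]
    · intro h
      rw [h, fz2] at htv
      exact n23 htv
    · intro h
      rw [h, fz1] at htv
      exact n13 htv

/-- Two isolated edges: an `x`-edge `{a, b}` and a `y`-edge `{c, d}`. -/
theorem moveM5 {S : Finset α} {x y : Perm α} (hI : Inst S x y) (hE : ¬ Exc S x y)
    (ih : IH α x.support.card) {a b c d : α} (hab : x a = b) (nab : a ≠ b) (hya : y a = a)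
    (hyb : y b = b) (hcd : y c = d) (ncd : c ≠ d) (hxc : x c = c) (hxd : x d = d) :
    Sol S x y := by
  obtain ⟨hx, hy, hxS, hyS, hcard⟩ := hI
  have hba : x b = a := by rw [← hab, inv_apply x hx]
  have hdc : y d = c := by rw [← hcd, inv_apply y hy]
  have nac : a ≠ c := by grind
  have nad : a ≠ d := by grind
  have nbc : b ≠ c := by grind
  have nbd : b ≠ d := by grind
  obtain ⟨x', hx', ex', sx', cx', x'a, x'b, x'p⟩ := peelP x hx hab nab
  obtain ⟨y', hy', ey', sy', cy', y'c, y'd, y'p⟩ := peelP y hy hcd ncd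
  have ma : a ∈ S := hxS (by rw [Perm.mem_support, hab]; exact nab.symm)
  have mb : b ∈ S := hxS (by rw [Perm.mem_support, hba]; exact nab)
  have mc : c ∈ S := hyS (by rw [Perm.mem_support, hcd]; exact ncd.symm)
  have md : d ∈ S := hyS (by rw [Perm.mem_support, hdc]; exact ncd)
  have hx'S : x'.support ⊆ S \ {a, b, c, d} := by
    intro p hp
    rw [sx'] at hp
    simp only [Finset.mem_sdiff, Finset.mem_insert, Finset.mem_singleton, not_or,
      Perm.mem_support] at hp ⊢
    refine ⟨hxS (Perm.mem_support.mpr hp.1), hp.2.1, hp.2.2, ?_, ?_⟩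
    · rintro rfl; exact hp.1 hxc
    · rintro rfl; exact hp.1 hxd
  have hy'S : y'.support ⊆ S \ {a, b, c, d} := by
    intro p hp
    rw [sy'] at hp
    simp only [Finset.mem_sdiff, Finset.mem_insert, Finset.mem_singleton, not_or,
      Perm.mem_support] at hp ⊢
    refine ⟨hyS (Perm.mem_support.mpr hp.1), ?_, ?_, hp.2.1, hp.2.2⟩
    · rintro rfl; exact hp.1 hya
    · rintro rfl; exact hp.1 hyb
  have hI' : Inst (S \ {a, b, c, d}) x' y' := ⟨hx', hy', hx'S, hy'S, by omega⟩
  have hlt : x'.support.card < x.support.card := by omega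
  by_cases hE' : Exc (S \ {a, b, c, d}) x' y'
  · obtain ⟨c0, c1, c2, c3, hnd, hS2, g01, g23, g12, g30⟩ := hE'
    have hc : ∀ e ∈ ({c0, c1, c2, c3} : Finset α), e ≠ a ∧ e ≠ b ∧ e ≠ c ∧ e ≠ d := by
      intro e he
      rw [← hS2] at he
      simp only [Finset.mem_sdiff, Finset.mem_insert, Finset.mem_singleton, not_or] at he
      exact he.2
    refine c4case ⟨hx, hy, hxS, hyS, hcard⟩ hE ih hnd ?_ ?_ ?_ ?_
    · rw [← x'p c0 (hc c0 (by simp)).1 (hc c0 (by simp)).2.1]; exact g01
    · rw [← x'p c2 (hc c2 (by simp)).1 (hc c2 (by simp)).2.1]; exact g23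
    · rw [← y'p c1 (hc c1 (by simp)).2.2.1 (hc c1 (by simp)).2.2.2]; exact g12
    · rw [← y'p c3 (hc c3 (by simp)).2.2.1 (hc c3 (by simp)).2.2.2]; exact g30
  · obtain ⟨z', hz', hz'S, ox', oy'⟩ := ih _ x' y' hI' hlt hE'
    have fza : z' a = a := fix_of_subset hz'S (by simp)
    have fzb : z' b = b := fix_of_subset hz'S (by simp)
    have fzc : z' c = c := fix_of_subset hz'S (by simp)
    have fzd : z' d = d := fix_of_subset hz'S (by simp)
    refine ⟨z' * swap b c, inv_mul_swap z' hz' fzb fzc,
      supp_mul_swap (hz'S.trans Finset.sdiff_subset) mb mc, ?_, ?_⟩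
    · have cz : swap a b * z' = z' * swap a b := (comm_swap z' fza fzb).symm
      have e : x * (z' * swap b c) = x' * z' * swap a b * swap b c := by
        rw [ex', mul_assoc, ← mul_assoc (swap a b), cz]; simp only [mul_assoc]
      rw [e]
      refine ins _ ox' ?_ ?_ nbc nab nac
      · rw [Perm.mul_apply, fzb, x'b]
      · rw [Perm.mul_apply, fzc, x'p c (Ne.symm nac) (Ne.symm nbc)]; exact hxc
    · have cz : swap c d * z' = z' * swap c d := (comm_swap z' fzc fzd).symm
      have e : y * (z' * swap b c) = y' * z' * swap d c * swap c b := by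
        rw [ey', mul_assoc, ← mul_assoc (swap c d), cz, swap_comm c d, swap_comm b c]
        simp only [mul_assoc]
      rw [e]
      refine ins _ oy' ?_ ?_ (Ne.symm nbc) (Ne.symm ncd) (Ne.symm nbd)
      · rw [Perm.mul_apply, fzc, y'c]
      · rw [Perm.mul_apply, fzb, y'p b nbc nbd]; exact hyb

set_option maxHeartbeats 1600000 in
/-- Interior contraction: a path `u -y- v1 -x- v2 -y- v3 -x- v4 -y- w` of the union graph. -/
theorem moveM3 {S : Finset α} {x y : Perm α} (hI : Inst S x y) (ih : IH α x.support.card)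
    {u v1 v2 v3 v4 w : α} (hnd : [u, v1, v2, v3, v4, w].Nodup)
    (hu1 : y u = v1) (h12 : x v1 = v2) (h23 : y v2 = v3) (h34 : x v3 = v4) (h4w : y v4 = w) :
    Sol S x y := by
  obtain ⟨hx, hy, hxS, hyS, hcard⟩ := hI
  have hnd' := hnd
  simp only [List.nodup_cons, List.mem_cons, List.not_mem_nil, or_false, not_or, not_false_eq_true,
    List.nodup_nil, and_true] at hnd'
  obtain ⟨⟨nu1, nu2, nu3, nu4, nuw⟩, ⟨n12, n13, n14, n1w⟩, ⟨n23, n24, n2w⟩, ⟨n34, n3w⟩, n4w⟩ := hnd'
  -- peel `x` twice
  obtain ⟨x1, hx1, ex1, sx1, cx1, x1a, x1b, x1p⟩ := peelP x hx h12 n12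
  have h34' : x1 v3 = v4 := by rw [x1p v3 (Ne.symm n13) (Ne.symm n23)]; exact h34
  obtain ⟨x', hx', ex', sx', cx', x'a, x'b, x'p⟩ := peelP x1 hx1 h34' n34
  have hxe : x = x' * swap v3 v4 * swap v1 v2 := by rw [← ex']; exact ex1
  have fx1 : x' v1 = v1 := by rw [x'p v1 n13 n14]; exact x1a
  have fx2 : x' v2 = v2 := by rw [x'p v2 n23 n24]; exact x1b
  -- peel `y` three times
  obtain ⟨y1, hy1, ey1, sy1, cy1, y1a, y1b, y1p⟩ := peelP y hy hu1 nu1
  have h23' : y1 v2 = v3 := by rw [y1p v2 (Ne.symm nu2) (Ne.symm n12)]; exact h23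
  obtain ⟨y2, hy2, ey2, sy2, cy2, y2a, y2b, y2p⟩ := peelP y1 hy1 h23' n23
  have h4w' : y2 v4 = w := by
    rw [y2p v4 (Ne.symm n24) (Ne.symm n34), y1p v4 (Ne.symm nu4) (Ne.symm n14)]; exact h4w
  obtain ⟨y3, hy3, ey3, sy3, cy3, y3a, y3b, y3p⟩ := peelP y2 hy2 h4w' n4w
  have y3u : y3 u = u := by rw [y3p u nu4 nuw, y2p u nu2 nu3]; exact y1a
  have y3v1 : y3 v1 = v1 := by rw [y3p v1 n14 n1w, y2p v1 n12 n13]; exact y1b
  have y3v2 : y3 v2 = v2 := by rw [y3p v2 n24 n2w]; exact y2a
  have y3v3 : y3 v3 = v3 := by rw [y3p v3 n34 n3w]; exact y2b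
  obtain ⟨y', hy'def⟩ : ∃ y', y' = y3 * swap u w := ⟨_, rfl⟩
  have hy' : y' * y' = 1 := by rw [hy'def]; exact inv_mul_swap y3 hy3 y3u y3b
  have y3e : y3 = y' * swap u w := by rw [hy'def, mul_assoc, swap_mul_self, mul_one]
  have hye : y = y' * swap u w * swap v4 w * swap v2 v3 * swap u v1 := by
    rw [← y3e, ← ey3, ← ey2]; exact ey1
  have y'u : y' u = w := by rw [hy'def, Perm.mul_apply, swap_apply_left, y3b]
  have y'w : y' w = u := by rw [hy'def, Perm.mul_apply, swap_apply_right, y3u]
  have fy1 : y' v1 = v1 := by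
    rw [hy'def, Perm.mul_apply, swap_apply_of_ne_of_ne (Ne.symm nu1) n1w, y3v1]
  have fy2 : y' v2 = v2 := by
    rw [hy'def, Perm.mul_apply, swap_apply_of_ne_of_ne (Ne.symm nu2) n2w, y3v2]
  have fy3 : y' v3 = v3 := by
    rw [hy'def, Perm.mul_apply, swap_apply_of_ne_of_ne (Ne.symm nu3) n3w, y3v3]
  have fy4 : y' v4 = v4 := by
    rw [hy'def, Perm.mul_apply, swap_apply_of_ne_of_ne (Ne.symm nu4) n4w, y3a]
  have cy' : y'.support.card = y3.support.card + 2 := by
    rw [hy'def]
    have hd : Perm.Disjoint y3 (swap u w) := by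
      intro p
      by_cases h1 : p = u
      · left; rw [h1]; exact y3u
      · by_cases h2 : p = w
        · left; rw [h2]; exact y3b
        · right; exact swap_apply_of_ne_of_ne h1 h2
    rw [hd.card_support_mul, card_support_swap nuw]
  -- memberships
  have hv1u : y v1 = u := by rw [← hu1, inv_apply y hy]
  have hv2 : x v2 = v1 := by rw [← h12, inv_apply x hx]
  have hv4 : x v4 = v3 := by rw [← h34, inv_apply x hx]
  have hwv4 : y w = v4 := by rw [← h4w, inv_apply y hy]
  have mu : u ∈ S := hyS (by rw [Perm.mem_support, hu1]; exact Ne.symm nu1)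
  have mw : w ∈ S := hyS (by rw [Perm.mem_support, hwv4]; exact n4w)
  have m1 : v1 ∈ S := hxS (by rw [Perm.mem_support, h12]; exact Ne.symm n12)
  have m2 : v2 ∈ S := hxS (by rw [Perm.mem_support, hv2]; exact n12)
  have m3 : v3 ∈ S := hxS (by rw [Perm.mem_support, h34]; exact Ne.symm n34)
  have m4 : v4 ∈ S := hxS (by rw [Perm.mem_support, hv4]; exact n34)
  have hx'S : x'.support ⊆ S \ {v1, v2, v3, v4} := by
    intro p hp
    rw [sx', sx1] at hp
    simp only [Finset.mem_sdiff, Finset.mem_insert, Finset.mem_singleton, not_or] at hp ⊢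
    exact ⟨hxS hp.1.1, hp.1.2.1, hp.1.2.2, hp.2.1, hp.2.2⟩
  have hy'S : y'.support ⊆ S \ {v1, v2, v3, v4} := by
    intro p hp
    rw [Perm.mem_support] at hp
    simp only [Finset.mem_sdiff, Finset.mem_insert, Finset.mem_singleton, not_or]
    refine ⟨?_, ?_, ?_, ?_, ?_⟩
    · by_cases h1 : p = u
      · rw [h1]; exact mu
      · by_cases h2 : p = w
        · rw [h2]; exact mw
        · rw [hy'def, Perm.mul_apply, swap_apply_of_ne_of_ne h1 h2] at hp
          have hp3 : p ∈ y3.support := Perm.mem_support.mpr hp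
          rw [sy3, sy2, sy1] at hp3
          simp only [Finset.mem_sdiff] at hp3
          exact hyS hp3.1.1.1
    · rintro rfl; exact hp fy1
    · rintro rfl; exact hp fy2
    · rintro rfl; exact hp fy3
    · rintro rfl; exact hp fy4
  have hI' : Inst (S \ {v1, v2, v3, v4}) x' y' := ⟨hx', hy', hx'S, hy'S, by omega⟩
  have hlt : x'.support.card < x.support.card := by omega
  have h1S : (1 : Perm α).support ⊆ S := by simp
  by_cases hE' : Exc (S \ {v1, v2, v3, v4}) x' y'
  · -- the union graph is an 8-cycle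
    obtain ⟨d0, d1, d2, d3, hnd2, hS2, g01, g23, g12, g30⟩ := hE'
    have g10 : x' d1 = d0 := by rw [← g01, inv_apply x' hx']
    have g32 : x' d3 = d2 := by rw [← g23, inv_apply x' hx']
    have g21 : y' d2 = d1 := by rw [← g12, inv_apply y' hy']
    have g03 : y' d0 = d3 := by rw [← g30, inv_apply y' hy']
    have hnd2' := hnd2
    simp only [List.nodup_cons, List.mem_cons, List.not_mem_nil, or_false, not_or,
      not_false_eq_true, List.nodup_nil, and_true] at hnd2'
    have key : ∃ p q, [u, w, p, q].Nodup ∧ ({d0, d1, d2, d3} : Finset α) = {u, w, p, q} ∧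
        x' u = p ∧ x' w = q ∧ y' p = q := by
      have hu : u ∈ S \ {v1, v2, v3, v4} := by
        simp only [Finset.mem_sdiff, Finset.mem_insert, Finset.mem_singleton, not_or]
        exact ⟨mu, nu1, nu2, nu3, nu4⟩
      rw [hS2] at hu
      simp only [Finset.mem_insert, Finset.mem_singleton] at hu
      rcases hu with h | h | h | h
      · have hw : w = d3 := by rw [← y'u, h, g03]
        refine ⟨d1, d2, ?_, ?_, by rw [h]; exact g01, by rw [hw]; exact g32, g12⟩
        · rw [h, hw]
          simp only [List.nodup_cons, List.mem_cons, List.not_mem_nil, or_false, not_or,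
            not_false_eq_true, List.nodup_nil, and_true]
          grind
        · rw [h, hw]; ext e; simp only [Finset.mem_insert, Finset.mem_singleton]; tauto
      · have hw : w = d2 := by rw [← y'u, h, g12]
        refine ⟨d0, d3, ?_, ?_, by rw [h]; exact g10, by rw [hw]; exact g23, g03⟩
        · rw [h, hw]
          simp only [List.nodup_cons, List.mem_cons, List.not_mem_nil, or_false, not_or,
            not_false_eq_true, List.nodup_nil, and_true]
          grind
        · rw [h, hw]; ext e; simp only [Finset.mem_insert, Finset.mem_singleton]; tauto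
      · have hw : w = d1 := by rw [← y'u, h, g21]
        refine ⟨d3, d0, ?_, ?_, by rw [h]; exact g23, by rw [hw]; exact g10, g30⟩
        · rw [h, hw]
          simp only [List.nodup_cons, List.mem_cons, List.not_mem_nil, or_false, not_or,
            not_false_eq_true, List.nodup_nil, and_true]
          grind
        · rw [h, hw]; ext e; simp only [Finset.mem_insert, Finset.mem_singleton]; tauto
      · have hw : w = d0 := by rw [← y'u, h, g30]
        refine ⟨d2, d1, ?_, ?_, by rw [h]; exact g32, by rw [hw]; exact g01, g21⟩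
        · rw [h, hw]
          simp only [List.nodup_cons, List.mem_cons, List.not_mem_nil, or_false, not_or,
            not_false_eq_true, List.nodup_nil, and_true]
          grind
        · rw [h, hw]; ext e; simp only [Finset.mem_insert, Finset.mem_singleton]; tauto
    obtain ⟨p, q, hnd4, hS4, xu, xw, ypq⟩ := key
    have hS5 : S \ {v1, v2, v3, v4} = {u, w, p, q} := hS2.trans hS4
    have hnd4' := hnd4
    simp only [List.nodup_cons, List.mem_cons, List.not_mem_nil, or_false, not_or,
      not_false_eq_true, List.nodup_nil, and_true] at hnd4'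
    have hx4 : x' = swap u p * swap w q := by
      refine inv_four x' hx' ?_ ?_ xu xw
      · simp only [List.nodup_cons, List.mem_cons, List.not_mem_nil, or_false, not_or,
          not_false_eq_true, List.nodup_nil, and_true]
        grind
      · intro e he
        have := hx'S he
        rw [hS5] at this
        simp only [Finset.mem_insert, Finset.mem_singleton] at this ⊢
        tauto
    have hy4 : y' = swap u w * swap p q := by
      refine inv_four y' hy' hnd4 ?_ y'u ypq
      rw [← hS5]; exact hy'S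
    have hpq : ∀ e ∈ ({u, w, p, q} : Finset α), e ∈ S ∧ e ≠ v1 ∧ e ≠ v2 ∧ e ≠ v3 ∧ e ≠ v4 := by
      intro e he
      rw [← hS5] at he
      simpa only [Finset.mem_sdiff, Finset.mem_insert, Finset.mem_singleton, not_or] using he
    have hp := hpq p (by simp)
    have hq := hpq q (by simp)
    have hnd8 : [u, v1, v2, v3, v4, w, q, p].Nodup := by
      simp only [List.nodup_cons, List.mem_cons, List.not_mem_nil, or_false, not_or,
        not_false_eq_true, List.nodup_nil, and_true]
      grind
    obtain ⟨hz, ox, oy⟩ := sp8b hnd8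
    refine ⟨swap u v1 * swap v2 v4 * swap v3 p * swap w q, hz, ?_, ?_, ?_⟩
    · have e : ((1 : Perm α) * swap u v1 * swap v2 v4 * swap v3 p * swap w q)
          = swap u v1 * swap v2 v4 * swap v3 p * swap w q := by rw [one_mul]
      rw [← e]
      exact supp_mul_swap (supp_mul_swap (supp_mul_swap (supp_mul_swap h1S mu m1) m2 m4) m3 hp.1)
        mw hq.1
    · rw [hxe, hx4]; exact ox
    · rw [hye, hy4]; exact oy
  · obtain ⟨z', hz', hz'S, ox', oy'⟩ := ih _ x' y' hI' hlt hE'
    have fz1 : z' v1 = v1 := fix_of_subset hz'S (by simp)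
    have fz2 : z' v2 = v2 := fix_of_subset hz'S (by simp)
    have fz3 : z' v3 = v3 := fix_of_subset hz'S (by simp)
    have fz4 : z' v4 = v4 := fix_of_subset hz'S (by simp)
    have c34 : swap v3 v4 * z' = z' * swap v3 v4 := (comm_swap z' fz3 fz4).symm
    have c12 : swap v1 v2 * z' = z' * swap v1 v2 := (comm_swap z' fz1 fz2).symm
    refine ⟨z' * swap v3 v4 * swap v1 v2, ?_, ?_, ?_, ?_⟩
    · refine inv_mul_swap _ (inv_mul_swap _ hz' fz3 fz4) ?_ ?_
      · rw [Perm.mul_apply, swap_apply_of_ne_of_ne n13 n14, fz1]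
      · rw [Perm.mul_apply, swap_apply_of_ne_of_ne n23 n24, fz2]
    · exact supp_mul_swap (supp_mul_swap (hz'S.trans Finset.sdiff_subset) m3 m4) m1 m2
    · have e : x * (z' * swap v3 v4 * swap v1 v2) = x' * z' := by
        have hnd4 : [v1, v2, v3, v4].Nodup := by
          simp only [List.nodup_cons, List.mem_cons, List.not_mem_nil, or_false, not_or,
            not_false_eq_true, List.nodup_nil, and_true]
          exact ⟨⟨n12, n13, n14⟩, ⟨n23, n24⟩, n34⟩
        calc x * (z' * swap v3 v4 * swap v1 v2)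
            = x' * (swap v3 v4 * (swap v1 v2 * z')) * swap v3 v4 * swap v1 v2 := by
              rw [hxe]; simp only [mul_assoc]
          _ = x' * z' * (swap v3 v4 * swap v1 v2 * swap v3 v4 * swap v1 v2) := by
              rw [c12, ← mul_assoc (swap v3 v4), c34]; simp only [mul_assoc]
          _ = x' * z' := by rw [ident4 hnd4, mul_one]
      rw [e]; exact ox'
    · obtain ⟨U, hU⟩ : ∃ U, z' u = U := ⟨_, rfl⟩
      obtain ⟨W, hW⟩ : ∃ W, z' w = W := ⟨_, rfl⟩
      have hUu : z' U = u := by rw [← hU, inv_apply z' hz']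
      have hWw : z' W = w := by rw [← hW, inv_apply z' hz']
      have c1 : swap u v1 * z' = z' * swap U v1 := by
        rw [swap_mul_eq_mul_swap, inv_self z' hz', hU, fz1]
      have c2 : swap v2 v3 * z' = z' * swap v2 v3 := (comm_swap z' fz2 fz3).symm
      have c3 : swap v4 w * z' = z' * swap v4 W := by
        rw [swap_mul_eq_mul_swap, inv_self z' hz', hW, fz4]
      have c4 : swap u w * z' = z' * swap U W := by
        rw [swap_mul_eq_mul_swap, inv_self z' hz', hU, hW]
      have hndU : [U, W, v1, v2, v3, v4].Nodup := by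
        simp only [List.nodup_cons, List.mem_cons, List.not_mem_nil, or_false, not_or,
          not_false_eq_true, List.nodup_nil, and_true]
        grind
      have hndU' := hndU
      simp only [List.nodup_cons, List.mem_cons, List.not_mem_nil, or_false, not_or,
        not_false_eq_true, List.nodup_nil, and_true] at hndU'
      obtain ⟨⟨nUW, nU1, nU2, nU3, nU4⟩, ⟨nW1, nW2, nW3, nW4⟩, -⟩ := hndU'
      have e : y * (z' * swap v3 v4 * swap v1 v2)
          = y' * z' * swap W v4 * swap v4 v2 * swap U v1 * swap v1 v3 := by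
        calc y * (z' * swap v3 v4 * swap v1 v2)
            = y' * (swap u w * (swap v4 w * (swap v2 v3 * (swap u v1 * z')))) * swap v3 v4
                * swap v1 v2 := by rw [hye]; simp only [mul_assoc]
          _ = y' * z' * (swap U W * swap v4 W * swap v2 v3 * swap U v1 * swap v3 v4
                * swap v1 v2) := by
              rw [c1, ← mul_assoc (swap v2 v3), c2, mul_assoc z', ← mul_assoc (swap v4 w), c3,
                mul_assoc z', ← mul_assoc (swap u w), c4]
              simp only [mul_assoc]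
          _ = y' * z' * swap W v4 * swap v4 v2 * swap U v1 * swap v1 v3 := by
              rw [identM3 hndU]; simp only [mul_assoc]
      rw [e]
      refine ins _ (ins _ oy' ?_ ?_ (Ne.symm n24) nW4 nW2) ?_ ?_ n13 nU1 nU3
      · rw [Perm.mul_apply, fz4, fy4]
      · rw [Perm.mul_apply, fz2, fy2]
      · simp only [Perm.mul_apply]; grind
      · simp only [Perm.mul_apply]; grind

end Cfsg.Agent.Lib.Helper93.OddG
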