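import Cfsg.Agent.Lib.Helper93.OddD

/-!
# Odd-product involution graphs: main induction (helper93)

`exists_sol` : every non-exceptional instance has a solution.
`exists_common` : in `Sym(n)`, `n ≥ 5`, two involutions with supports of the same size have a
common "odd-product neighbour" `z` (an involution with `x * z`, `y * z` of odd order).
`conj_of_odd` : involutions with odd-order product are conjugate.
-/

namespace Cfsg.Agent.Lib.Helper93.OddG

open Equiv Equiv.Perm

variable {α : Type*} [DecidableEq α] [Fintype α]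

set_option maxHeartbeats 800000 in
theorem step {S : Finset α} {x y : Perm α} (hI : Inst S x y) (hE : ¬ Exc S x y)
    (ih : IH α x.support.card) : Sol S x y := by
  obtain ⟨hx, hy, hxS, hyS, hcard⟩ := id hI
  by_cases hx1 : x = 1
  · have hy1 : y = 1 := by
      rw [← Perm.card_support_eq_zero, ← hcard, hx1]; simp
    refine ⟨1, one_mul 1, by simp, ?_, ?_⟩
    · rw [hx1]; simp
    · rw [hy1]; simp
  by_cases hboth : ∃ v, x v ≠ v ∧ y v ≠ v
  · obtain ⟨v1, hxv, hyv⟩ := hboth
    obtain ⟨v2, h12⟩ : ∃ v2, x v1 = v2 := ⟨_, rfl⟩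
    have n12 : v1 ≠ v2 := by rw [← h12]; exact Ne.symm hxv
    have h21 : x v2 = v1 := by rw [← h12, inv_apply x hx]
    by_cases hc : y v1 = v2
    · exact moveM2 hI hE ih n12 h12 hc
    obtain ⟨v3, h23⟩ : ∃ v3, y v2 = v3 := ⟨_, rfl⟩
    by_cases e23 : v3 = v2
    · rw [e23] at h23
      exact moveM4 hI ih h21 (Ne.symm n12) h23 rfl (Ne.symm hyv)
    have n23 : v2 ≠ v3 := Ne.symm e23
    have h32 : y v3 = v2 := by rw [← h23, inv_apply y hy]
    have n13 : v1 ≠ v3 := by
      intro h
      apply hc
      rw [h, h32]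
    obtain ⟨v4, h34⟩ : ∃ v4, x v3 = v4 := ⟨_, rfl⟩
    by_cases e34 : v4 = v3
    · rw [e34] at h34
      exact (moveM4 hI.symm (hcard ▸ ih) h32 (Ne.symm n23) h34 h21 (Ne.symm n12)).symm
    have n34 : v3 ≠ v4 := Ne.symm e34
    have h43 : x v4 = v3 := by rw [← h34, inv_apply x hx]
    have n14 : v1 ≠ v4 := by
      intro h
      apply n23
      rw [← h12, h, h43]
    have n24 : v2 ≠ v4 := by
      intro h
      apply n13
      rw [← h21, h, h43]
    obtain ⟨w, h4w⟩ : ∃ w, y v4 = w := ⟨_, rfl⟩
    by_cases e4w : w = v4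
    · rw [e4w] at h4w
      exact moveM4 hI ih h43 (Ne.symm n34) h4w h32 (Ne.symm n23)
    have n4w : v4 ≠ w := Ne.symm e4w
    have hw4 : y w = v4 := by rw [← h4w, inv_apply y hy]
    by_cases ew1 : w = v1
    · rw [ew1] at h4w
      refine c4case hI hE ih (c0 := v1) (c1 := v2) (c2 := v3) (c3 := v4) ?_ h12 h34 h23 h4w
      simp only [List.nodup_cons, List.mem_cons, List.not_mem_nil, or_false, not_or,
        not_false_eq_true, List.nodup_nil, and_true]
      exact ⟨⟨n12, n13, n14⟩, ⟨n23, n24⟩, n34⟩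
    obtain ⟨u, hu⟩ : ∃ u, y v1 = u := ⟨_, rfl⟩
    have hu1 : y u = v1 := by rw [← hu, inv_apply y hy]
    refine moveM3 hI ih (u := u) (v1 := v1) (v2 := v2) (v3 := v3) (v4 := v4) (w := w) ?_ hu1 h12
      h23 h34 h4w
    simp only [List.nodup_cons, List.mem_cons, List.not_mem_nil, or_false, not_or,
      not_false_eq_true, List.nodup_nil, and_true]
    refine ⟨⟨?_, ?_, ?_, ?_, ?_⟩, ⟨n12, n13, n14, Ne.symm ew1⟩, ⟨n23, n24, ?_⟩, ⟨n34, ?_⟩, n4w⟩
    · intro h; apply hyv; rw [hu, h]
    · intro h; exact hc (hu.trans h)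
    · intro h
      -- y v1 = u = v3 = y v2
      apply n12
      have : y v1 = y v2 := by rw [hu, h23, h]
      exact y.injective this
    · intro h
      -- u = v4, so y v4 = v1 = w
      apply ew1
      rw [← h4w, ← h, hu1]
    · intro h
      -- u = w : y v1 = y v4
      apply n14
      have : y v1 = y v4 := by rw [hu, h4w, h]
      exact y.injective this
    · intro h
      -- v2 = w = y v4, so v4 = y v2 = v3
      apply n34
      rw [← hw4, ← h, h23]
    · intro h
      -- v3 = w = y v4, so v4 = y v3 = v2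
      apply n24
      rw [← hw4, ← h, h32]
  · push Not at hboth
    obtain ⟨a, ha⟩ : ∃ a, x a ≠ a := by
      by_contra h
      push Not at h
      exact hx1 (Perm.ext h)
    have hy1 : y ≠ 1 := by
      intro h
      rw [h] at hcard
      simp only [Perm.support_one, Finset.card_empty, Finset.card_eq_zero,
        Perm.support_eq_empty_iff] at hcard
      exact hx1 hcard
    obtain ⟨c, hc⟩ : ∃ c, y c ≠ c := by
      by_contra h
      push Not at h
      exact hy1 (Perm.ext h)
    obtain ⟨b, hab⟩ : ∃ b, x a = b := ⟨_, rfl⟩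
    obtain ⟨d, hcd⟩ : ∃ d, y c = d := ⟨_, rfl⟩
    have hba : x b = a := by rw [← hab, inv_apply x hx]
    have hdc : y d = c := by rw [← hcd, inv_apply y hy]
    have nab : a ≠ b := by rw [← hab]; exact Ne.symm ha
    have ncd : c ≠ d := by rw [← hcd]; exact Ne.symm hc
    have hxb : x b ≠ b := by rw [hba]; exact nab
    have hyd : y d ≠ d := by rw [hdc]; exact ncd
    have hxc : x c = c := by
      by_contra h
      exact hc (hboth c h)
    have hxd : x d = d := by
      by_contra h
      exact hyd (hboth d h)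
    exact moveM5 hI hE ih hab nab (hboth a ha) (hboth b hxb) hcd ncd hxc hxd

theorem all_IH (α : Type*) [DecidableEq α] [Fintype α] : ∀ n : ℕ, IH α n := by
  intro n
  induction n with
  | zero =>
    intro S x y _ h
    exact absurd h (Nat.not_lt_zero _)
  | succ n ih =>
    intro S x y hI hlt hE
    by_cases h : x.support.card < n
    · exact ih S x y hI h hE
    · have hn : x.support.card = n := by omega
      exact step hI hE (hn ▸ ih)

theorem exists_sol {S : Finset α} {x y : Perm α} (hI : Inst S x y) (hE : ¬ Exc S x y) :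
    Sol S x y :=
  all_IH α _ S x y hI (Nat.lt_succ_self _) hE

/-- In `Sym(n)`, `n ≥ 5`: two involutions (or identities) whose supports have the same size have
a common odd-product neighbour. -/
theorem exists_common {n : ℕ} (hn : 5 ≤ n) (x y : Perm (Fin n)) (hx : x * x = 1) (hy : y * y = 1)
    (hc : x.support.card = y.support.card) :
    ∃ z : Perm (Fin n), z * z = 1 ∧ Odd (orderOf (x * z)) ∧ Odd (orderOf (y * z)) := by
  have hI : Inst Finset.univ x y := ⟨hx, hy, Finset.subset_univ _, Finset.subset_univ _, hc⟩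
  have hE : ¬ Exc Finset.univ x y := by
    rintro ⟨c0, c1, c2, c3, hnd, hS, -⟩
    have h4 : (Finset.univ : Finset (Fin n)).card ≤ 4 := by
      rw [hS]; exact Finset.card_le_four
    rw [Finset.card_univ, Fintype.card_fin] at h4
    omega
  obtain ⟨z, hz, -, h1, h2⟩ := exists_sol hI hE
  exact ⟨z, hz, h1, h2⟩

/-- Two involutions with a product of odd order are conjugate. -/
theorem conj_of_odd {G : Type*} [Group G] {x z : G} (hx : x * x = 1) (hz : z * z = 1)
    (h : Odd (orderOf (x * z))) : IsConj x z := by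
  obtain ⟨j, hj⟩ := h
  have hr : (x * z) ^ (2 * j + 1) = 1 := by rw [← hj]; exact pow_orderOf_eq_one _
  have hs : (z * x) * (x * z) = 1 := by rw [mul_assoc, ← mul_assoc x, hx, one_mul, hz]
  have hsinv : z * x = (x * z)⁻¹ := eq_inv_of_mul_eq_one_left hs
  have hxinv : x⁻¹ = x := inv_eq_of_mul_eq_one_left hx
  have e1 : x * (x * z) * x⁻¹ = (x * z)⁻¹ := by
    rw [← hsinv, hxinv, ← mul_assoc, hx, one_mul]
  have e2 : x * (x * z) ^ j * x = ((x * z) ^ j)⁻¹ := by
    have := conj_pow (a := x) (b := x * z) (i := j)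
    rw [e1, inv_pow, hxinv] at this
    exact this.symm
  refine isConj_iff.mpr ⟨(x * z) ^ j, ?_⟩
  rw [← e2]
  have e3 : (x * z) ^ j * x * (x * (x * z) ^ j * x) = (x * z) ^ (2 * j) * x := by
    rw [two_mul, pow_add]
    simp only [mul_assoc]
    rw [← mul_assoc x x, hx, one_mul]
  rw [e3]
  have h2 : (x * z) ^ (2 * j) = (x * z)⁻¹ :=
    eq_inv_of_mul_eq_one_left (by rw [← pow_succ]; exact hr)
  rw [h2, ← hsinv, mul_assoc, hx, mul_one]

end Cfsg.Agent.Lib.Helper93.OddG
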