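import Cfsg.Agent.Lib.Helper93.OddE

/-!
# Odd-product involution graphs: statements for a conjugacy class of involutions (helper93)
-/

namespace Cfsg.Agent.Lib.Helper93.OddG

open Equiv Equiv.Perm

section fin

variable {α : Type*} [DecidableEq α]

theorem fourcyc_fin (f : Fin 4 → α) (hf : Function.Injective f) :
    ((swap (f 2) (f 3) * swap (f 0) (f 1) * swap (f 0) (f 2)) *
        (swap (f 2) (f 3) * swap (f 0) (f 1) * swap (f 0) (f 2))) *
      ((swap (f 2) (f 3) * swap (f 0) (f 1) * swap (f 0) (f 2)) *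
        (swap (f 2) (f 3) * swap (f 0) (f 1) * swap (f 0) (f 2))) = 1 ∧
    (swap (f 2) (f 3) * swap (f 0) (f 1) * swap (f 0) (f 2)) *
        (swap (f 2) (f 3) * swap (f 0) (f 1) * swap (f 0) (f 2)) ≠ 1 := by
  have h := via_swap (⟨f, hf⟩ : Fin 4 ↪ α)
  simp only [Function.Embedding.coeFn_mk] at h
  simp only [← h, ← map_mul]
  refine ⟨?_, ?_⟩
  · refine (congrArg _ (?_ : _ = (1 : Perm (Fin 4)))).trans (map_one _)
    decide +kernel
  · rw [← map_one (viaEmbeddingHom (⟨f, hf⟩ : Fin 4 ↪ α))]
    intro hcon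
    exact absurd (viaEmbeddingHom_injective _ hcon) (by decide +kernel)

/-- points `[p, p', q, q']` -/
theorem fourcyc {p p' q q' : α} (h : [p, p', q, q'].Nodup) :
    ((swap q q' * swap p p' * swap p q) * (swap q q' * swap p p' * swap p q)) *
      ((swap q q' * swap p p' * swap p q) * (swap q q' * swap p p' * swap p q)) = 1 ∧
    (swap q q' * swap p p' * swap p q) * (swap q q' * swap p p' * swap p q) ≠ 1 := by
  have hf : Function.Injective ![p, p', q, q'] := by
    rw [← List.nodup_ofFn]; simpa using h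
  simpa using fourcyc_fin _ hf

theorem twoswap_fin (f : Fin 4 → α) (hf : Function.Injective f) :
    (swap (f 0) (f 1) * swap (f 2) (f 3)) * (swap (f 0) (f 1) * swap (f 2) (f 3)) = 1 ∧
    swap (f 0) (f 1) * swap (f 2) (f 3) ≠ 1 := by
  have h := via_swap (⟨f, hf⟩ : Fin 4 ↪ α)
  simp only [Function.Embedding.coeFn_mk] at h
  simp only [← h, ← map_mul]
  refine ⟨?_, ?_⟩
  · refine (congrArg _ (?_ : _ = (1 : Perm (Fin 4)))).trans (map_one _)
    decide +kernel
  · rw [← map_one (viaEmbeddingHom (⟨f, hf⟩ : Fin 4 ↪ α))]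
    intro hcon
    exact absurd (viaEmbeddingHom_injective _ hcon) (by decide +kernel)

/-- points `[p, p', c, d]` -/
theorem twoswap {p p' c d : α} (h : [p, p', c, d].Nodup) :
    (swap p p' * swap c d) * (swap p p' * swap c d) = 1 ∧ swap p p' * swap c d ≠ 1 := by
  have hf : Function.Injective ![p, p', c, d] := by
    rw [← List.nodup_ofFn]; simpa using h
  simpa using twoswap_fin _ hf

end fin

theorem order_two_of {G : Type*} [Group G] {g : G} (h1 : g * g = 1) (h2 : g ≠ 1) :
    orderOf g = 2 :=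
  orderOf_eq_prime (by rw [pow_two, h1]) h2

/-- Data of a conjugate of an involution `t`. -/
theorem conj_data {n : ℕ} {t a : Perm (Fin n)} (htt : t * t = 1) (ha : IsConj t a) :
    a * a = 1 ∧ a.support.card = t.support.card := by
  obtain ⟨c, rfl⟩ := isConj_iff.mp ha
  refine ⟨?_, card_support_conj⟩
  calc c * t * c⁻¹ * (c * t * c⁻¹) = c * (t * t) * c⁻¹ := by group
    _ = 1 := by rw [htt]; group

/-- Any two members of a class of involutions of `Sym(n)`, `n ≥ 5`, have a common neighbour in
the odd-product graph (possibly equal to one of them). -/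
theorem exists_common_conj {n : ℕ} (hn : 5 ≤ n) (t : Perm (Fin n)) (ht : orderOf t = 2)
    (a b : Perm (Fin n)) (ha : IsConj t a) (hb : IsConj t b) :
    ∃ z, IsConj t z ∧ Odd (orderOf (a * z)) ∧ Odd (orderOf (b * z)) := by
  have htt : t * t = 1 := by rw [← pow_two, ← ht]; exact pow_orderOf_eq_one t
  obtain ⟨haa, hac⟩ := conj_data htt ha
  obtain ⟨hbb, hbc⟩ := conj_data htt hb
  obtain ⟨z, hz, h1, h2⟩ := exists_common hn a b haa hbb (hac.trans hbc.symm)
  exact ⟨z, ha.trans (conj_of_odd haa hz h1), h1, h2⟩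

/-- A class of involutions of `Sym(n)`, `n ≥ 5`, contains two distinct commuting members: their
product has order 2. -/
theorem exists_comm_conj {n : ℕ} (hn : 5 ≤ n) (t : Perm (Fin n)) (ht : orderOf t = 2) :
    ∃ t' : Perm (Fin n), IsConj t t' ∧ t' ≠ t ∧ orderOf (t * t') = 2 ∧ orderOf (t' * t) = 2 := by
  have htt : t * t = 1 := by rw [← pow_two, ← ht]; exact pow_orderOf_eq_one t
  have ht1 : t ≠ 1 := by
    intro h; rw [h, orderOf_one] at ht; exact absurd ht (by decide)
  obtain ⟨p, hp⟩ : ∃ p, t p ≠ p := by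
    by_contra h
    push Not at h
    exact ht1 (Perm.ext h)
  obtain ⟨p', hpp'⟩ : ∃ p', t p = p' := ⟨_, rfl⟩
  have npp' : p ≠ p' := by rw [← hpp']; exact Ne.symm hp
  have hp'p : t p' = p := by rw [← hpp', inv_apply t htt]
  -- it suffices to produce a conjugate `t'` with `t * t'` an involution
  have fin : ∀ t' : Perm (Fin n), IsConj t t' → (t * t') * (t * t') = 1 → t * t' ≠ 1 →
      ∃ t' : Perm (Fin n), IsConj t t' ∧ t' ≠ t ∧ orderOf (t * t') = 2 ∧ orderOf (t' * t) = 2 := by
    intro t' hc h1 h2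
    have ht't' : t' * t' = 1 := (conj_data htt hc).1
    refine ⟨t', hc, ?_, order_two_of h1 h2, ?_⟩
    · rintro rfl; exact h2 htt
    · have e : t' * t = (t * t')⁻¹ := by
        rw [mul_inv_rev, inv_self t htt, inv_self t' ht't']
      rw [e, orderOf_inv]; exact order_two_of h1 h2
  by_cases hq : ∃ q, t q ≠ q ∧ q ≠ p ∧ q ≠ p'
  · obtain ⟨q, hq, nqp, nqp'⟩ := hq
    obtain ⟨q', hqq'⟩ : ∃ q', t q = q' := ⟨_, rfl⟩
    have nqq' : q ≠ q' := by rw [← hqq']; exact Ne.symm hq
    have hq'q : t q' = q := by rw [← hqq', inv_apply t htt]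
    have nq'p : q' ≠ p := by
      intro h; apply nqp'; rw [← hpp', ← h, hq'q]
    have nq'p' : q' ≠ p' := by
      intro h; apply nqp; rw [← hq'q, h, hp'p]
    have hnd : [p, p', q, q'].Nodup := by
      simp only [List.nodup_cons, List.mem_cons, List.not_mem_nil, or_false, not_or,
        not_false_eq_true, List.nodup_nil, and_true]
      exact ⟨⟨npp', Ne.symm nqp, Ne.symm nq'p⟩, ⟨Ne.symm nqp', Ne.symm nq'p'⟩, nqq'⟩
    obtain ⟨t1, ht1', et1, st1, ct1, t1a, t1b, t1p⟩ := peelP t htt hpp' npp'
    have hqq'1 : t1 q = q' := by rw [t1p q nqp nqp']; exact hqq'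
    obtain ⟨t2, ht2, et2, st2, ct2, t2a, t2b, t2p⟩ := peelP t1 ht1' hqq'1 nqq'
    have t2p1 : t2 p = p := by rw [t2p p (Ne.symm nqp) (Ne.symm nq'p)]; exact t1a
    have t2p2 : t2 p' = p' := by rw [t2p p' (Ne.symm nqp') (Ne.symm nq'p')]; exact t1b
    have hte : t = t2 * swap q q' * swap p p' := by rw [← et2]; exact et1
    obtain ⟨B, hB⟩ : ∃ B, B = swap q q' * swap p p' * swap p q := ⟨_, rfl⟩
    have hcomm : B * t2 = t2 * B := by
      rw [hB]
      have c1 : swap q q' * t2 = t2 * swap q q' := (comm_swap t2 t2a t2b).symm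
      have c2 : swap p p' * t2 = t2 * swap p p' := (comm_swap t2 t2p1 t2p2).symm
      have c3 : swap p q * t2 = t2 * swap p q := (comm_swap t2 t2p1 t2a).symm
      calc swap q q' * swap p p' * swap p q * t2
          = swap q q' * (swap p p' * (swap p q * t2)) := by simp only [mul_assoc]
        _ = swap q q' * ((swap p p' * t2) * swap p q) := by rw [c3, mul_assoc]
        _ = (swap q q' * t2) * swap p p' * swap p q := by rw [c2]; simp only [mul_assoc]
        _ = t2 * (swap q q' * swap p p' * swap p q) := by rw [c1]; simp only [mul_assoc]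
    have e : t * (swap p q * t * swap p q) = B * B := by
      have e1 : t * swap p q = t2 * B := by rw [hte, hB]; simp only [mul_assoc]
      calc t * (swap p q * t * swap p q) = (t * swap p q) * (t * swap p q) := by
            simp only [mul_assoc]
        _ = t2 * (B * t2) * B := by rw [e1]; simp only [mul_assoc]
        _ = (t2 * t2) * (B * B) := by rw [hcomm]; simp only [mul_assoc]
        _ = B * B := by rw [ht2, one_mul]
    obtain ⟨f1, f2⟩ := fourcyc hnd
    rw [← hB] at f1 f2
    refine fin (swap p q * t * swap p q) ?_ ?_ ?_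
    · exact isConj_iff.mpr ⟨swap p q, by rw [swap_inv]⟩
    · rw [e]; exact f1
    · rw [e]; exact f2
  · -- `t` is a transposition
    push Not at hq
    have hts : t = swap p p' := by
      ext e
      by_cases h1 : e = p
      · rw [h1, swap_apply_left, hpp']
      · by_cases h2 : e = p'
        · rw [h2, swap_apply_right, hp'p]
        · rw [swap_apply_of_ne_of_ne h1 h2]
          by_contra h3
          exact h2 (hq e (fun h => h3 (by rw [h])) h1)
    have hcard : 1 < (Finset.univ \ ({p, p'} : Finset (Fin n))).card := by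
      rw [Finset.card_sdiff_of_subset (Finset.subset_univ _), Finset.card_univ, Fintype.card_fin,
        Finset.card_pair npp']
      omega
    obtain ⟨c, hc, d, hd, ncd⟩ := Finset.one_lt_card.mp hcard
    simp only [Finset.mem_sdiff, Finset.mem_univ, Finset.mem_insert, Finset.mem_singleton,
      true_and, not_or] at hc hd
    have hnd : [p, p', c, d].Nodup := by
      simp only [List.nodup_cons, List.mem_cons, List.not_mem_nil, or_false, not_or,
        not_false_eq_true, List.nodup_nil, and_true]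
      exact ⟨⟨npp', Ne.symm hc.1, Ne.symm hd.1⟩, ⟨Ne.symm hc.2, Ne.symm hd.2⟩, ncd⟩
    obtain ⟨f1, f2⟩ := twoswap hnd
    refine fin (swap c d) ?_ ?_ ?_
    · rw [hts]; exact isConj_swap npp' ncd
    · rw [hts]; exact f1
    · rw [hts]; exact f2

end Cfsg.Agent.Lib.Helper93.OddG
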