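import Mathlib

/-!
Pattern counts for multiply transitive actions: for a `k`-transitive action of a finite
group `G` on `Ω` and a permutation `π` of `Fin k`, the number of pairs `(g, x)` with
`x : Fin k ↪ Ω` and `g • x i = x (π i)` is `|G|`.
-/

set_option autoImplicit false

namespace Cfsg.Agent.Lib.Helper93.SCh

open MulAction

section defs

variable {G : Type*} [Group G] (Ω : Type*) [MulAction G Ω]

/-- number of fixed points -/
noncomputable def fx (g : G) : ℕ := Nat.card {a : Ω // g • a = a}

/-- number of ordered pairs swapped by `g` -/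
noncomputable def sw (g : G) : ℕ :=
  Nat.card {p : Ω × Ω // g • p.1 = p.2 ∧ g • p.2 = p.1 ∧ p.1 ≠ p.2}

/-- pattern count -/
noncomputable def pc {k : ℕ} (π : Equiv.Perm (Fin k)) (g : G) : ℕ :=
  Nat.card {x : Fin k ↪ Ω // ∀ i, g • x i = x (π i)}

end defs

section moment

variable {G : Type*} [Group G] [Fintype G]

theorem sum_card_eq {X : Type*} [Finite X] [MulAction G X] [IsPretransitive G X] [Nonempty X]
    (φ : X → X) :
    ∑ g : G, Nat.card {x : X // g • x = φ x} = Nat.card G := by
  classical
  have := Fintype.ofFinite X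
  have h1 : ∀ x : X, Nat.card {g : G // g • x = φ x} * Nat.card X = Nat.card G := by
    intro x
    obtain ⟨g₀, hg₀⟩ := exists_smul_eq G x (φ x)
    have e : {g : G // g • x = φ x} ≃ stabilizer G x :=
      { toFun := fun g => ⟨g₀⁻¹ * g.1, by
          rw [mem_stabilizer_iff, mul_smul, g.2, ← hg₀, inv_smul_smul]⟩
        invFun := fun s => ⟨g₀ * s.1, by
          have := s.2
          rw [mem_stabilizer_iff] at this
          rw [mul_smul, this, hg₀]⟩
        left_inv := fun g => by simp
        right_inv := fun s => by simp }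
    rw [Nat.card_congr e, ← index_stabilizer_of_transitive G x, Subgroup.card_mul_index]
  have h2 : ∑ g : G, Nat.card {x : X // g • x = φ x} =
      ∑ x : X, Nat.card {g : G // g • x = φ x} := by
    simp only [Nat.card_eq_fintype_card, Fintype.card_subtype]
    exact Finset.sum_card_bipartiteAbove_eq_sum_card_bipartiteBelow (fun g x => g • x = φ x)
  have h3 : (∑ x : X, Nat.card {g : G // g • x = φ x}) * Nat.card X =
      Nat.card G * Nat.card X := by
    rw [Finset.sum_mul, Finset.sum_congr rfl (fun x _ => h1 x)]
    simp [Nat.card_eq_fintype_card, mul_comm]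
  have hX : 0 < Nat.card X := Nat.card_pos
  rw [h2]
  exact Nat.eq_of_mul_eq_mul_right hX h3

variable {Ω : Type*} [Finite Ω] [MulAction G Ω]

theorem sum_pc {k : ℕ} (hk : k ≤ Nat.card Ω) [IsMultiplyPretransitive G Ω k]
    (π : Equiv.Perm (Fin k)) :
    ∑ g : G, pc Ω π g = Nat.card G := by
  classical
  have := Fintype.ofFinite Ω
  have : Nonempty (Fin k ↪ Ω) := by
    apply Function.Embedding.nonempty_of_card_le
    simpa [Nat.card_eq_fintype_card] using hk
  have := sum_card_eq (G := G) (X := Fin k ↪ Ω) (fun x => π.toEmbedding.trans x)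
  rw [← this]
  refine Finset.sum_congr rfl (fun g _ => ?_)
  unfold pc
  apply Nat.card_congr
  apply Equiv.subtypeEquivRight
  intro x
  constructor
  · intro h
    ext i
    simpa using h i
  · intro h i
    have := congrArg (fun y : Fin k ↪ Ω => y i) h
    simpa using this

end moment

end Cfsg.Agent.Lib.Helper93.SCh
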