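import Mathlib
import Cfsg.Agent.Lib.Helper93.SChA

/-!
Pattern counts as polynomials in the number of fixed points and of swapped pairs.
-/

set_option autoImplicit false

namespace Cfsg.Agent.Lib.Helper93.SCh

open MulAction

variable {G : Type*} [Group G] {Ω : Type*} [MulAction G Ω]

/-- identity pattern: falling factorial of the number of fixed points -/
theorem pc_one [Finite Ω] (k : ℕ) (g : G) :
    pc Ω (1 : Equiv.Perm (Fin k)) g = (fx Ω g).descFactorial k := by
  classical
  have := Fintype.ofFinite Ω
  unfold pc fx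
  have e : {x : Fin k ↪ Ω // ∀ i, g • x i = x ((1 : Equiv.Perm (Fin k)) i)} ≃
      (Fin k ↪ {a : Ω // g • a = a}) :=
    { toFun := fun x => ⟨fun i => ⟨x.1 i, by simpa using x.2 i⟩, fun i j h => by
        have := congrArg Subtype.val h
        exact x.1.injective this⟩
      invFun := fun y => ⟨y.trans (Function.Embedding.subtype _), fun i => by
        simpa using (y i).2⟩
      left_inv := fun x => by ext i; rfl
      right_inv := fun y => by ext i; rfl }
  rw [Nat.card_congr e, Nat.card_eq_fintype_card, Fintype.card_embedding_eq,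
    Nat.card_eq_fintype_card, Fintype.card_fin]

/-- an embedding of `Fin 2` from two distinct points -/
def emb2 (a b : Ω) (h : a ≠ b) : Fin 2 ↪ Ω :=
  ⟨![a, b], by
    intro i j hij
    fin_cases i <;> fin_cases j <;> simp_all⟩

/-- an embedding of `Fin 3` from three distinct points -/
def emb3 (a b c : Ω) (hab : a ≠ b) (hac : a ≠ c) (hbc : b ≠ c) : Fin 3 ↪ Ω :=
  ⟨![a, b, c], by
    intro i j hij
    fin_cases i <;> fin_cases j <;> simp_all⟩

/-- an embedding of `Fin 4` from four distinct points -/
def emb4 (a b c d : Ω) (hab : a ≠ b) (hac : a ≠ c) (had : a ≠ d) (hbc : b ≠ c) (hbd : b ≠ d)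
    (hcd : c ≠ d) : Fin 4 ↪ Ω :=
  ⟨![a, b, c, d], by
    intro i j hij
    fin_cases i <;> fin_cases j <;> simp_all⟩

/-- the type of swapped pairs -/
abbrev SwT (Ω : Type*) [MulAction G Ω] (g : G) : Type _ :=
  {p : Ω × Ω // g • p.1 = p.2 ∧ g • p.2 = p.1 ∧ p.1 ≠ p.2}

theorem pc_swap2 (g : G) :
    pc Ω (Equiv.swap (0 : Fin 2) 1) g = sw Ω g := by
  unfold pc sw
  apply Nat.card_congr
  exact
    { toFun := fun x => ⟨(x.1 0, x.1 1), by simpa using x.2 0, by simpa using x.2 1,
        x.1.injective.ne (by decide)⟩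
      invFun := fun p => ⟨emb2 p.1.1 p.1.2 p.2.2.2, fun i => by
        fin_cases i
        · exact p.2.1
        · exact p.2.2.1⟩
      left_inv := fun x => by
        ext i
        fin_cases i <;> rfl
      right_inv := fun p => rfl }

theorem pc_swap3 (g : G) :
    pc Ω (Equiv.swap (0 : Fin 3) 1) g = sw Ω g * fx Ω g := by
  unfold pc sw fx
  rw [← Nat.card_prod]
  apply Nat.card_congr
  exact
    { toFun := fun x => (⟨(x.1 0, x.1 1), by simpa using x.2 0, by simpa using x.2 1,
        x.1.injective.ne (by decide)⟩, ⟨x.1 2, by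
          have := x.2 2
          rwa [Equiv.swap_apply_of_ne_of_ne (by decide) (by decide)] at this⟩)
      invFun := fun p => ⟨emb3 p.1.1.1 p.1.1.2 p.2.1 p.1.2.2.2
          (fun h => by
            have h1 := p.1.2.1
            have h2 := p.2.2
            rw [h, h2] at h1
            exact p.1.2.2.2 (h.trans h1))
          (fun h => by
            have h1 := p.1.2.2.1
            have h2 := p.2.2
            rw [h, h2] at h1
            exact p.1.2.2.2 (h1.symm.trans h.symm)), fun i => by
        fin_cases i
        · exact p.1.2.1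
        · exact p.1.2.2.1
        · exact p.2.2⟩
      left_inv := fun x => by
        ext i
        fin_cases i <;> rfl
      right_inv := fun p => rfl }

theorem sw_ne_fix {g : G} (p : SwT Ω g) {a : Ω} (ha : g • a = a) : p.1.1 ≠ a ∧ p.1.2 ≠ a := by
  constructor
  · intro h
    have h1 := p.2.1
    rw [h, ha] at h1
    exact p.2.2.2 (h.trans h1)
  · intro h
    have h1 := p.2.2.1
    rw [h, ha] at h1
    exact p.2.2.2 (h1.symm.trans h.symm)

theorem pc_swap4 (g : G) :
    pc Ω (Equiv.swap (0 : Fin 4) 1) g = sw Ω g * pc Ω (1 : Equiv.Perm (Fin 2)) g := by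
  unfold pc sw
  rw [← Nat.card_prod]
  apply Nat.card_congr
  exact
    { toFun := fun x => (⟨(x.1 0, x.1 1), by simpa using x.2 0, by simpa using x.2 1,
        x.1.injective.ne (by decide)⟩, ⟨emb2 (x.1 2) (x.1 3) (x.1.injective.ne (by decide)),
          fun i => by
            fin_cases i
            · have := x.2 2
              rwa [Equiv.swap_apply_of_ne_of_ne (by decide) (by decide)] at this
            · have := x.2 3
              rwa [Equiv.swap_apply_of_ne_of_ne (by decide) (by decide)] at this⟩)
      invFun := fun p => ⟨emb4 p.1.1.1 p.1.1.2 (p.2.1 0) (p.2.1 1) p.1.2.2.2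
          (sw_ne_fix p.1 (p.2.2 0)).1 (sw_ne_fix p.1 (p.2.2 1)).1
          (sw_ne_fix p.1 (p.2.2 0)).2 (sw_ne_fix p.1 (p.2.2 1)).2
          (p.2.1.injective.ne (by decide)), fun i => by
        fin_cases i
        · exact p.1.2.1
        · exact p.1.2.2.1
        · exact p.2.2 0
        · exact p.2.2 1⟩
      left_inv := fun x => by
        ext i
        fin_cases i <;> rfl
      right_inv := fun p => by
        refine Prod.ext rfl (Subtype.ext ?_)
        ext i
        fin_cases i <;> rfl }

/-- the swapped partner of a swapped pair -/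
def swS {g : G} (p : SwT Ω g) : SwT Ω g := ⟨p.1.swap, p.2.2.1, p.2.1, p.2.2.2.symm⟩

theorem swS_ne {g : G} (p : SwT Ω g) : swS p ≠ p := by
  intro h
  have := congrArg (fun q : SwT Ω g => q.1.1) h
  exact p.2.2.2 this.symm

theorem card_graph {S : Type*} (f : S → S) : Nat.card {pq : S × S // pq.2 = f pq.1} = Nat.card S := by
  apply Nat.card_congr
  exact
    { toFun := fun pq => pq.1.1
      invFun := fun p => ⟨(p, f p), rfl⟩
      left_inv := fun pq => by
        apply Subtype.ext
        exact Prod.ext rfl pq.2.symm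
      right_inv := fun p => rfl }

theorem card_offpairs {S : Type*} [Finite S] (f : S → S) (hf : ∀ p, f p ≠ p) :
    Nat.card {pq : S × S // ¬ (pq.2 = pq.1 ∨ pq.2 = f pq.1)} + 2 * Nat.card S =
      Nat.card S * Nat.card S := by
  classical
  have := Fintype.ofFinite S
  have h1 : Nat.card {pq : S × S // pq.2 = pq.1 ∨ pq.2 = f pq.1} = 2 * Nat.card S := by
    rw [Nat.card_eq_fintype_card, Fintype.card_subtype_or_disjoint]
    · rw [← Nat.card_eq_fintype_card, ← Nat.card_eq_fintype_card, card_graph f,
        card_graph (fun p => p)]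
      ring
    · rw [disjoint_iff_inf_le]
      rintro pq ⟨h1, h2⟩
      exact hf pq.1 (h2.symm.trans h1)
  have h2 := Fintype.card_subtype_compl (fun pq : S × S => pq.2 = pq.1 ∨ pq.2 = f pq.1)
  have h3 := Fintype.card_subtype_le (fun pq : S × S => pq.2 = pq.1 ∨ pq.2 = f pq.1)
  rw [Nat.card_eq_fintype_card] at h1 ⊢
  rw [Fintype.card_prod] at h2 h3
  rw [Nat.card_eq_fintype_card] at h1 ⊢
  omega

theorem pc_swap22 [Finite Ω] (g : G) :
    pc Ω (Equiv.swap (0 : Fin 4) 1 * Equiv.swap (2 : Fin 4) 3) g + 2 * sw Ω g =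
      sw Ω g * sw Ω g := by
  have : Finite (SwT Ω g) := inferInstance
  have key := card_offpairs (S := SwT Ω g) swS swS_ne
  unfold sw
  rw [← key]
  congr 1
  unfold pc
  apply Nat.card_congr
  exact
    { toFun := fun x => ⟨(⟨(x.1 0, x.1 1), x.2 0, x.2 1, x.1.injective.ne (by decide)⟩,
          ⟨(x.1 2, x.1 3), x.2 2, x.2 3, x.1.injective.ne (by decide)⟩), by
        rintro (h | h)
        · have := congrArg (fun q : SwT Ω g => q.1.1) h
          exact x.1.injective.ne (by decide : (2 : Fin 4) ≠ 0) this
        · have := congrArg (fun q : SwT Ω g => q.1.1) h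
          exact x.1.injective.ne (by decide : (2 : Fin 4) ≠ 1) this⟩
      invFun := fun pq => ⟨emb4 pq.1.1.1.1 pq.1.1.1.2 pq.1.2.1.1 pq.1.2.1.2 pq.1.1.2.2.2
          (fun h => pq.2 (Or.inl (by
            apply Subtype.ext
            refine Prod.ext h.symm ?_
            rw [← pq.1.2.2.1, ← pq.1.1.2.1, h])))
          (fun h => pq.2 (Or.inr (by
            apply Subtype.ext
            refine Prod.ext ?_ h.symm
            show pq.1.2.1.1 = pq.1.1.1.2
            rw [← pq.1.2.2.2.1, ← pq.1.1.2.1, h])))
          (fun h => pq.2 (Or.inr (by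
            apply Subtype.ext
            refine Prod.ext h.symm ?_
            show pq.1.2.1.2 = pq.1.1.1.1
            rw [← pq.1.2.2.1, ← pq.1.1.2.2.1, h])))
          (fun h => pq.2 (Or.inl (by
            apply Subtype.ext
            refine Prod.ext ?_ h.symm
            rw [← pq.1.2.2.2.1, ← pq.1.1.2.2.1, h])))
          pq.1.2.2.2.2, fun i => by
        fin_cases i
        · exact pq.1.1.2.1
        · exact pq.1.1.2.2.1
        · exact pq.1.2.2.1
        · exact pq.1.2.2.2.1⟩
      left_inv := fun x => by
        ext i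
        fin_cases i <;> rfl
      right_inv := fun pq => rfl }

end Cfsg.Agent.Lib.Helper93.SCh
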