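import Mathlib
import Cfsg.Agent.Lib.Helper93.SChB

/-!
Fixed 2-subsets: twice their number is the number of fixed ordered pairs plus the number of
swapped ordered pairs.
-/

set_option autoImplicit false

namespace Cfsg.Agent.Lib.Helper93.SCh

open MulAction

variable {G : Type*} [Group G] {Ω : Type*} [Finite Ω] [DecidableEq Ω] [MulAction G Ω]

/-- the swapped embedding -/
def swE (x : Fin 2 ↪ Ω) : Fin 2 ↪ Ω := (Equiv.swap (0 : Fin 2) 1).toEmbedding.trans x

theorem swE_ne (x : Fin 2 ↪ Ω) : swE x ≠ x := by
  intro h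
  have := congrArg (fun y : Fin 2 ↪ Ω => y 0) h
  exact x.injective.ne (by decide : (1 : Fin 2) ≠ 0) this

theorem map_eq_iff (x y : Fin 2 ↪ Ω) :
    Finset.univ.map y = Finset.univ.map x ↔ y = x ∨ y = swE x := by
  constructor
  · intro h
    have h0 : y 0 ∈ Finset.univ.map x := by
      rw [← h]
      exact Finset.mem_map_of_mem _ (Finset.mem_univ _)
    have h1 : y 1 ∈ Finset.univ.map x := by
      rw [← h]
      exact Finset.mem_map_of_mem _ (Finset.mem_univ _)
    obtain ⟨i, -, hi⟩ := Finset.mem_map.1 h0
    obtain ⟨j, -, hj⟩ := Finset.mem_map.1 h1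
    have hij : i ≠ j := by
      rintro rfl
      exact y.injective.ne (by decide : (0 : Fin 2) ≠ 1) (hi.symm.trans hj)
    fin_cases i <;> fin_cases j
    · exact absurd rfl hij
    · left
      ext k
      fin_cases k
      · exact hi.symm
      · exact hj.symm
    · right
      ext k
      fin_cases k
      · exact hi.symm
      · exact hj.symm
    · exact absurd rfl hij
  · rintro (rfl | rfl)
    · rfl
    · unfold swE
      rw [← Finset.map_map, Finset.map_univ_equiv]

theorem two_mul_card_fixed_pairs (g : G) :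
    2 * Nat.card {s : Set.powersetCard Ω 2 // g • s = s} =
      pc Ω (1 : Equiv.Perm (Fin 2)) g + pc Ω (Equiv.swap (0 : Fin 2) 1) g := by
  classical
  have := Fintype.ofFinite Ω
  set Φ := Set.powersetCard.mulActionHom_of_embedding G Ω 2 with hΦ
  have hK : ∀ x y : Fin 2 ↪ Ω, Φ y = Φ x ↔ y = x ∨ y = swE x := by
    intro x y
    rw [← map_eq_iff, ← Subtype.coe_inj]
    rfl
  have hsurj : Function.Surjective Φ := Set.powersetCard.mulActionHom_of_embedding_surjective G Ω
  -- (a)
  have ha : Nat.card {x : Fin 2 ↪ Ω // g • Φ x = Φ x} =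
      2 * Nat.card {s : Set.powersetCard Ω 2 // g • s = s} := by
    have e := Equiv.sigmaSubtypeFiberEquivSubtype Φ (p := fun x => g • Φ x = Φ x)
      (q := fun s => g • s = s) (fun x => Iff.rfl)
    rw [← Nat.card_congr e, Nat.card_sigma]
    have hfib : ∀ s : {s : Set.powersetCard Ω 2 // g • s = s},
        Nat.card {x : Fin 2 ↪ Ω // Φ x = s} = 2 := by
      intro s
      obtain ⟨x₀, hx₀⟩ := hsurj s.1
      rw [Nat.card_eq_two_iff]
      refine ⟨⟨x₀, hx₀⟩, ⟨swE x₀, ?_⟩, ?_, ?_⟩
      · rw [← hx₀]
        exact (hK x₀ (swE x₀)).2 (Or.inr rfl)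
      · intro h
        exact swE_ne x₀ (congrArg Subtype.val h).symm
      · ext y
        simp only [Set.mem_insert_iff, Set.mem_singleton_iff, Set.mem_univ, iff_true]
        have hy : Φ y.1 = Φ x₀ := y.2.trans hx₀.symm
        rcases (hK x₀ y.1).1 hy with h | h
        · left
          exact Subtype.ext h
        · right
          exact Subtype.ext h
    rw [Finset.sum_congr rfl (fun s _ => hfib s)]
    simp [Nat.card_eq_fintype_card, mul_comm]
  -- (b)
  have hb : Nat.card {x : Fin 2 ↪ Ω // g • Φ x = Φ x} =
      pc Ω (1 : Equiv.Perm (Fin 2)) g + pc Ω (Equiv.swap (0 : Fin 2) 1) g := by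
    unfold pc
    have e : {x : Fin 2 ↪ Ω // g • Φ x = Φ x} ≃
        {x : Fin 2 ↪ Ω // (∀ i, g • x i = x ((1 : Equiv.Perm (Fin 2)) i)) ∨
          (∀ i, g • x i = x ((Equiv.swap (0 : Fin 2) 1) i))} := by
      apply Equiv.subtypeEquivRight
      intro x
      rw [← map_smul, hK]
      constructor
      · rintro (h | h)
        · left
          intro i
          have := congrArg (fun y : Fin 2 ↪ Ω => y i) h
          simpa using this
        · right
          intro i
          have := congrArg (fun y : Fin 2 ↪ Ω => y i) h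
          simpa [swE] using this
      · rintro (h | h)
        · left
          ext i
          simpa using h i
        · right
          ext i
          simpa [swE] using h i
    rw [Nat.card_congr e, Nat.card_eq_fintype_card, Fintype.card_subtype_or_disjoint,
      ← Nat.card_eq_fintype_card, ← Nat.card_eq_fintype_card]
    rw [disjoint_iff_inf_le]
    rintro x ⟨h1, h2⟩
    have a1 := h1 0
    have a2 := h2 0
    rw [a1] at a2
    exact x.injective.ne (by decide : (0 : Fin 2) ≠ 1) (by simpa using a2)
  rw [← ha, hb]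

end Cfsg.Agent.Lib.Helper93.SCh
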