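import Mathlib
import Cfsg.Agent.Lib.Helper93.SChC

/-!
Moments of the fixed-point and swapped-pair counts for a 4-transitive action.
-/

set_option autoImplicit false

namespace Cfsg.Agent.Lib.Helper93.SCh

open MulAction

theorem cast_df2 (n : ℕ) : ((n.descFactorial 2 : ℕ) : ℂ) = n * (n - 1) :=
  Nat.cast_descFactorial_two ℂ n

theorem cast_df3 (n : ℕ) : ((n.descFactorial 3 : ℕ) : ℂ) = n * (n - 1) * (n - 2) := by
  rcases Nat.lt_or_ge n 3 with h | h
  · interval_cases n <;> simp [Nat.descFactorial]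
  · simp only [Nat.descFactorial_succ, Nat.descFactorial_zero, Nat.sub_zero]
    push_cast [Nat.cast_sub (by omega : 2 ≤ n), Nat.cast_sub (by omega : 1 ≤ n)]
    ring

theorem cast_df4 (n : ℕ) :
    ((n.descFactorial 4 : ℕ) : ℂ) = n * (n - 1) * (n - 2) * (n - 3) := by
  rcases Nat.lt_or_ge n 4 with h | h
  · interval_cases n <;> simp [Nat.descFactorial]
  · simp only [Nat.descFactorial_succ, Nat.descFactorial_zero, Nat.sub_zero]
    push_cast [Nat.cast_sub (by omega : 3 ≤ n), Nat.cast_sub (by omega : 2 ≤ n),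
      Nat.cast_sub (by omega : 1 ≤ n)]
    ring

variable {G : Type*} [Group G] [Fintype G] {Ω : Type*} [Finite Ω] [MulAction G Ω]

theorem moments (h4 : IsMultiplyPretransitive G Ω 4) (hc : 4 ≤ Nat.card Ω) :
    (∑ g : G, (fx Ω g : ℂ)) = Nat.card G ∧
    (∑ g : G, (fx Ω g : ℂ) * ((fx Ω g : ℂ) - 1)) = Nat.card G ∧
    (∑ g : G, (fx Ω g : ℂ) * ((fx Ω g : ℂ) - 1) * ((fx Ω g : ℂ) - 2)) = Nat.card G ∧
    (∑ g : G, (fx Ω g : ℂ) * ((fx Ω g : ℂ) - 1) * ((fx Ω g : ℂ) - 2) * ((fx Ω g : ℂ) - 3)) =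
      Nat.card G ∧
    (∑ g : G, (sw Ω g : ℂ)) = Nat.card G ∧
    (∑ g : G, (sw Ω g : ℂ) * (fx Ω g : ℂ)) = Nat.card G ∧
    (∑ g : G, (sw Ω g : ℂ) * ((fx Ω g : ℂ) * ((fx Ω g : ℂ) - 1))) = Nat.card G ∧
    (∑ g : G, ((sw Ω g : ℂ) * (sw Ω g : ℂ) - 2 * (sw Ω g : ℂ))) = Nat.card G := by
  have i3 : IsMultiplyPretransitive G Ω 3 := isMultiplyPretransitive_of_le (by norm_num) hc
  have i2 : IsMultiplyPretransitive G Ω 2 := isMultiplyPretransitive_of_le (by norm_num) hc
  have i1 : IsMultiplyPretransitive G Ω 1 := isMultiplyPretransitive_of_le (by norm_num) hc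
  have cst : ∀ (φ : G → ℕ), ∑ g : G, φ g = Nat.card G →
      ∑ g : G, (φ g : ℂ) = Nat.card G := by
    intro φ h
    rw [← h]
    push_cast
    rfl
  refine ⟨?_, ?_, ?_, ?_, ?_, ?_, ?_, ?_⟩
  · have := cst _ (sum_pc (G := G) (Ω := Ω) (k := 1) (by omega) 1)
    simpa [pc_one] using this
  · have := cst _ (sum_pc (G := G) (Ω := Ω) (k := 2) (by omega) 1)
    simpa only [pc_one, cast_df2] using this
  · have := cst _ (sum_pc (G := G) (Ω := Ω) (k := 3) (by omega) 1)
    simpa only [pc_one, cast_df3] using this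
  · have := cst _ (sum_pc (G := G) (Ω := Ω) (k := 4) (by omega) 1)
    simpa only [pc_one, cast_df4] using this
  · have := cst _ (sum_pc (G := G) (Ω := Ω) (k := 2) (by omega) (Equiv.swap 0 1))
    simpa only [pc_swap2] using this
  · have := cst _ (sum_pc (G := G) (Ω := Ω) (k := 3) (by omega) (Equiv.swap 0 1))
    simpa only [pc_swap3, Nat.cast_mul] using this
  · have := cst _ (sum_pc (G := G) (Ω := Ω) (k := 4) (by omega) (Equiv.swap 0 1))
    simpa only [pc_swap4, pc_one, Nat.cast_mul, cast_df2] using this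
  · have := cst _ (sum_pc (G := G) (Ω := Ω) (k := 4) (by omega)
      (Equiv.swap 0 1 * Equiv.swap 2 3))
    rw [← this]
    refine Finset.sum_congr rfl (fun g _ => ?_)
    have h := congrArg (Nat.cast : ℕ → ℂ) (pc_swap22 (Ω := Ω) g)
    push_cast at h
    linear_combination -h

end Cfsg.Agent.Lib.Helper93.SCh
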