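import Mathlib
import Cfsg.Prelude.Def_Characters
import Cfsg.Agent.Lib.Helper12.Subdeg
import Cfsg.Agent.Lib.Lead.Frobenius
import Cfsg.Agent.Lib.Helper93.SChD

/-!
For a 4-transitive action of a finite group on a finite set with at least four points, the
class functions `(f² - 3f + T)/2` and `(f² - 3f + 2 - T)/2` (`f` the number of fixed points,
`T` the number of swapped ordered pairs) are irreducible characters.
-/

set_option autoImplicit false

namespace Cfsg.Agent.Lib.Helper93.SCh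

open MulAction
open scoped ComplexConjugate

universe u

section defs

variable {G : Type u} [Group G] (Ω : Type*) [MulAction G Ω]

/-- the character of shape `(n-2,2)` -/
noncomputable def th2 (g : G) : ℂ := ((fx Ω g : ℂ) ^ 2 - 3 * (fx Ω g : ℂ) + (sw Ω g : ℂ)) / 2

/-- the character of shape `(n-2,1,1)` -/
noncomputable def th11 (g : G) : ℂ :=
  ((fx Ω g : ℂ) ^ 2 - 3 * (fx Ω g : ℂ) + 2 - (sw Ω g : ℂ)) / 2

theorem conj_th2 (g : G) : conj (th2 Ω g) = th2 Ω g := by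
  unfold th2
  simp [map_div₀, map_ofNat]

theorem conj_th11 (g : G) : conj (th11 Ω g) = th11 Ω g := by
  unfold th11
  simp [map_div₀, map_ofNat]

theorem fx_one : fx Ω (1 : G) = Nat.card Ω := by
  unfold fx
  exact Nat.card_congr (Equiv.subtypeUnivEquiv (fun a => one_smul G a))

theorem sw_one : sw Ω (1 : G) = 0 := by
  unfold sw
  rw [Nat.card_eq_zero]
  left
  exact ⟨fun p => p.2.2.2 (by
    have := p.2.1
    rwa [one_smul] at this)⟩

end defs

variable {G : Type u} [Group G] [Fintype G] (Ω : Type*) [Fintype Ω] [DecidableEq Ω]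
  [MulAction G Ω]

theorem permChar_point (g : G) :
    Cfsg.Agent.Lib.Helper12.Subdeg.permChar G Ω g = (fx Ω g : ℂ) := rfl

theorem permChar_pairs (g : G) :
    Cfsg.Agent.Lib.Helper12.Subdeg.permChar G (Fin 2 ↪ Ω) g =
      (fx Ω g : ℂ) * ((fx Ω g : ℂ) - 1) := by
  rw [← cast_df2, ← pc_one]
  unfold Cfsg.Agent.Lib.Helper12.Subdeg.permChar pc
  congr 1
  apply Nat.card_congr
  apply Equiv.subtypeEquivRight
  intro x
  rw [mem_fixedBy]
  constructor
  · intro h i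
    have := congrArg (fun y : Fin 2 ↪ Ω => y i) h
    simpa using this
  · intro h
    ext i
    simpa using h i

theorem permChar_sets (g : G) :
    2 * Cfsg.Agent.Lib.Helper12.Subdeg.permChar G (Set.powersetCard Ω 2) g =
      (fx Ω g : ℂ) * ((fx Ω g : ℂ) - 1) + (sw Ω g : ℂ) := by
  have h := congrArg (Nat.cast : ℕ → ℂ) (two_mul_card_fixed_pairs (Ω := Ω) g)
  rw [pc_one, pc_swap2] at h
  push_cast at h
  rw [cast_df2] at h
  rw [← h]
  rfl

theorem th2_eq :
    th2 (G := G) Ω = Cfsg.Agent.Lib.Helper12.Subdeg.permChar G (Set.powersetCard Ω 2) -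
      Cfsg.Agent.Lib.Helper12.Subdeg.permChar G Ω := by
  funext g
  have h := permChar_sets Ω g
  rw [Pi.sub_apply, permChar_point Ω g]
  unfold th2
  linear_combination (-1 / 2 : ℂ) * h

theorem th11_eq :
    th11 (G := G) Ω = Cfsg.Agent.Lib.Helper12.Subdeg.permChar G (Fin 2 ↪ Ω) -
      Cfsg.Agent.Lib.Helper12.Subdeg.permChar G (Set.powersetCard Ω 2) -
      Cfsg.Agent.Lib.Helper12.Subdeg.permChar G Ω + (fun _ => (1 : ℂ)) := by
  funext g
  have h := permChar_sets Ω g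
  rw [Pi.add_apply, Pi.sub_apply, Pi.sub_apply, permChar_point Ω g, permChar_pairs Ω g]
  unfold th11
  linear_combination (1 / 2 : ℂ) * h

theorem norm_th2 (h4 : IsMultiplyPretransitive G Ω 4) (hc : 4 ≤ Nat.card Ω) :
    Cfsg.classInner (th2 (G := G) Ω) (th2 Ω) = 1 := by
  obtain ⟨m1, m2, -, m4, t1, t2, t3, t4⟩ := moments (G := G) (Ω := Ω) h4 hc
  have t4' : ∑ g : G, (sw Ω g : ℂ) * (sw Ω g : ℂ) = 3 * (Nat.card G : ℂ) := by
    rw [Finset.sum_sub_distrib, ← Finset.mul_sum, t1] at t4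
    linear_combination t4
  unfold Cfsg.classInner
  have key : ∀ g : G, th2 Ω g * conj (th2 Ω g) = (1 / 4 : ℂ) *
      ((fx Ω g : ℂ) * ((fx Ω g : ℂ) - 1) * ((fx Ω g : ℂ) - 2) * ((fx Ω g : ℂ) - 3)) -
      (1 / 2 : ℂ) * ((fx Ω g : ℂ) * ((fx Ω g : ℂ) - 1)) + (fx Ω g : ℂ) +
      (1 / 2 : ℂ) * ((sw Ω g : ℂ) * ((fx Ω g : ℂ) * ((fx Ω g : ℂ) - 1))) -
      ((sw Ω g : ℂ) * (fx Ω g : ℂ)) + (1 / 4 : ℂ) * ((sw Ω g : ℂ) * (sw Ω g : ℂ)) := by
    intro g
    rw [conj_th2]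
    unfold th2
    ring
  rw [Finset.sum_congr rfl (fun g _ => key g)]
  rw [Finset.sum_add_distrib, Finset.sum_sub_distrib, Finset.sum_add_distrib,
    Finset.sum_add_distrib, Finset.sum_sub_distrib, ← Finset.mul_sum, ← Finset.mul_sum,
    ← Finset.mul_sum, ← Finset.mul_sum, m1, m2, m4, t2, t3, t4']
  have hN : (Nat.card G : ℂ) ≠ 0 := by exact_mod_cast Nat.card_pos.ne'
  field_simp
  ring

theorem norm_th11 (h4 : IsMultiplyPretransitive G Ω 4) (hc : 4 ≤ Nat.card Ω) :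
    Cfsg.classInner (th11 (G := G) Ω) (th11 Ω) = 1 := by
  obtain ⟨m1, m2, -, m4, t1, t2, t3, t4⟩ := moments (G := G) (Ω := Ω) h4 hc
  have t4' : ∑ g : G, (sw Ω g : ℂ) * (sw Ω g : ℂ) = 3 * (Nat.card G : ℂ) := by
    rw [Finset.sum_sub_distrib, ← Finset.mul_sum, t1] at t4
    linear_combination t4
  have m0 : ∑ _g : G, (1 : ℂ) = (Nat.card G : ℂ) := by
    simp [Nat.card_eq_fintype_card]
  unfold Cfsg.classInner
  have key : ∀ g : G, th11 Ω g * conj (th11 Ω g) = (1 / 4 : ℂ) *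
      ((fx Ω g : ℂ) * ((fx Ω g : ℂ) - 1) * ((fx Ω g : ℂ) - 2) * ((fx Ω g : ℂ) - 3)) +
      (1 / 2 : ℂ) * ((fx Ω g : ℂ) * ((fx Ω g : ℂ) - 1)) - (fx Ω g : ℂ) -
      (1 / 2 : ℂ) * ((sw Ω g : ℂ) * ((fx Ω g : ℂ) * ((fx Ω g : ℂ) - 1))) +
      ((sw Ω g : ℂ) * (fx Ω g : ℂ)) + (1 / 4 : ℂ) * ((sw Ω g : ℂ) * (sw Ω g : ℂ)) -
      (sw Ω g : ℂ) + 1 := by
    intro g
    rw [conj_th11]
    unfold th11
    ring
  rw [Finset.sum_congr rfl (fun g _ => key g)]
  rw [Finset.sum_add_distrib, Finset.sum_sub_distrib, Finset.sum_add_distrib,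
    Finset.sum_add_distrib, Finset.sum_sub_distrib, Finset.sum_sub_distrib,
    Finset.sum_add_distrib, ← Finset.mul_sum, ← Finset.mul_sum,
    ← Finset.mul_sum, ← Finset.mul_sum, m0, m1, m2, m4, t1, t2, t3, t4']
  have hN : (Nat.card G : ℂ) ≠ 0 := by exact_mod_cast Nat.card_pos.ne'
  field_simp
  ring

theorem irr_th2 (h4 : IsMultiplyPretransitive G Ω 4) (hc : 4 ≤ Nat.card Ω) :
    Cfsg.IsIrrCharacter G (th2 Ω) := by
  classical
  let _ : Fintype (Cfsg.IrrCharacter G) := Fintype.ofFinite _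
  have i2 : IsMultiplyPretransitive G Ω 2 := isMultiplyPretransitive_of_le (by norm_num) hc
  have i1 : IsMultiplyPretransitive G Ω 1 := isMultiplyPretransitive_of_le (by norm_num) hc
  have iΩ : IsPretransitive G Ω := is_one_pretransitive_iff.1 i1
  have iP : IsPretransitive G (Set.powersetCard Ω 2) :=
    Set.powersetCard.isPretransitive_of_isMultiplyPretransitive G i2
  have c1 : Cfsg.IsCharacter G (Cfsg.Agent.Lib.Helper12.Subdeg.permChar G Ω) :=
    Cfsg.Agent.Lib.Helper12.Subdeg.isCharacter_permChar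
  have c2 : Cfsg.IsCharacter G
      (Cfsg.Agent.Lib.Helper12.Subdeg.permChar G (Set.powersetCard Ω 2)) :=
    Cfsg.Agent.Lib.Helper12.Subdeg.isCharacter_permChar
  have k1 := Cfsg.Agent.Lib.Helper3.isClassFunction_of_isCharacter c1
  have k2 := Cfsg.Agent.Lib.Helper3.isClassFunction_of_isCharacter c2
  apply Cfsg.Agent.Lib.Lead.isIrrCharacter_of_int
  · rw [th2_eq]
    intro g h
    simp only [Pi.sub_apply]
    rw [k1 g h, k2 g h]
  · intro ψ
    have cψ := Cfsg.Agent.Lib.Helper3.isCharacter_of_irr ψ.2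
    obtain ⟨a, ha⟩ := Cfsg.Agent.Lib.Helper75.classInner_char_nat c2 cψ
    obtain ⟨b, hb⟩ := Cfsg.Agent.Lib.Helper75.classInner_char_nat c1 cψ
    refine ⟨(a : ℤ) - b, ?_⟩
    rw [th2_eq, Cfsg.Agent.Lib.Helper80.classInner_sub_left, ha, hb]
    push_cast
    rfl
  · exact norm_th2 Ω h4 hc
  · have h1 : th2 (G := G) Ω 1 =
        ((((Nat.card Ω : ℝ) ^ 2 - 3 * (Nat.card Ω : ℝ)) / 2 : ℝ) : ℂ) := by
      unfold th2
      rw [fx_one, sw_one]
      push_cast
      ring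
    rw [h1, Complex.ofReal_re]
    have h4' : (4 : ℝ) ≤ (Nat.card Ω : ℝ) := by exact_mod_cast hc
    nlinarith

theorem irr_th11 (h4 : IsMultiplyPretransitive G Ω 4) (hc : 4 ≤ Nat.card Ω) :
    Cfsg.IsIrrCharacter G (th11 Ω) := by
  classical
  let _ : Fintype (Cfsg.IrrCharacter G) := Fintype.ofFinite _
  have i2 : IsMultiplyPretransitive G Ω 2 := isMultiplyPretransitive_of_le (by norm_num) hc
  have i1 : IsMultiplyPretransitive G Ω 1 := isMultiplyPretransitive_of_le (by norm_num) hc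
  have iΩ : IsPretransitive G Ω := is_one_pretransitive_iff.1 i1
  have iP : IsPretransitive G (Set.powersetCard Ω 2) :=
    Set.powersetCard.isPretransitive_of_isMultiplyPretransitive G i2
  have c1 : Cfsg.IsCharacter G (Cfsg.Agent.Lib.Helper12.Subdeg.permChar G Ω) :=
    Cfsg.Agent.Lib.Helper12.Subdeg.isCharacter_permChar
  have c2 : Cfsg.IsCharacter G
      (Cfsg.Agent.Lib.Helper12.Subdeg.permChar G (Set.powersetCard Ω 2)) :=
    Cfsg.Agent.Lib.Helper12.Subdeg.isCharacter_permChar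
  have c3 : Cfsg.IsCharacter G
      (Cfsg.Agent.Lib.Helper12.Subdeg.permChar G (Fin 2 ↪ Ω)) :=
    Cfsg.Agent.Lib.Helper12.Subdeg.isCharacter_permChar
  have c0 : Cfsg.IsCharacter G (fun _ : G => (1 : ℂ)) :=
    Cfsg.Agent.Lib.Helper3.isCharacter_of_irr Cfsg.Agent.Lib.Helper74.isIrrCharacter_one
  have k0 := Cfsg.Agent.Lib.Helper3.isClassFunction_of_isCharacter c0
  have k1 := Cfsg.Agent.Lib.Helper3.isClassFunction_of_isCharacter c1
  have k2 := Cfsg.Agent.Lib.Helper3.isClassFunction_of_isCharacter c2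
  have k3 := Cfsg.Agent.Lib.Helper3.isClassFunction_of_isCharacter c3
  apply Cfsg.Agent.Lib.Lead.isIrrCharacter_of_int
  · rw [th11_eq]
    intro g h
    simp only [Pi.sub_apply, Pi.add_apply]
    rw [k1 g h, k2 g h, k3 g h]
  · intro ψ
    have cψ := Cfsg.Agent.Lib.Helper3.isCharacter_of_irr ψ.2
    obtain ⟨a, ha⟩ := Cfsg.Agent.Lib.Helper75.classInner_char_nat c2 cψ
    obtain ⟨b, hb⟩ := Cfsg.Agent.Lib.Helper75.classInner_char_nat c1 cψ
    obtain ⟨c, hc'⟩ := Cfsg.Agent.Lib.Helper75.classInner_char_nat c3 cψ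
    obtain ⟨d, hd⟩ := Cfsg.Agent.Lib.Helper75.classInner_char_nat c0 cψ
    refine ⟨(c : ℤ) - a - b + d, ?_⟩
    rw [th11_eq, Cfsg.Agent.Lib.Helper80.classInner_add_left,
      Cfsg.Agent.Lib.Helper80.classInner_sub_left,
      Cfsg.Agent.Lib.Helper80.classInner_sub_left, ha, hb, hc', hd]
    push_cast
    rfl
  · exact norm_th11 Ω h4 hc
  · have h1 : th11 (G := G) Ω 1 =
        ((((Nat.card Ω : ℝ) ^ 2 - 3 * (Nat.card Ω : ℝ) + 2) / 2 : ℝ) : ℂ) := by
      unfold th11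
      rw [fx_one, sw_one]
      push_cast
      ring
    rw [h1, Complex.ofReal_re]
    have h4' : (4 : ℝ) ≤ (Nat.card Ω : ℝ) := by exact_mod_cast hc
    nlinarith

end Cfsg.Agent.Lib.Helper93.SCh
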