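import Mathlib
import Cfsg.Agent.Lib.Helper93.SChA

/-!
Explicit permutations of `Fin n` with prescribed numbers of fixed points and swapped pairs:
a "head" permutation of `Fin h` and `c` copies of a fixed-point-free permutation of `Fin k`.
-/

set_option autoImplicit false

namespace Cfsg.Agent.Lib.Helper93.SCh

open MulAction Equiv

theorem sw_add_fx {G : Type*} [Group G] {Ω : Type*} [Finite Ω] [MulAction G Ω] (g : G) :
    sw Ω g + fx Ω g = fx Ω (g * g) := by
  classical
  have := Fintype.ofFinite Ω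
  unfold sw fx
  have e1 : {a : Ω // (g * g) • a = a} ≃
      {a : Ω // (g • g • a = a ∧ g • a ≠ a) ∨ g • a = a} := by
    apply Equiv.subtypeEquivRight
    intro a
    rw [mul_smul]
    constructor
    · intro h
      by_cases h' : g • a = a
      · exact Or.inr h'
      · exact Or.inl ⟨h, h'⟩
    · rintro (h | h)
      · exact h.1
      · rw [h, h]
  have e2 : {p : Ω × Ω // g • p.1 = p.2 ∧ g • p.2 = p.1 ∧ p.1 ≠ p.2} ≃
      {a : Ω // g • g • a = a ∧ g • a ≠ a} :=
    { toFun := fun p => ⟨p.1.1, by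
        rw [p.2.1, p.2.2.1]
        exact ⟨rfl, Ne.symm p.2.2.2⟩⟩
      invFun := fun a => ⟨(a.1, g • a.1), rfl, a.2.1, Ne.symm a.2.2⟩
      left_inv := fun p => by
        apply Subtype.ext
        exact Prod.ext rfl p.2.1
      right_inv := fun a => rfl }
  rw [Nat.card_congr e1, Nat.card_congr e2, Nat.card_eq_fintype_card,
    Nat.card_eq_fintype_card, Nat.card_eq_fintype_card, Fintype.card_subtype_or_disjoint]
  rw [disjoint_iff_inf_le]
  rintro a ⟨h1, h2⟩
  exact h1.2 h2

theorem fx_sumCongr {α β : Type*} [Finite α] [Finite β] (a : Perm α) (b : Perm β) :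
    fx (α ⊕ β) (Equiv.sumCongr a b : Perm (α ⊕ β)) = fx α a + fx β b := by
  unfold fx
  rw [← Nat.card_sum]
  apply Nat.card_congr
  refine Equiv.subtypeSum.trans (Equiv.sumCongr (Equiv.subtypeEquivRight ?_)
    (Equiv.subtypeEquivRight ?_))
  · intro i
    simp [Equiv.Perm.smul_def]
  · intro i
    simp [Equiv.Perm.smul_def]

theorem fx_prodR {γ β : Type*} (w : Perm β) (hw : ∀ i, w i ≠ i) :
    fx (γ × β) (Equiv.prodCongrRight (fun _ : γ => w) : Perm (γ × β)) = 0 := by
  unfold fx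
  rw [Nat.card_eq_zero]
  left
  exact ⟨fun z => hw z.1.2 (congrArg Prod.snd z.2)⟩

theorem fx_permCongr {α β : Type*} (e : α ≃ β) (p : Perm α) :
    fx β (e.permCongrHom p) = fx α p := by
  unfold fx
  apply Nat.card_congr
  refine e.symm.subtypeEquiv ?_
  intro b
  rw [Equiv.Perm.smul_def, Equiv.Perm.smul_def, Equiv.permCongrHom_coe, Equiv.permCongr_apply]
  constructor
  · intro h
    conv_rhs => rw [← h]
    simp
  · intro h
    rw [h]
    simp

theorem prodR_mul {γ β : Type*} (w v : Perm β) :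
    (Equiv.prodCongrRight (fun _ : γ => w) : Perm (γ × β)) *
      Equiv.prodCongrRight (fun _ : γ => v) = Equiv.prodCongrRight (fun _ : γ => w * v) :=
  Equiv.ext fun _ => rfl

theorem prodR_pow {γ β : Type*} (w : Perm β) (j : ℕ) :
    (Equiv.prodCongrRight (fun _ : γ => w) : Perm (γ × β)) ^ j =
      Equiv.prodCongrRight (fun _ : γ => w ^ j) := by
  induction j with
  | zero => exact Equiv.ext fun _ => rfl
  | succ j ih => rw [pow_succ, ih, prodR_mul, pow_succ]

theorem sumCongr_pow {α β : Type*} (a : Perm α) (b : Perm β) (j : ℕ) :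
    (Equiv.sumCongr a b : Perm (α ⊕ β)) ^ j = Equiv.sumCongr (a ^ j) (b ^ j) := by
  induction j with
  | zero => simp
  | succ j ih => rw [pow_succ, ih, Equiv.Perm.sumCongr_mul, pow_succ, pow_succ]

theorem exists_elt (n h c k j : ℕ) (hn : h + c * k = n) (s : Perm (Fin h)) (w : Perm (Fin k))
    (hs : Equiv.Perm.sign s = 1) (hw : Equiv.Perm.sign w = 1) (hsj : s ^ j = 1)
    (hwj : w ^ j = 1) (hw1 : ∀ i, w i ≠ i) (hw2 : ∀ i, w (w i) ≠ i) :
    ∃ x : Perm (Fin n), Equiv.Perm.sign x = 1 ∧ x ^ j = 1 ∧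
      fx (Fin n) x = fx (Fin h) s ∧ fx (Fin n) (x * x) = fx (Fin h) (s * s) := by
  classical
  have hcard : Fintype.card (Fin h ⊕ Fin c × Fin k) = n := by
    simp [hn]
  let e : Fin h ⊕ Fin c × Fin k ≃ Fin n := Fintype.equivFinOfCardEq hcard
  let P : Perm (Fin c × Fin k) := Equiv.prodCongrRight (fun _ : Fin c => w)
  let X : Perm (Fin h ⊕ Fin c × Fin k) := Equiv.sumCongr s P
  refine ⟨e.permCongrHom X, ?_, ?_, ?_, ?_⟩
  · rw [Equiv.permCongrHom_coe, Equiv.Perm.sign_permCongr, Equiv.Perm.sign_sumCongr, hs,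
      Equiv.Perm.sign_prodCongrRight]
    simp [hw]
  · rw [← map_pow, sumCongr_pow, prodR_pow, hsj, hwj]
    have : (Equiv.prodCongrRight (fun _ : Fin c => (1 : Perm (Fin k))) : Perm (Fin c × Fin k))
        = 1 := Equiv.ext fun _ => rfl
    have h1 : (Equiv.sumCongr (1 : Perm (Fin h)) (1 : Perm (Fin c × Fin k)) :
        Perm (Fin h ⊕ Fin c × Fin k)) = 1 := Equiv.Perm.sumCongr_one
    rw [this, h1, map_one]
  · rw [fx_permCongr, fx_sumCongr, fx_prodR w hw1, add_zero]
  · rw [← map_mul, fx_permCongr, Equiv.Perm.sumCongr_mul, prodR_mul, fx_sumCongr,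
      fx_prodR (w * w) hw2, add_zero]

end Cfsg.Agent.Lib.Helper93.SCh
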