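import Mathlib
import Cfsg.Agent.Lib.Helper93.SChE
import Cfsg.Agent.Lib.Helper93.SChF

/-!
Even permutations of `Fin n` (`n ≥ 7`) of 2-power order, resp. of order 3, on which one of
the two characters `th2`, `th11` vanishes.
-/

set_option autoImplicit false

namespace Cfsg.Agent.Lib.Helper93.SCh

open Equiv

theorem fx_eq_card {h : ℕ} (s : Perm (Fin h)) :
    fx (Fin h) s = (Finset.univ.filter fun a => s a = a).card := by
  unfold fx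
  rw [Nat.card_eq_fintype_card, Fintype.card_subtype]
  rfl

theorem fx_perm_one (h : ℕ) : fx (Fin h) (1 : Perm (Fin h)) = h := by
  rw [fx_one]
  simp

theorem th2_of {n : ℕ} (x : Perm (Fin n)) (f f2 : ℕ) (h1 : fx (Fin n) x = f)
    (h2 : fx (Fin n) (x * x) = f2) (hv : f * f + f2 = 4 * f) : th2 (Fin n) x = 0 := by
  have hs := sw_add_fx (Ω := Fin n) x
  rw [h1, h2] at hs
  have hsC := congrArg (Nat.cast : ℕ → ℂ) hs
  have hvC := congrArg (Nat.cast : ℕ → ℂ) hv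
  push_cast at hsC hvC
  unfold th2
  rw [h1]
  linear_combination (1 / 2 : ℂ) * hsC + (1 / 2 : ℂ) * hvC

theorem th11_of {n : ℕ} (x : Perm (Fin n)) (f f2 : ℕ) (h1 : fx (Fin n) x = f)
    (h2 : fx (Fin n) (x * x) = f2) (hv : f * f + 2 = 2 * f + f2) : th11 (Fin n) x = 0 := by
  have hs := sw_add_fx (Ω := Fin n) x
  rw [h1, h2] at hs
  have hsC := congrArg (Nat.cast : ℕ → ℂ) hs
  have hvC := congrArg (Nat.cast : ℕ → ℂ) hv
  push_cast at hsC hvC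
  unfold th11
  rw [h1]
  linear_combination (-1 / 2 : ℂ) * hsC + (1 / 2 : ℂ) * hvC

/-- `(0 1)(2 3 4 5)` -/
def s6 : Perm (Fin 6) := ⟨![1, 0, 3, 4, 5, 2], ![1, 0, 5, 2, 3, 4], by decide, by decide⟩

/-- `(0 1)(2 3 4 5)(6)` -/
def s7 : Perm (Fin 7) := ⟨![1, 0, 3, 4, 5, 2, 6], ![1, 0, 5, 2, 3, 4, 6], by decide, by decide⟩

/-- `(0 1 2 3 4 5 6 7)(8 9 10 11)` -/
def s12 : Perm (Fin 12) :=
  ⟨![1, 2, 3, 4, 5, 6, 7, 0, 9, 10, 11, 8], ![7, 0, 1, 2, 3, 4, 5, 6, 11, 8, 9, 10],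
    by decide, by decide⟩

/-- `(0 1 2 3 4 5 6 7)(8 9 10 11)(12)` -/
def s13 : Perm (Fin 13) :=
  ⟨![1, 2, 3, 4, 5, 6, 7, 0, 9, 10, 11, 8, 12], ![7, 0, 1, 2, 3, 4, 5, 6, 11, 8, 9, 10, 12],
    by decide, by decide⟩

/-- `(0 2 4 6)(1 3 5 7)` -/
def w8 : Perm (Fin 8) :=
  ⟨![2, 3, 4, 5, 6, 7, 0, 1], ![6, 7, 0, 1, 2, 3, 4, 5], by decide, by decide⟩

/-- `(0 1 2)` -/
def w3 : Perm (Fin 3) := ⟨![1, 2, 0], ![2, 0, 1], by decide, by decide⟩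

theorem w8_facts : Equiv.Perm.sign w8 = 1 ∧ w8 ^ 8 = 1 ∧ (∀ i, w8 i ≠ i) ∧
    (∀ i, w8 (w8 i) ≠ i) := by decide +kernel

theorem w3_facts : Equiv.Perm.sign w3 = 1 ∧ w3 ^ 3 = 1 ∧ (∀ i, w3 i ≠ i) ∧
    (∀ i, w3 (w3 i) ≠ i) := by decide +kernel

theorem s6_facts : Equiv.Perm.sign s6 = 1 ∧ s6 ^ 8 = 1 ∧
    (Finset.univ.filter fun a => s6 a = a).card = 0 ∧
    (Finset.univ.filter fun a => (s6 * s6) a = a).card = 2 := by decide +kernel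

theorem s7_facts : Equiv.Perm.sign s7 = 1 ∧ s7 ^ 8 = 1 ∧
    (Finset.univ.filter fun a => s7 a = a).card = 1 ∧
    (Finset.univ.filter fun a => (s7 * s7) a = a).card = 3 := by decide +kernel

theorem s12_facts : Equiv.Perm.sign s12 = 1 ∧ s12 ^ 8 = 1 ∧
    (Finset.univ.filter fun a => s12 a = a).card = 0 ∧
    (Finset.univ.filter fun a => (s12 * s12) a = a).card = 0 := by decide +kernel

theorem s13_facts : Equiv.Perm.sign s13 = 1 ∧ s13 ^ 8 = 1 ∧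
    (Finset.univ.filter fun a => s13 a = a).card = 1 ∧
    (Finset.univ.filter fun a => (s13 * s13) a = a).card = 1 := by decide +kernel

theorem two_elt_aux (n h c : ℕ) (hn : h + c * 8 = n) (s : Perm (Fin h))
    (hs : Equiv.Perm.sign s = 1) (hs8 : s ^ 8 = 1) (f f2 : ℕ) (hf : fx (Fin h) s = f)
    (hf2 : fx (Fin h) (s * s) = f2)
    (hv : f * f + f2 = 4 * f ∨ f * f + 2 = 2 * f + f2) :
    ∃ x : Perm (Fin n), Equiv.Perm.sign x = 1 ∧ x ^ 8 = 1 ∧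
      (th2 (Fin n) x = 0 ∨ th11 (Fin n) x = 0) := by
  obtain ⟨x, h1, h2, h3, h4⟩ := exists_elt n h c 8 8 hn s w8 hs w8_facts.1 hs8 w8_facts.2.1
    w8_facts.2.2.1 w8_facts.2.2.2
  refine ⟨x, h1, h2, ?_⟩
  rcases hv with hv | hv
  · exact Or.inl (th2_of x f f2 (h3.trans hf) (h4.trans hf2) hv)
  · exact Or.inr (th11_of x f f2 (h3.trans hf) (h4.trans hf2) hv)

theorem exists_two_elt (n : ℕ) (hn : 7 ≤ n) :
    ∃ x : Perm (Fin n), Equiv.Perm.sign x = 1 ∧ x ^ 8 = 1 ∧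
      (th2 (Fin n) x = 0 ∨ th11 (Fin n) x = 0) := by
  obtain ⟨c, r, hr, rfl⟩ : ∃ c r, r < 8 ∧ n = 8 * c + r :=
    ⟨n / 8, n % 8, Nat.mod_lt _ (by norm_num), (Nat.div_add_mod n 8).symm⟩
  have one1 : ∀ h : ℕ, Equiv.Perm.sign (1 : Perm (Fin h)) = 1 := fun h => map_one _
  have one8 : ∀ h : ℕ, (1 : Perm (Fin h)) ^ 8 = 1 := fun h => one_pow _
  have onef : ∀ h : ℕ, fx (Fin h) ((1 : Perm (Fin h)) * 1) = h := fun h => by
    rw [mul_one, fx_perm_one]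
  interval_cases r
  · exact two_elt_aux _ 0 c (by omega) 1 (one1 0) (one8 0) 0 0 (fx_perm_one 0) (onef 0)
      (Or.inl rfl)
  · exact two_elt_aux _ 1 c (by omega) 1 (one1 1) (one8 1) 1 1 (fx_perm_one 1) (onef 1)
      (Or.inr rfl)
  · exact two_elt_aux _ 2 c (by omega) 1 (one1 2) (one8 2) 2 2 (fx_perm_one 2) (onef 2)
      (Or.inr rfl)
  · exact two_elt_aux _ 3 c (by omega) 1 (one1 3) (one8 3) 3 3 (fx_perm_one 3) (onef 3)
      (Or.inl rfl)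
  · exact two_elt_aux _ 12 (c - 1) (by omega) s12 s12_facts.1 s12_facts.2.1 0 0
      ((fx_eq_card s12).trans s12_facts.2.2.1) ((fx_eq_card _).trans s12_facts.2.2.2)
      (Or.inl rfl)
  · exact two_elt_aux _ 13 (c - 1) (by omega) s13 s13_facts.1 s13_facts.2.1 1 1
      ((fx_eq_card s13).trans s13_facts.2.2.1) ((fx_eq_card _).trans s13_facts.2.2.2)
      (Or.inr rfl)
  · exact two_elt_aux _ 6 c (by omega) s6 s6_facts.1 s6_facts.2.1 0 2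
      ((fx_eq_card s6).trans s6_facts.2.2.1) ((fx_eq_card _).trans s6_facts.2.2.2)
      (Or.inr rfl)
  · exact two_elt_aux _ 7 c (by omega) s7 s7_facts.1 s7_facts.2.1 1 3
      ((fx_eq_card s7).trans s7_facts.2.2.1) ((fx_eq_card _).trans s7_facts.2.2.2)
      (Or.inl rfl)

theorem exists_three_elt (n : ℕ) (hn : 7 ≤ n) :
    ∃ y : Perm (Fin n), Equiv.Perm.sign y = 1 ∧ y ^ 3 = 1 ∧ y ≠ 1 ∧
      (th2 (Fin n) y = 0 ∨ th11 (Fin n) y = 0) := by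
  obtain ⟨c, r, hr, rfl⟩ : ∃ c r, r < 3 ∧ n = 3 * c + r :=
    ⟨n / 3, n % 3, Nat.mod_lt _ (by norm_num), (Nat.div_add_mod n 3).symm⟩
  obtain ⟨y, h1, h2, h3, h4⟩ := exists_elt (3 * c + r) r c 3 3 (by omega) 1 w3 (map_one _)
    w3_facts.1 (one_pow _) w3_facts.2.1 w3_facts.2.2.1 w3_facts.2.2.2
  rw [fx_perm_one] at h3
  rw [mul_one, fx_perm_one] at h4
  refine ⟨y, h1, h2, ?_, ?_⟩
  · rintro rfl
    rw [fx_perm_one] at h3
    omega
  · interval_cases r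
    · exact Or.inl (th2_of y 0 0 h3 h4 rfl)
    · exact Or.inr (th11_of y 1 1 h3 h4 rfl)
    · exact Or.inr (th11_of y 2 2 h3 h4 rfl)

end Cfsg.Agent.Lib.Helper93.SCh
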