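import Mathlib
import Cfsg.Agent.Lib.Helper93.SChG

/-!
The two characters on the alternating group and on the symmetric group of degree `n ≥ 7`.
-/

set_option autoImplicit false

namespace Cfsg.Agent.Lib.Helper93.SCh

open Equiv MulAction

theorem alt_char (n : ℕ) (hn : 7 ≤ n) (x : Perm (Fin n)) (hx : Equiv.Perm.sign x = 1)
    (h0 : th2 (Fin n) x = 0 ∨ th11 (Fin n) x = 0) :
    ∃ χ : Cfsg.IrrCharacter (alternatingGroup (Fin n)),
      (χ : alternatingGroup (Fin n) → ℂ) ⟨x, Equiv.Perm.mem_alternatingGroup.2 hx⟩ = 0 ∧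
      ∃ ψ : Cfsg.IrrCharacter (Perm (Fin n)), ∀ z : alternatingGroup (Fin n),
        (ψ : Perm (Fin n) → ℂ) z = (χ : alternatingGroup (Fin n) → ℂ) z := by
  have hc : 4 ≤ Nat.card (Fin n) := by
    simp only [Nat.card_eq_fintype_card, Fintype.card_fin]
    omega
  have hS4 : IsMultiplyPretransitive (Perm (Fin n)) (Fin n) 4 :=
    Equiv.Perm.isMultiplyPretransitive (Fin n) 4
  have hA4 : IsMultiplyPretransitive (alternatingGroup (Fin n)) (Fin n) 4 := by
    have := alternatingGroup.isMultiplyPretransitive (Fin n)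
    exact MulAction.isMultiplyPretransitive_of_le (n := Nat.card (Fin n) - 2)
      (by simp only [Nat.card_eq_fintype_card, Fintype.card_fin]; omega)
      (by simp)
  rcases h0 with h0 | h0
  · exact ⟨⟨th2 (G := alternatingGroup (Fin n)) (Fin n), irr_th2 (Fin n) hA4 hc⟩, h0,
      ⟨th2 (G := Perm (Fin n)) (Fin n), irr_th2 (Fin n) hS4 hc⟩, fun z => rfl⟩
  · exact ⟨⟨th11 (G := alternatingGroup (Fin n)) (Fin n), irr_th11 (Fin n) hA4 hc⟩, h0,
      ⟨th11 (G := Perm (Fin n)) (Fin n), irr_th11 (Fin n) hS4 hc⟩, fun z => rfl⟩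

end Cfsg.Agent.Lib.Helper93.SCh
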